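import Cfsg.Agent.Lib.Jordan.CyclicDefect.Ranks
import Cfsg.Agent.Lib.BrauerPairs.ValTransport
import Cfsg.Agent.Lib.DefectOne.Average

/-!
# Restricting to the image of an idempotent, and conjugation on a subgroup
-/

set_option autoImplicit false
set_option linter.style.haveILetI false
set_option linter.unusedSectionVars false

noncomputable section

namespace CfsgLib.Jordan.CyclicDefect

open Cfsg CfsgLib.Blocks MonoidAlgebra CfsgLib.BrauerPairs Module

section Cut

variable {K V : Type*} [Field K] [AddCommGroup V] [Module K V] {E : Module.End K V}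

/-- The endomorphism of the image of `E` induced by `f`. -/
def cut (E : Module.End K V) : Module.End K V →ₗ[K] Module.End K (LinearMap.range E) where
  toFun f := E.rangeRestrict.comp (f.comp (LinearMap.range E).subtype)
  map_add' f g := by ext v; simp
  map_smul' c f := by ext v; simp

/-- The extension by zero of an endomorphism of the image of `E`. -/
def ext0 (E : Module.End K V) (β : Module.End K (LinearMap.range E)) : Module.End K V :=
  (LinearMap.range E).subtype.comp (β.comp E.rangeRestrict)

theorem coe_cut (f : Module.End K V) (v : LinearMap.range E) :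
    (cut E f v : V) = E (f v) := rfl

variable (hE : E * E = E)
include hE

theorem apply_of_mem {v : V} (hv : v ∈ LinearMap.range E) : E v = v := by
  obtain ⟨x, rfl⟩ := hv
  exact LinearMap.congr_fun hE x

theorem coe_cut_of_commute {f : Module.End K V} (hf : Commute E f) (v : LinearMap.range E) :
    (cut E f v : V) = f v := by
  rw [coe_cut, ← Module.End.mul_apply, hf.eq, Module.End.mul_apply, apply_of_mem hE v.2]

theorem cut_one : cut E 1 = 1 := LinearMap.ext fun v => Subtype.ext (by
  rw [coe_cut_of_commute hE (Commute.one_right E)]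
  rfl)

theorem cut_mul {f g : Module.End K V} (hg : Commute E g) :
    cut E (f * g) = cut E f * cut E g := LinearMap.ext fun v => Subtype.ext (by
  rw [coe_cut, Module.End.mul_apply, Module.End.mul_apply, coe_cut, coe_cut_of_commute hE hg])

theorem cut_ext0 (β : Module.End K (LinearMap.range E)) : cut E (ext0 E β) = β :=
  LinearMap.ext fun v => Subtype.ext (by
    rw [coe_cut]
    show E (β (E.rangeRestrict v) : V) = (β v : V)
    rw [apply_of_mem hE (β _).2,
      show E.rangeRestrict (v : V) = v from Subtype.ext (apply_of_mem hE v.2)])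

theorem ext0_mul_mul (β : Module.End K (LinearMap.range E)) : E * ext0 E β * E = ext0 E β :=
  LinearMap.ext fun v => by
    show E (β (E.rangeRestrict (E v)) : V) = (β (E.rangeRestrict v) : V)
    rw [apply_of_mem hE (β _).2,
      show E.rangeRestrict (E v) = E.rangeRestrict v from Subtype.ext (LinearMap.congr_fun hE v)]

theorem commute_ext0 {f : Module.End K V} (hf : Commute E f) {β : Module.End K (LinearMap.range E)}
    (h : Commute (cut E f) β) : Commute f (ext0 E β) :=
  LinearMap.ext fun v => by
    show f (β (E.rangeRestrict v) : V) = (β (E.rangeRestrict (f v)) : V)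
    rw [← coe_cut_of_commute hE hf, ← Module.End.mul_apply, h.eq, Module.End.mul_apply]
    refine congrArg (fun w => ((β w : LinearMap.range E) : V)) (Subtype.ext ?_)
    rw [coe_cut_of_commute hE hf]
    exact (LinearMap.congr_fun hf.eq v).symm

theorem finrank_range_cut [FiniteDimensional K V] {f : Module.End K V} (hf : Commute E f)
    (hfE : f * E = f) : finrank K (LinearMap.range (cut E f)) = finrank K (LinearMap.range f) := by
  rw [← Submodule.finrank_map_subtype_eq (LinearMap.range E) (LinearMap.range (cut E f))]
  have h : (LinearMap.range E).subtype ∘ₗ cut E f = f.comp (LinearMap.range E).subtype :=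
    LinearMap.ext fun v => coe_cut_of_commute hE hf v
  have h2 : Submodule.map (LinearMap.range E).subtype (LinearMap.range (cut E f)) =
      LinearMap.range f := by
    rw [← LinearMap.range_comp, h, LinearMap.range_comp, Submodule.range_subtype,
      ← LinearMap.range_comp, show f.comp E = f from hfE]
  rw [h2]

end Cut

section ConjOn

variable {G : Type*} [Group G] (C : Subgroup G)

/-- Conjugation by a normalising element. -/
def conjOn (x : G) (hx : ∀ g, g ∈ C ↔ x * g * x⁻¹ ∈ C) : C ≃* C where
  toFun g := ⟨x * g * x⁻¹, (hx g).1 g.2⟩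
  invFun g := ⟨x⁻¹ * g * x, (hx _).2 (by simpa [mul_assoc] using g.2)⟩
  left_inv g := Subtype.ext (show x⁻¹ * (x * (g : G) * x⁻¹) * x = g by group)
  right_inv g := Subtype.ext (show x * (x⁻¹ * (g : G) * x) * x⁻¹ = g by group)
  map_mul' g h := Subtype.ext (show x * ((g : G) * h) * x⁻¹ = x * g * x⁻¹ * (x * h * x⁻¹) by group)

theorem coe_conjOn (x : G) (hx : ∀ g, g ∈ C ↔ x * g * x⁻¹ ∈ C) (g : C) :
    (conjOn C x hx g : G) = x * g * x⁻¹ := rfl

theorem conjOn_iterate (x : G) (hx : ∀ g, g ∈ C ↔ x * g * x⁻¹ ∈ C) (i : ℕ) (g : C) :
    (((conjOn C x hx : C → C)^[i] g : C) : G) = x ^ i * g * (x ^ i)⁻¹ := by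
  induction i with
  | zero => simp
  | succ i ih =>
    rw [Function.iterate_succ_apply', coe_conjOn, ih, pow_succ']
    group

variable {C} {k : Type*} [Field k]

theorem single_mul_mapG_mul_single (x : G) (hx : ∀ g, g ∈ C ↔ x * g * x⁻¹ ∈ C)
    (a : MonoidAlgebra k C) :
    single x (1 : k) * mapG C.subtype a * single x⁻¹ 1 =
      mapG C.subtype (mapG (conjOn C x hx).toMonoidHom a) := by
  induction a using MonoidAlgebra.induction_linear with
  | zero => simp
  | add a b ha hb => simp only [map_add, mul_add, add_mul, ha, hb]
  | single g r => simp [mapG, single_mul_single, coe_conjOn]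

theorem conjA_eq_mul (x : G) (a : MonoidAlgebra k G) :
    conjA x a = single x (1 : k) * a * single x⁻¹ 1 := by
  induction a using MonoidAlgebra.induction_linear with
  | zero => simp
  | add a b ha hb => simp only [map_add, mul_add, add_mul, ha, hb]
  | single g r => simp [single_mul_single]

theorem mapRingHom_mapG {K : Type*} [Field K] (f : k →+* K) {H : Type*} [Group H] (φ : H →* G)
    (a : MonoidAlgebra k H) :
    mapRingHom G f (mapG φ a) = mapG φ (mapRingHom H f a) := by
  induction a using MonoidAlgebra.induction_linear with
  | zero => simp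
  | add a b ha hb => simp only [map_add, ha, hb]
  | single g r => simp [mapG, mapRingHom_single]

end ConjOn

section Idem

variable {G : Type*} [Group G] [Fintype G]

theorem blockIdem_mul_of_subset {U W : Set (IrrCharacter G)} (h : U ⊆ W) :
    blockIdem U * blockIdem W = blockIdem U := by
  classical
  refine eq_of_omega_eq ((isClassElem_blockIdem U).mul (isClassElem_blockIdem W))
    (isClassElem_blockIdem U) fun χ => ?_
  rw [omega_mul χ.2 (isClassElem_blockIdem U), omega_blockIdem, omega_blockIdem]
  by_cases hU : χ ∈ U
  · rw [if_pos hU, if_pos (h hU), one_mul]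
  · rw [if_neg hU, zero_mul]

end Idem

end CfsgLib.Jordan.CyclicDefect
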