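import Cfsg.Agent.Lib.Jordan.CyclicDefect.Twisting
import Cfsg.Agent.Lib.Jordan.CyclicDefect.Cut

/-!
# The action of a block algebra of a subgroup on the reduction of a representation
-/

set_option autoImplicit false
set_option linter.style.haveILetI false
set_option linter.unusedSectionVars false

noncomputable section

namespace CfsgLib.Jordan.CyclicDefect

open Cfsg CfsgLib.Blocks MonoidAlgebra CfsgLib.BrauerPairs CfsgLib.BlockStar Module
open CfsgLib.BrauerCharacters (annIdeal annMap mem_annIdeal annMap_surjective annMap_eq_zero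
  annMap_eq_iff)

variable {G : Type*} [Group G] [Fintype G] {M : Ideal AlgInt} [M.IsPrime] (S : Above M)
  {χ : IrrCharacter G} (L : LocalRep S χ)

/-- The reduced space. -/
abbrev Spc : Type := Fin L.N → S.K

/-- A matrix over the valuation ring acting on the reduced space. -/
def toEnd : Matrix (Fin L.N) (Fin L.N) S.V →+* Module.End S.K (Spc S L) :=
  (Matrix.toLinAlgEquiv' (R := S.K) (n := Fin L.N)).toAlgHom.toRingHom.comp S.res.mapMatrix

/-- The reduced action of the group. -/
def sigG : G →* Module.End S.K (Spc S L) := (toEnd S L).toMonoidHom.comp L.ρ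

/-- The reduced action of the group algebra. -/
def actK : MonoidAlgebra S.K G →ₐ[S.K] Module.End S.K (Spc S L) :=
  (Matrix.toLinAlgEquiv' (R := S.K) (n := Fin L.N)).toAlgHom.comp (redAlg S L.ρ)

variable (C : Subgroup G)

/-- The reduced action of the group algebra of a subgroup. -/
def actC : MonoidAlgebra S.K C →ₐ[S.K] Module.End S.K (Spc S L) :=
  (actK S L).comp (mapG C.subtype)

theorem actK_single (g : G) : actK S L (single g 1) = sigG S L g := by
  rw [actK, AlgHom.comp_apply, redAlg_single, one_smul]; rfl

theorem actC_apply (a : MonoidAlgebra S.K C) :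
    actC S L C a = actK S L (mapG C.subtype a) := rfl

theorem actC_single (g : C) : actC S L C (single g 1) = sigG S L (g : G) := by
  rw [actC_apply, ← actK_single]; congr 1; simp [mapG]

theorem sigG_mul_actC (x : G) (hx : ∀ g, g ∈ C ↔ x * g * x⁻¹ ∈ C) (a : MonoidAlgebra S.K C) :
    sigG S L x * actC S L C a * sigG S L x⁻¹ =
      actC S L C (mapG (conjOn C x hx).toMonoidHom a) := by
  rw [actC_apply, actC_apply, ← actK_single, ← actK_single, ← map_mul, ← map_mul,
    single_mul_mapG_mul_single]

theorem commute_actK {β : Module.End S.K (Spc S L)} (hβ : ∀ g, Commute (sigG S L g) β)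
    (a : MonoidAlgebra S.K G) : Commute (actK S L a) β := by
  induction a using MonoidAlgebra.induction_linear with
  | zero => simp
  | add x y hx hy => rw [map_add]; exact hx.add_left hy
  | single g r =>
    rw [show single g r = r • single g (1 : S.K) by rw [smul_single, smul_eq_mul, mul_one],
      map_smul, actK_single]
    exact (hβ g).smul_left r

variable [Fintype C]

theorem actC_eq_toLin (a : MonoidAlgebra S.K C) :
    actC S L C a = Matrix.toLinAlgEquiv' (redAlg S (L.ρ.comp C.subtype) a) := by
  rw [actC_apply, actK, AlgHom.comp_apply]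
  refine congrArg _ ?_
  induction a using MonoidAlgebra.induction_linear with
  | zero => simp
  | add x y hx hy => rw [map_add, map_add, map_add, hx, hy]
  | single g r => simp [mapG, redAlg_single]

theorem toEnd_valAlg (z : MonoidAlgebra S.V C) :
    toEnd S L (valAlg S (L.ρ.comp C.subtype) z) = actC S L C (mapRingHom C S.res z) := by
  rw [actC_eq_toLin, ← map_valAlg]; rfl

variable {C} {p : ℕ} [Fact p.Prime] [CharP (Res M) p] [IsAlgClosed (Res M)]
  {b : Set (IrrCharacter C)} {P : Subgroup C} {e0 : MonoidAlgebra (Res M) C}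
  (H : AbNilp p M b P e0)

/-- The projection onto the part in the block. -/
def AbNilp.cutE : Module.End S.K (Spc S L) := actC S L C (H.eK S)

theorem AbNilp.cutE_mul_self : H.cutE S L * H.cutE S L = H.cutE S L := by
  rw [AbNilp.cutE, ← map_mul, H.eK_mul_self]

theorem AbNilp.commute_cutE (a : MonoidAlgebra S.K C) : Commute (H.cutE S L) (actC S L C a) :=
  (((H.isClassElem_eK S).commute a).symm).map (actC S L C)

theorem AbNilp.commute_cutE_sigG (g : C) : Commute (H.cutE S L) (sigG S L (g : G)) :=
  actC_single S L C g ▸ H.commute_cutE S L _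

theorem AbNilp.cut_cutE : cut (H.cutE S L) (H.cutE S L) = 1 :=
  LinearMap.ext fun v => Subtype.ext (by
    rw [coe_cut_of_commute (H.cutE_mul_self S L) (Commute.refl _),
      apply_of_mem (H.cutE_mul_self S L) v.2]
    rfl)

/-- The action of the group algebra on the part in the block. -/
def AbNilp.phi0 :
    MonoidAlgebra S.K C →ₐ[S.K] Module.End S.K (LinearMap.range (H.cutE S L)) :=
  AlgHom.ofLinearMap ((cut (H.cutE S L)).comp (actC S L C).toLinearMap)
    (by
      show cut (H.cutE S L) (actC S L C 1) = 1
      rw [map_one, cut_one (H.cutE_mul_self S L)])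
    (fun x y => by
      show cut (H.cutE S L) (actC S L C (x * y)) = cut _ (actC S L C x) * cut _ (actC S L C y)
      rw [map_mul, cut_mul (H.cutE_mul_self S L) (H.commute_cutE S L y)])

theorem AbNilp.phi0_eq_zero : ∀ a ∈ annIdeal (H.eK S), H.phi0 S L a = 0 := fun a ha => by
  show cut (H.cutE S L) (actC S L C a) = 0
  have h0 : actC S L C a * H.cutE S L = 0 := by
    rw [AbNilp.cutE, ← map_mul, mem_annIdeal.1 ha, map_zero]
  rw [← mul_one (cut (H.cutE S L) (actC S L C a)), ← H.cut_cutE S L,
    ← cut_mul (H.cutE_mul_self S L) (Commute.refl _), h0, map_zero]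

/-- The action of the block algebra on the part in the block. -/
def AbNilp.phi : H.Alg S →ₐ[S.K] Module.End S.K (LinearMap.range (H.cutE S L)) :=
  Ideal.Quotient.liftₐ (annIdeal (H.eK S)) (H.phi0 S L) (H.phi0_eq_zero S L)

theorem AbNilp.phi_annMap (a : MonoidAlgebra S.K C) :
    H.phi S L (annMap (H.eK S) a) = cut (H.cutE S L) (actC S L C a) := rfl

section Top

variable {x : G} (hEx : Commute (H.cutE S L) (sigG S L x))
  (hEx' : Commute (H.cutE S L) (sigG S L x⁻¹))

/-- A normalising element as a unit on the part in the block. -/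
def AbNilp.unitT : (Module.End S.K (LinearMap.range (H.cutE S L)))ˣ :=
  ⟨cut _ (sigG S L x), cut _ (sigG S L x⁻¹),
    by rw [← cut_mul (H.cutE_mul_self S L) hEx', ← map_mul, mul_inv_cancel, map_one,
      cut_one (H.cutE_mul_self S L)],
    by rw [← cut_mul (H.cutE_mul_self S L) hEx, ← map_mul, inv_mul_cancel, map_one,
      cut_one (H.cutE_mul_self S L)]⟩

theorem AbNilp.unitT_pow (i : ℕ) :
    (H.unitT S L hEx hEx' : Module.End S.K (LinearMap.range (H.cutE S L))) ^ i =
      cut _ (sigG S L (x ^ i)) ∧ Commute (H.cutE S L) (sigG S L (x ^ i)) := by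
  induction i with
  | zero =>
    exact ⟨by rw [pow_zero, pow_zero, map_one, cut_one (H.cutE_mul_self S L)],
      by rw [pow_zero, map_one]; exact Commute.one_right _⟩
  | succ i ih =>
    refine ⟨?_, by rw [pow_succ, map_mul]; exact ih.2.mul_right hEx⟩
    rw [pow_succ, pow_succ, map_mul, cut_mul (H.cutE_mul_self S L) hEx, ih.1]
    rfl

end Top

end CfsgLib.Jordan.CyclicDefect
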