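import Cfsg.Agent.Lib.Jordan.CyclicDefect.Model
import Mathlib.LinearAlgebra.GeneralLinearGroup.AlgEquiv

/-!
# Automorphisms of the block algebra fixing a member

An automorphism fixing the pair and the base member permutes the central elements like the elements
of the defect group and induces an inner automorphism of the matrix quotient.
-/

set_option autoImplicit false
set_option linter.style.haveILetI false
set_option linter.unusedSectionVars false

noncomputable section

namespace CfsgLib.Jordan.CyclicDefect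

open Cfsg CfsgLib.Blocks MonoidAlgebra CfsgLib.BrauerPairs CfsgLib.BlockStar Module
open CfsgLib.BrauerCharacters (annIdeal annMap mem_annIdeal annMap_surjective annMap_eq_zero
  annMap_eq_iff)

variable {C : Type*} [Group C] [Fintype C] {M : Ideal AlgInt} [M.IsPrime] {p : ℕ} [Fact p.Prime]
  [CharP (Res M) p] [IsAlgClosed (Res M)]
  {b : Set (IrrCharacter C)} {P : Subgroup C} {e0 : MonoidAlgebra (Res M) C}
  (S : Above M) (H : AbNilp p M b P e0) {θ : IrrCharacter C} (hθ : θ ∈ b)
  (σ : C ≃* C) (hσP : P.map σ.toMonoidHom = P) (hσe : mapG σ.toMonoidHom e0 = e0)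
  (hfix : compIrr σ θ = θ)

include hσe hfix in
theorem AbNilp.zcFun_map (v : P) (g : C) :
    H.zcFun hθ (restrictP σ hσP v) (σ g) = H.zcFun hθ v g := by
  classical
  have hsurj : Function.Surjective (restrictP σ hσP) := by
    refine Finite.surjective_of_injective fun v w h => Subtype.ext (σ.injective ?_)
    exact congrArg Subtype.val h
  have hinj : Function.Injective fun l : P →* ℂˣ => l.comp (restrictP σ hσP) := by
    intro l m h
    refine MonoidHom.ext fun w => ?_
    obtain ⟨w, rfl⟩ := hsurj w
    exact DFunLike.congr_fun h w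
  have hb : ∀ (ψ : IrrCharacter C) (x : C),
      blockCoeff {ψ} (σ x) = blockCoeff {compIrr σ ψ} x := fun ψ x => by
    rw [blockCoeff, blockCoeff, finsum_mem_singleton, finsum_mem_singleton, compIrr_apply,
      compIrr_apply, map_one]
  simp only [AbNilp.zcFun, hb, H.th_comp hθ σ hσP hσe hfix]
  exact Fintype.sum_bijective (fun l : P →* ℂˣ => l.comp (restrictP σ hσP))
    (Finite.injective_iff_bijective.1 hinj) _ _ fun l => by rw [MonoidHom.comp_apply]

include hσe hfix in
theorem AbNilp.mapG_zK (v : P) :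
    mapG σ.toMonoidHom (H.zK S hθ v) = H.zK S hθ (restrictP σ hσP v) := by
  refine MonoidAlgebra.ext (Finsupp.ext fun g => ?_)
  obtain ⟨g, rfl⟩ := σ.surjective g
  rw [show σ g = σ.toMonoidHom g from rfl, coeff_mapG_apply (φ := σ.toMonoidHom) σ.injective]
  simp only [AbNilp.zK, coeff_mapRingHom]
  exact congrArg _ (Subtype.ext (H.zcFun_map hθ σ hσP hσe hfix v g).symm)

include hθ hσP hσe hfix in
theorem AbNilp.mapG_eK : mapG σ.toMonoidHom (H.eK S) = H.eK S := by
  rw [← H.zK_one S hθ, H.mapG_zK S hθ σ hσP hσe hfix, map_one]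

include hθ hσP hσe hfix in
theorem AbNilp.autAlg_aux : ∀ a ∈ annIdeal (H.eK S),
    ((annMap (H.eK S)).comp (mapG σ.toMonoidHom)) a = 0 := fun a ha => by
  show annMap (H.eK S) (mapG σ.toMonoidHom a) = 0
  rw [annMap_eq_zero, ← H.mapG_eK S hθ σ hσP hσe hfix, ← map_mul, mem_annIdeal.1 ha, map_zero]

/-- The automorphism of the block algebra. -/
def AbNilp.autAlg : H.Alg S →ₐ[S.K] H.Alg S :=
  Ideal.Quotient.liftₐ (annIdeal (H.eK S)) ((annMap (H.eK S)).comp (mapG σ.toMonoidHom))
    (H.autAlg_aux S hθ σ hσP hσe hfix)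

theorem AbNilp.autAlg_annMap (a : MonoidAlgebra S.K C) :
    H.autAlg S hθ σ hσP hσe hfix (annMap (H.eK S) a) = annMap (H.eK S) (mapG σ.toMonoidHom a) :=
  rfl

theorem AbNilp.autAlg_surjective : Function.Surjective (H.autAlg S hθ σ hσP hσe hfix) := by
  intro x
  obtain ⟨a, rfl⟩ := annMap_surjective x
  refine ⟨annMap (H.eK S) (mapG σ.symm.toMonoidHom a), ?_⟩
  rw [H.autAlg_annMap]
  congr 1
  induction a using MonoidAlgebra.induction_linear with
  | zero => simp
  | add x y hx hy => simp only [map_add, hx, hy]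
  | single g c => simp [mapG]

variable {d : ℕ} (ρ : C →* Matrix (Fin d) (Fin d) S.V)
  (htr : ∀ g, (((ρ g).trace : S.V) : ℂ) = (θ : C → ℂ) g)

include htr in
theorem AbNilp.trace_algRep_autAlg (x : H.Alg S) :
    (H.algRep S hθ ρ htr (H.autAlg S hθ σ hσP hσe hfix x)).trace =
      (H.algRep S hθ ρ htr x).trace := by
  obtain ⟨a, rfl⟩ := annMap_surjective x
  rw [H.autAlg_annMap, H.algRep_annMap, H.algRep_annMap]
  induction a using MonoidAlgebra.induction_linear with
  | zero => simp
  | add x y hx hy => simp only [map_add, Matrix.trace_add, hx, hy]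
  | single g c =>
    have h1 : mapG (k := S.K) σ.toMonoidHom (single g c) = single (σ g) c := by simp [mapG]
    rw [h1, redAlg_single, redAlg_single, Matrix.trace_smul, Matrix.trace_smul,
      show ∀ Y : Matrix (Fin d) (Fin d) S.V, (Y.map S.res).trace = S.res Y.trace from fun Y => by
        simp [Matrix.trace, map_sum],
      show ∀ Y : Matrix (Fin d) (Fin d) S.V, (Y.map S.res).trace = S.res Y.trace from fun Y => by
        simp [Matrix.trace, map_sum]]
    congr 2
    refine Subtype.ext ?_
    rw [htr, htr]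
    exact congrFun (congrArg Subtype.val hfix) g

include htr in
theorem AbNilp.algRep_autAlg_eq_zero {x : H.Alg S} (hx : H.algRep S hθ ρ htr x = 0) :
    H.algRep S hθ ρ htr (H.autAlg S hθ σ hσP hσe hfix x) = 0 := by
  classical
  refine Matrix.ext fun i j => ?_
  obtain ⟨a, ha⟩ := H.redAlg_surjective S ρ hθ htr (Matrix.single j i 1)
  obtain ⟨y, hy⟩ := H.autAlg_surjective S hθ σ hσP hσe hfix (annMap (H.eK S) a)
  have h := H.trace_algRep_autAlg S hθ σ hσP hσe hfix ρ htr (x * y)
  rw [map_mul, map_mul, map_mul, hy, hx, zero_mul, H.algRep_annMap, ha] at h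
  simpa [Matrix.trace, Matrix.mul_apply, Matrix.single_apply, Matrix.zero_apply, ite_and,
    Finset.sum_ite_eq, Finset.sum_ite_eq'] using h

include htr in
/-- The induced automorphism of the matrices is inner. -/
theorem AbNilp.exists_intertwiner :
    ∃ U : H.Alg S, IsUnit (H.algRep S hθ ρ htr U) ∧ ∀ y,
      H.algRep S hθ ρ htr (H.autAlg S hθ σ hσP hσe hfix y) * H.algRep S hθ ρ htr U =
        H.algRep S hθ ρ htr U * H.algRep S hθ ρ htr y := by
  classical
  set R := H.algRep S hθ ρ htr with hR
  set α := H.autAlg S hθ σ hσP hσe hfix with hα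
  have hRsurj : Function.Surjective R := fun m => by
    obtain ⟨a, ha⟩ := H.redAlg_surjective S ρ hθ htr m
    exact ⟨annMap (H.eK S) a, ha⟩
  choose lift hlift using hRsurj
  have hwd : ∀ x y, R x = R y → R (α x) = R (α y) := fun x y h => by
    rw [← sub_eq_zero, ← map_sub, ← map_sub]
    exact H.algRep_autAlg_eq_zero S hθ σ hσP hσe hfix ρ htr (by rw [map_sub, h, sub_self])
  let f : Matrix (Fin d) (Fin d) S.K →ₐ[S.K] Matrix (Fin d) (Fin d) S.K :=
    AlgHom.ofLinearMap
      { toFun := fun m => R (α (lift m))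
        map_add' := fun m n => by
          rw [← map_add, ← map_add]
          exact hwd _ _ (by rw [hlift, map_add, hlift, hlift])
        map_smul' := fun c m => by
          rw [RingHom.id_apply, ← map_smul, ← map_smul]
          exact hwd _ _ (by rw [hlift, map_smul, hlift]) }
      (by
        show R (α (lift 1)) = 1
        rw [hwd (lift 1) 1 (by rw [hlift, map_one]), map_one, map_one])
      (fun m n => by
        show R (α (lift (m * n))) = R (α (lift m)) * R (α (lift n))
        rw [← map_mul, ← map_mul]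
        exact hwd _ _ (by rw [hlift, map_mul, hlift, hlift]))
  have hf : ∀ y, f (R y) = R (α y) := fun y => hwd _ _ (hlift _)
  have hfs : Function.Surjective f := fun m => by
    obtain ⟨y, hy⟩ := H.autAlg_surjective S hθ σ hσP hσe hfix (lift m)
    exact ⟨R y, by rw [hf, hy, hlift]⟩
  let fe := AlgEquiv.ofBijective f
    ⟨(LinearMap.injective_iff_surjective (f := f.toLinearMap)).2 hfs, hfs⟩
  let E := Matrix.toLinAlgEquiv' (R := S.K) (n := Fin d)
  obtain ⟨T, hT⟩ := AlgEquiv.eq_linearEquivConjAlgEquiv ((E.symm.trans fe).trans E)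
  obtain ⟨U, hU⟩ : ∃ U, R U = E.symm T.toLinearMap := ⟨_, hlift _⟩
  obtain ⟨V, hV⟩ : ∃ V, R V = E.symm T.symm.toLinearMap := ⟨_, hlift _⟩
  have h1 : R U * R V = 1 := by
    rw [hU, hV, ← map_mul, ← map_one E.symm]
    congr 1
    exact LinearMap.ext fun v => T.apply_symm_apply v
  refine ⟨U, (Matrix.isUnit_iff_isUnit_det _).2 (Matrix.isUnit_det_of_right_inverse h1), fun y => ?_⟩
  apply E.injective
  rw [map_mul, map_mul, ← hf, hU, AlgEquiv.apply_symm_apply]
  refine LinearMap.ext fun v => ?_
  have h2 := DFunLike.congr_fun hT (E (R y))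
  simp only [AlgEquiv.trans_apply, AlgEquiv.symm_apply_apply, fe] at h2
  change E (f (R y)) = _ at h2
  rw [h2, Module.End.mul_apply, Module.End.mul_apply, LinearEquiv.conjAlgEquiv_apply]
  simp

end CfsgLib.Jordan.CyclicDefect
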