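import Cfsg.Agent.Lib.Jordan.CyclicDefect.Structure
import Cfsg.Agent.Lib.CharDegreesTheory.BlockDegrees

/-!
# Rank, degrees and heights in a block with cyclic defect group
-/

set_option autoImplicit false
set_option linter.style.haveILetI false
set_option linter.unusedSectionVars false
set_option maxHeartbeats 800000

noncomputable section

namespace CfsgLib.Jordan.CyclicDefect

open Cfsg CfsgLib.Blocks MonoidAlgebra CfsgLib.BrauerPairs CfsgLib.BlockStar
open scoped Classical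

attribute [local instance 5] Fintype.ofFinite

variable {G : Type*} [Group G] [Fintype G] {M : Ideal AlgInt} [M.IsPrime] {p : ℕ} [Fact p.Prime]
  {B : Set (IrrCharacter G)} {D : Subgroup G} {e0 : MonoidAlgebra (Res M) G} {a e : ℕ}
  [NeZero (p ^ a)]

theorem LamF_smul (k : ℂ) (F : G → ℂ) (u : G) (c : MonoidAlgebra (Res M) G) :
    LamF p D e0 (fun x => k * F x) u c = k * LamF p D e0 F u c := by
  by_cases h : ∃ g : G, PairLE p (⊤ : Subgroup G) (Subgroup.zpowers (g * u * g⁻¹)) (conjA g c) D e0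
  · simp only [LamF, dif_pos h]
  · simp only [LamF, dif_neg h, mul_zero]

theorem sum_LamF {ι : Type*} (s : Finset ι) (k : ι → ℂ) (F : ι → G → ℂ) (u : G)
    (c : MonoidAlgebra (Res M) G) :
    ∑ i ∈ s, k i * LamF p D e0 (F i) u c = LamF p D e0 (fun x => ∑ i ∈ s, k i * F i x) u c := by
  by_cases h : ∃ g : G, PairLE p (⊤ : Subgroup G) (Subgroup.zpowers (g * u * g⁻¹)) (conjA g c) D e0
  · simp only [LamF, dif_pos h]
  · simp only [LamF, dif_neg h, mul_zero, Finset.sum_const_zero]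

namespace CycData

variable (S : CycData p M B D e0 a e) (K : CycBlock p M B D e0 a e)
include S

theorem mem_of_mem_X {χ : IrrCharacter G} (h : χ ∈ S.X) : χ ∈ B := by
  rw [S.union]; exact Or.inl h

theorem mem_of_mem_Y {χ : IrrCharacter G} (h : χ ∈ S.Y) : χ ∈ B := by
  rw [S.union]; exact Or.inr h

include K in
theorem Y_nonempty : S.Y.Nonempty := by
  obtain ⟨l, hl⟩ := K.exists_ne_one
  obtain ⟨ψ, hψ, -⟩ := S.lam_exists l hl
  exact ⟨ψ, hψ⟩

theorem X_nonempty (he : 0 < e) : S.X.Nonempty := by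
  rw [Set.nonempty_iff_ne_empty]
  intro h
  have := S.card_X
  rw [h, Nat.card_coe_set_eq, Set.ncard_empty] at this
  omega

include K in
/-- The nontrivial linear characters are the powers of the chosen ones. -/
theorem sum_Y [Fintype (D →* ℂˣ)] {A : Type*} [AddCommMonoid A] (f : (D →* ℂˣ) → A) :
    ∑ ψ ∈ S.Y.toFinset, ∑ r ∈ expSet p a e, f (S.lam ψ ^ r.val) =
      ∑ l ∈ Finset.univ.erase 1, f l := by
  rw [← Finset.sum_product']
  refine Finset.sum_bij (fun x _ => S.lam x.1 ^ x.2.val) ?_ ?_ ?_ fun _ _ => rfl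
  · intro x hx
    rw [Finset.mem_product, Set.mem_toFinset] at hx
    exact Finset.mem_erase.2 ⟨K.pow_ne_one (S.lam_ne _ hx.1) hx.2, Finset.mem_univ _⟩
  · rintro ⟨ψ, r⟩ hx ⟨ψ', r'⟩ hx' h
    rw [Finset.mem_product, Set.mem_toFinset] at hx hx'
    simp only at hx hx' h
    obtain ⟨t, ht, hrt⟩ := K.exists_inv hx.2
    have h1 : S.lam ψ = S.lam ψ' ^ (r' * t).val := by
      rw [← K.hom_pow_val_mul, ← h, K.hom_pow_val_mul, hrt, K.hom_pow_one]
    obtain rfl := S.lam_inj ψ hx.1 ψ' hx'.1 ⟨_, mul_mem_expSet hx'.2 ht, h1⟩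
    exact Prod.ext rfl (K.hom_pow_injOn (S.lam_ne _ hx.1) hx.2 hx'.2 h)
  · intro l hl
    obtain ⟨ψ, hψ, r, hr, h⟩ := S.lam_exists l (Finset.mem_erase.1 hl).1
    obtain ⟨t, ht, hrt⟩ := K.exists_inv hr
    refine ⟨(ψ, t), Finset.mem_product.2 ⟨Set.mem_toFinset.2 hψ, ht⟩, ?_⟩
    show S.lam ψ ^ t.val = l
    rw [h, K.hom_pow_val_mul, hrt, K.hom_pow_one]

include K in
theorem card_Y_mul : Nat.card S.Y * e = p ^ a - 1 := by
  haveI := K.finite_homs
  have h := S.sum_Y K (fun _ => (1 : ℕ))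
  simp only [Finset.sum_const, smul_eq_mul, mul_one, Finset.card_erase_of_mem (Finset.mem_univ _),
    Finset.card_univ, K.card_expSet_eq, ← Nat.card_eq_fintype_card, K.card_homs] at h
  rw [Nat.card_coe_set_eq, Set.ncard_eq_toFinset_card']
  exact h

include K in
theorem sum_orbSum {v : G} (hv : v ∈ D) (hv1 : v ≠ 1) :
    ∑ ψ ∈ S.Y.toFinset, orbSum p a e (S.lam ψ) v = -1 := by
  haveI := K.finite_homs
  have h := S.sum_Y K (fun l => (l ⟨v, hv⟩ : ℂ))
  simp only [MonoidHom.pow_apply, Units.val_pow_eq_pow_val] at h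
  simp only [orbSum, dif_pos hv]
  rw [h, Finset.sum_erase_eq_sub (Finset.mem_univ _)]
  have h1 := K.sum_homs_apply ⟨v, hv⟩
  rw [if_neg fun h => hv1 (congrArg Subtype.val h)] at h1
  erw [h1]
  simp

/-- A combination of members on a singular element. -/
theorem sum_value (s : Finset (IrrCharacter G)) (hs : ∀ χ ∈ s, χ ∈ B) (k : IrrCharacter G → ℂ)
    {g : G} (hg : p ∣ orderOf g) :
    ∑ χ ∈ s, k χ * (χ : G → ℂ) g = ∑ c ∈ blocksAt M (ppart p g),
      LamF p D e0 (fun x => ∑ χ ∈ s, k χ * S.fn χ x) (ppart p g) c * S.Ω g c := by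
  simp only [← sum_LamF, Finset.sum_mul]
  rw [Finset.sum_comm]
  refine Finset.sum_congr rfl fun χ hχ => ?_
  rw [S.value χ (hs χ hχ) g hg, Finset.mul_sum]
  exact Finset.sum_congr rfl fun c _ => by rw [← mul_assoc]; rfl

/-- The sum of the sections. -/
def secSum (g : G) : ℂ :=
  ∑ c ∈ blocksAt M (ppart p g), LamF p D e0 (fun _ => 1) (ppart p g) c * S.Ω g c

theorem sum_X_value (k : IrrCharacter G → ℂ) {g : G} (hg : p ∣ orderOf g) :
    ∑ χ ∈ S.X.toFinset, k χ * (χ : G → ℂ) g =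
      (∑ χ ∈ S.X.toFinset, k χ * (S.δ χ : ℂ)) * S.secSum g := by
  rw [S.sum_value _ (fun χ h => S.mem_of_mem_X (Set.mem_toFinset.1 h)) k hg, secSum, Finset.mul_sum]
  refine Finset.sum_congr rfl fun c _ => ?_
  rw [← mul_assoc, ← LamF_smul]
  congr 2
  funext x
  rw [mul_one]
  exact Finset.sum_congr rfl fun χ hχ => by rw [CycData.fn, if_pos (Set.mem_toFinset.1 hχ)]

include K in
theorem sum_Y_value [CharP (Res M) p] [IsAlgClosed (Res M)] {g : G} (hg : p ∣ orderOf g) :
    ∑ ψ ∈ S.Y.toFinset, (S.δ₀ : ℂ) * (ψ : G → ℂ) g = S.secSum g := by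
  rw [S.sum_value _ (fun χ h => S.mem_of_mem_Y (Set.mem_toFinset.1 h)) _ hg, secSum]
  refine Finset.sum_congr rfl fun c _ => ?_
  rw [LamF_congr (ppart_ne_one hg) fun v hv hv1 => ?_]
  have h : ∀ ψ ∈ S.Y.toFinset, (S.δ₀ : ℂ) * S.fn ψ v = -orbSum p a e (S.lam ψ) v := fun ψ hψ => by
    rw [CycData.fn, if_neg fun hX => Set.disjoint_left.1 S.disj hX (Set.mem_toFinset.1 hψ)]
    rcases S.sign₀ with h | h <;> simp [h]
  rw [Finset.sum_congr rfl h, Finset.sum_neg_distrib, S.sum_orbSum K hv hv1, neg_neg]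

theorem sign_mul {χ : IrrCharacter G} (h : χ ∈ S.X) : (S.δ χ : ℂ) * (S.δ χ : ℂ) = 1 := by
  rcases S.sign χ h with h | h <;> simp [h]

theorem card_toFinset_X : S.X.toFinset.card = e := by
  rw [← Set.ncard_eq_toFinset_card', ← Nat.card_coe_set_eq, S.card_X]

include K in
/-- The restrictions of the members of `X` to the regular elements are independent. -/
theorem eq_zero_of_regular {k : IrrCharacter G → ℂ}
    (hk : ∀ g : G, ¬ p ∣ orderOf g → ∑ χ ∈ S.X.toFinset, k χ * (χ : G → ℂ) g = 0) :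
    ∀ χ ∈ S.X, k χ = 0 := by
  haveI := Blocks.charP_res K.hM
  haveI : M.IsMaximal := K.hM.2.1
  haveI : IsAlgClosed (Res M) := Blocks.isAlgClosed_res
  haveI := K.finite_homs
  set A := ∑ χ ∈ S.X.toFinset, k χ * (S.δ χ : ℂ) with hA
  set N : ℂ := (S.Y.toFinset.card : ℂ) with hN
  have hNe : 1 + N * e = (p : ℂ) ^ a := by
    have h1 : S.Y.toFinset.card * e + 1 = p ^ a := by
      have h := S.card_Y_mul K
      rw [Nat.card_coe_set_eq, Set.ncard_eq_toFinset_card'] at h
      have := K.one_lt_card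
      omega
    have h2 : ((S.Y.toFinset.card * e + 1 : ℕ) : ℂ) = ((p ^ a : ℕ) : ℂ) := by rw [h1]
    push_cast at h2
    rw [hN]
    linear_combination h2
  let Ψ : G → ℂ := fun g => ∑ ψ ∈ S.Y.toFinset, (S.δ₀ : ℂ) * (ψ : G → ℂ) g +
    N * ∑ χ ∈ S.X.toFinset, (S.δ χ : ℂ) * (χ : G → ℂ) g
  have hall : ∀ g : G, (p : ℂ) ^ a * ∑ χ ∈ S.X.toFinset, k χ * (χ : G → ℂ) g = A * Ψ g := by
    intro g
    by_cases hg : p ∣ orderOf g
    · simp only [Ψ]
      rw [S.sum_X_value k hg, S.sum_Y_value K hg, S.sum_X_value _ hg,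
        Finset.sum_congr rfl fun χ hχ => S.sign_mul (Set.mem_toFinset.1 hχ), Finset.sum_const,
        S.card_toFinset_X, nsmul_one, ← hNe]
      ring
    · rw [hk g hg, mul_zero]
      have : Ψ g = ∑ ψ ∈ S.Y.toFinset, ((S.δ₀ : ℂ) * (ψ : G → ℂ) g +
          ∑ χ ∈ S.X.toFinset, (S.δ χ : ℂ) * (χ : G → ℂ) g) := by
        rw [Finset.sum_add_distrib, Finset.sum_const, nsmul_eq_mul]
      rw [this, Finset.sum_eq_zero fun ψ hψ => ?_, mul_zero]
      have h := S.rel ψ (Set.mem_toFinset.1 hψ) g hg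
      rwa [finsum_mem_eq_toFinset_sum] at h
  -- compare the coefficients
  have hco : ∀ φ : IrrCharacter G, (if φ ∈ S.X then (p : ℂ) ^ a * k φ - A * N * (S.δ φ : ℂ) else 0) +
      (if φ ∈ S.Y then -(A * (S.δ₀ : ℂ)) else 0) = 0 := by
    intro φ
    have h0 : ∑ χ : IrrCharacter G, ((if χ ∈ S.X then (p : ℂ) ^ a * k χ - A * N * (S.δ χ : ℂ) else 0) +
        (if χ ∈ S.Y then -(A * (S.δ₀ : ℂ)) else 0)) • (χ : G → ℂ) = 0 := by
      funext g
      rw [Finset.sum_apply, Pi.zero_apply]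
      simp only [Pi.smul_apply, smul_eq_mul, add_mul, ite_mul, zero_mul, Finset.sum_add_distrib]
      rw [← Finset.sum_filter, ← Finset.sum_filter,
        show (Finset.univ.filter fun χ => χ ∈ S.X) = S.X.toFinset by ext; simp,
        show (Finset.univ.filter fun χ => χ ∈ S.Y) = S.Y.toFinset by ext; simp]
      have h := hall g
      simp only [Ψ, mul_add, Finset.mul_sum] at h
      simp only [sub_mul, Finset.sum_sub_distrib, neg_mul, Finset.sum_neg_distrib, mul_assoc] at h ⊢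
      linear_combination h
    have h1 := CharTheory.classInner_sum_irr (fun χ : IrrCharacter G =>
      (if χ ∈ S.X then (p : ℂ) ^ a * k χ - A * N * (S.δ χ : ℂ) else 0) +
        (if χ ∈ S.Y then -(A * (S.δ₀ : ℂ)) else 0)) φ
    rw [h0, CharTheory.classInner_zero_left] at h1
    exact h1.symm
  obtain ⟨ψ, hψ⟩ := S.Y_nonempty K
  have hA0 : A = 0 := by
    have h := hco ψ
    rw [if_neg (fun h => Set.disjoint_left.1 S.disj h hψ), if_pos hψ, zero_add, neg_eq_zero,
      mul_eq_zero] at h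
    refine h.resolve_right ?_
    rcases S.sign₀ with h | h <;> simp [h]
  intro χ hχ
  have h := hco χ
  rw [if_pos hχ, if_neg (Set.disjoint_left.1 S.disj hχ), add_zero, hA0, zero_mul, zero_mul,
    sub_zero, mul_eq_zero] at h
  exact h.resolve_left (pow_ne_zero _ (Nat.cast_ne_zero.2 (Fact.out : p.Prime).ne_zero))

include K in
/-- The regular rank is the inertial index. -/
theorem blockRank_eq : blockRank p B = e := by
  haveI := Blocks.charP_res K.hM
  haveI : M.IsMaximal := K.hM.2.1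
  haveI : IsAlgClosed (Res M) := Blocks.isAlgClosed_res
  haveI := K.finite_homs
  set v : S.X → (G → ℂ) := fun χ => pRegularPart p ((χ : IrrCharacter G) : G → ℂ)
  have hind : LinearIndependent ℂ v := by
    rw [Fintype.linearIndependent_iff]
    intro c hc χ
    let k : IrrCharacter G → ℂ := fun φ => if h : φ ∈ S.X then c ⟨φ, h⟩ else 0
    have h := S.eq_zero_of_regular K (k := k) (fun g hg => by
      have h := congrFun hc g
      rw [Finset.sum_apply, Pi.zero_apply] at h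
      rw [Finset.sum_subtype S.X.toFinset (p := (· ∈ S.X)) (fun x => Set.mem_toFinset)]
      refine Eq.trans (Finset.sum_congr rfl fun φ _ => ?_) h
      simp only [k, v, Pi.smul_apply, smul_eq_mul, BrauerCharacters.pRegularPart_apply, if_neg hg,
        dif_pos φ.2, Subtype.coe_eta]) χ χ.2
    simpa [k] using h
  have hspan : Submodule.span ℂ ((fun χ : IrrCharacter G => pRegularPart p (χ : G → ℂ)) '' B) =
      Submodule.span ℂ (Set.range v) := by
    refine le_antisymm (Submodule.span_le.2 ?_) (Submodule.span_mono ?_)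
    · rintro _ ⟨φ, hφ, rfl⟩
      rw [S.union] at hφ
      rcases hφ with hφ | hφ
      · exact Submodule.subset_span ⟨⟨φ, hφ⟩, rfl⟩
      · have h : (fun g => pRegularPart p (φ : G → ℂ) g) =
            ∑ χ : S.X, (-(S.δ₀ : ℂ) * (S.δ χ : ℂ)) • v χ := by
          funext g
          rw [Finset.sum_apply]
          simp only [v, Pi.smul_apply, smul_eq_mul, BrauerCharacters.pRegularPart_apply]
          by_cases hg : p ∣ orderOf g
          · simp [hg]
          · simp only [if_neg hg]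
            have h := S.rel φ hφ g hg
            rw [finsum_mem_eq_toFinset_sum,
              Finset.sum_subtype S.X.toFinset (p := (· ∈ S.X)) (fun x => Set.mem_toFinset)] at h
            simp only [mul_assoc, ← Finset.mul_sum]
            have h0 : (S.δ₀ : ℂ) * S.δ₀ = 1 := by rcases S.sign₀ with h | h <;> simp [h]
            linear_combination (S.δ₀ : ℂ) * h - (φ : G → ℂ) g * h0
        show (fun g => pRegularPart p (φ : G → ℂ) g) ∈ _
        rw [h]
        exact sum_mem fun χ _ => Submodule.smul_mem _ _ (Submodule.subset_span ⟨χ, rfl⟩)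
    · rintro _ ⟨χ, rfl⟩
      exact ⟨χ, S.mem_of_mem_X χ.2, rfl⟩
  rw [blockRank, hspan, finrank_span_eq_card hind, ← Nat.card_eq_fintype_card, S.card_X]

theorem congr_X {χ χ' : IrrCharacter G} (hχ : χ ∈ S.X) (hχ' : χ' ∈ S.X) :
    S.δ χ * (charDegree (χ : G → ℂ) : ℤ) ≡ S.δ χ' * (charDegree (χ' : G → ℂ) : ℤ)
      [ZMOD (p : ℤ) ^ (Nat.card G).factorization p] := by
  let c : IrrCharacter G → ℤ := fun φ =>
    (if φ = χ' then S.δ χ' else 0) - (if φ = χ then S.δ χ else 0)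
  have hs : ∀ f : IrrCharacter G → ℂ, ∑ φ ∈ S.X.toFinset, (c φ : ℂ) * f φ =
      (S.δ χ' : ℂ) * f χ' - (S.δ χ : ℂ) * f χ := by
    intro f
    simp only [c, Int.cast_sub, sub_mul, Finset.sum_sub_distrib, apply_ite (Int.cast : ℤ → ℂ),
      Int.cast_zero, ite_mul, zero_mul, Finset.sum_ite_eq', Set.mem_toFinset]
    rw [if_pos hχ, if_pos hχ']
  refine Int.modEq_iff_dvd.2 (CharDegreesTheory.pow_dvd_of_eval S.X.toFinset c ?_ fun g hg => ?_)
  · rw [hs fun φ => (φ : G → ℂ) 1, (BrauerCharacters.charDegree_spec χ).1,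
      (BrauerCharacters.charDegree_spec χ').1]
    push_cast; rfl
  · rw [S.sum_X_value _ hg, hs fun φ => (S.δ φ : ℂ), S.sign_mul hχ, S.sign_mul hχ', sub_self,
      zero_mul]

theorem congr_Y {ψ χ : IrrCharacter G} (hψ : ψ ∈ S.Y) (hχ : χ ∈ S.X) :
    (charDegree (ψ : G → ℂ) : ℤ) ≡ -((e : ℤ) * S.δ₀ * S.δ χ * (charDegree (χ : G → ℂ) : ℤ))
      [ZMOD (p : ℤ) ^ (Nat.card G).factorization p] := by
  have h := S.rel ψ hψ 1 (by simp [(Fact.out : p.Prime).ne_one])
  rw [finsum_mem_eq_toFinset_sum, (BrauerCharacters.charDegree_spec ψ).1,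
    Finset.sum_congr rfl fun φ _ => by rw [(BrauerCharacters.charDegree_spec φ).1]] at h
  have h' : S.δ₀ * (charDegree (ψ : G → ℂ) : ℤ) +
      ∑ φ ∈ S.X.toFinset, S.δ φ * (charDegree (φ : G → ℂ) : ℤ) = 0 := by exact_mod_cast h
  have h1 : ∑ φ ∈ S.X.toFinset, S.δ φ * (charDegree (φ : G → ℂ) : ℤ) ≡
      (e : ℤ) * (S.δ χ * (charDegree (χ : G → ℂ) : ℤ))
      [ZMOD (p : ℤ) ^ (Nat.card G).factorization p] := by
    rw [Int.modEq_iff_dvd, show (e : ℤ) * (S.δ χ * (charDegree (χ : G → ℂ) : ℤ)) -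
      ∑ φ ∈ S.X.toFinset, S.δ φ * (charDegree (φ : G → ℂ) : ℤ) = ∑ φ ∈ S.X.toFinset,
        (S.δ χ * (charDegree (χ : G → ℂ) : ℤ) - S.δ φ * (charDegree (φ : G → ℂ) : ℤ)) by
      rw [Finset.sum_sub_distrib, Finset.sum_const, S.card_toFinset_X, nsmul_eq_mul]]
    exact Finset.dvd_sum fun φ hφ =>
      Int.modEq_iff_dvd.1 (S.congr_X (Set.mem_toFinset.1 hφ) hχ)
  have h0 : S.δ₀ * S.δ₀ = 1 := by rcases S.sign₀ with h | h <;> simp [h]
  calc (charDegree (ψ : G → ℂ) : ℤ)
      = -S.δ₀ * ∑ φ ∈ S.X.toFinset, S.δ φ * (charDegree (φ : G → ℂ) : ℤ) := by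
        linear_combination S.δ₀ * h' - (charDegree (ψ : G → ℂ) : ℤ) * h0
    _ ≡ -S.δ₀ * ((e : ℤ) * (S.δ χ * (charDegree (χ : G → ℂ) : ℤ)))
      [ZMOD (p : ℤ) ^ (Nat.card G).factorization p] := h1.mul_left _
    _ = _ := by ring

include K in
theorem height_eq_zero {χ : IrrCharacter G} (hχ : χ ∈ B) : blockHeight p B (χ : G → ℂ) = 0 := by
  haveI := Blocks.charP_res K.hM
  haveI : M.IsMaximal := K.hM.2.1
  haveI : IsAlgClosed (Res M) := Blocks.isAlgClosed_res
  have hp := (Fact.out : p.Prime)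
  set n := (Nat.card G).factorization p
  set d : IrrCharacter G → ℕ := fun φ => charDegree (φ : G → ℂ) with hd
  obtain ⟨χ0, hχ0⟩ := S.X_nonempty K.e_pos
  have hkey : ∀ φ ∈ B, ∀ j ≤ n, (p ^ j ∣ d φ ↔ p ^ j ∣ d χ0) := by
    intro φ hφ j hj
    have hmul : ∀ {u v : ℤ}, u ≡ v [ZMOD (p : ℤ) ^ n] → ((p : ℤ) ^ j ∣ u ↔ (p : ℤ) ^ j ∣ v) := by
      intro u v h
      have h1 : (p : ℤ) ^ j ∣ v - u := (pow_dvd_pow _ hj).trans (Int.modEq_iff_dvd.1 h)
      exact dvd_iff_dvd_of_dvd_sub (by simpa [dvd_neg] using h1.neg_right)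
    have hunit : ∀ {s : ℤ}, s = 1 ∨ s = -1 → ∀ u : ℤ,
        ((p : ℤ) ^ j ∣ s * u ↔ (p : ℤ) ^ j ∣ u) := fun hs u => by
      rcases hs with rfl | rfl <;> simp
    rw [← Int.natCast_dvd_natCast, ← Int.natCast_dvd_natCast (m := p ^ j), Nat.cast_pow]
    rw [S.union] at hφ
    rcases hφ with hφ | hφ
    · rw [← hunit (S.sign φ hφ), hmul (S.congr_X hφ hχ0), hunit (S.sign χ0 hχ0)]
    · rw [hmul (S.congr_Y hφ hχ0), dvd_neg, mul_assoc, mul_assoc]
      have hcop : IsCoprime ((p : ℤ) ^ j) (e : ℤ) :=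
        IsCoprime.pow_left (Nat.Coprime.isCoprime (hp.coprime_iff_not_dvd.2 K.not_dvd_e))
      rw [show ∀ u : ℤ, ((p : ℤ) ^ j ∣ (e : ℤ) * u ↔ (p : ℤ) ^ j ∣ u) from fun u =>
          ⟨fun h => hcop.dvd_of_dvd_mul_left h, fun h => h.mul_left _⟩,
        hunit S.sign₀, hunit (S.sign χ0 hχ0)]
  have hle : ∀ φ : IrrCharacter G, (d φ).factorization p ≤ n := fun φ =>
    BrauerCharacters.degree_le_factorization φ
  have hne : ∀ φ : IrrCharacter G, d φ ≠ 0 := fun φ =>
    (BrauerCharacters.charDegree_spec φ).2.1.ne'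
  have hfac : ∀ φ ∈ B, (d φ).factorization p = (d χ0).factorization p := by
    intro φ hφ
    refine le_antisymm ?_ ?_
    · exact (hp.pow_dvd_iff_le_factorization (hne _)).1
        ((hkey φ hφ _ (hle φ)).1 ((hp.pow_dvd_iff_le_factorization (hne _)).2 le_rfl))
    · exact (hp.pow_dvd_iff_le_factorization (hne _)).1
        ((hkey φ hφ _ (hle χ0)).2 ((hp.pow_dvd_iff_le_factorization (hne _)).2 le_rfl))
  have himg : (fun ψ : IrrCharacter G => (charDegree (ψ : G → ℂ)).factorization p) '' B =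
      {(d χ0).factorization p} := by
    ext k
    constructor
    · rintro ⟨φ, hφ, rfl⟩; exact hfac φ hφ
    · rintro rfl; exact ⟨χ0, S.mem_of_mem_X hχ0, rfl⟩
  rw [blockHeight, himg, csInf_singleton, hfac χ hχ |>.symm]
  exact Nat.sub_self _

include K in
theorem pow_le : a ≤ (Nat.card G).factorization p :=
  (Fact.out : p.Prime).pow_dvd_iff_le_factorization Nat.card_pos.ne' |>.1
    (K.card_D ▸ D.card_subgroup_dvd_card)

end CycData

/-- Two readings of the stabiliser of a set of characters of a centraliser. -/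
theorem stabilizes_iff_forall {G : Type*} [Group G] [Finite G] (D : Subgroup G)
    (b : Set (IrrCharacter (Subgroup.centralizer (D : Set G)))) {g : G}
    (hg : g ∈ Subgroup.normalizer (D : Set G)) :
    StabilizesBlock (Subgroup.centralizer (D : Set G)) b g ↔
      ∀ θ ∈ b, ∀ θ' : IrrCharacter (Subgroup.centralizer (D : Set G)),
        (∀ h h' : Subgroup.centralizer (D : Set G), (h' : G) = g * h * g⁻¹ →
          (θ' : Subgroup.centralizer (D : Set G) → ℂ) h' =
            (θ : Subgroup.centralizer (D : Set G) → ℂ) h) → θ' ∈ b := by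
  have hN := normalizer_le_normalizer_cen D hg
  have hK : Subgroup.centralizer (D : Set G) = cj g (Subgroup.centralizer (D : Set G)) :=
    (cj_of_mem_normalizer hN).symm
  constructor
  · intro hst θ hθ θ' hθ'
    obtain ⟨χ, hχ, hconj⟩ := hst.2 θ hθ
    have : θ' = χ := by
      refine Subtype.ext (funext fun k' => ?_)
      have hk := (Subgroup.mem_normalizer_iff''.1 hN (k' : G)).1 k'.2
      rw [hθ' ⟨_, hk⟩ k' (by group), hconj ⟨_, hk⟩ k' (by group)]
    exact this ▸ hχ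
  · intro h
    refine ⟨hN, fun θ hθ => ⟨compIrr (cjEquiv g hK) θ, h θ hθ _ fun x x' hx => ?_,
      fun x x' hx => ?_⟩⟩ <;>
    · rw [compIrr_apply]
      refine congrArg _ (Subtype.ext ?_)
      rw [coe_cjEquiv, hx]
      group

/-- The data for a defect group and an inducing block of its centraliser. -/
theorem exists_data_of_induced {G : Type*} [Group G] [Fintype G] {p : ℕ} [Fact p.Prime]
    {M : Ideal AlgInt} [M.IsPrime] (hM : IsPModular p M) {D : Subgroup G} (hD : IsCyclic D)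
    {a : ℕ} [NeZero (p ^ a)] (ha : 1 ≤ a) (hDa : Nat.card D = p ^ a) {B : Set (IrrCharacter G)}
    (hB : IsPBlock M B) (hBD : IsDefectGroup p M B D)
    {b : Set (IrrCharacter (Subgroup.centralizer (D : Set G)))}
    (hind : IsInducedBlock M (Subgroup.centralizer (D : Set G)) b B) {T : Subgroup G}
    (hT : ∀ g : G, g ∈ T ↔ (g ∈ Subgroup.normalizer (D : Set G) ∧
      StabilizesBlock (Subgroup.centralizer (D : Set G)) b g))
    {e : ℕ} (he : (Subgroup.centralizer (D : Set G)).relIndex T = e) :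
    ∃ e0, CycBlock p M B D e0 a e ∧ Nonempty (CycData p M B D e0 a e) := by
  haveI : M.IsMaximal := hM.2.1
  haveI := Blocks.charP_res hM
  haveI : IsAlgClosed (Res M) := Blocks.isAlgClosed_res
  have hab : ∀ x ∈ D, ∀ y ∈ D, x * y = y * x := fun x hx y hy =>
    congrArg Subtype.val (hD.commGroup.mul_comm ⟨x, hx⟩ ⟨y, hy⟩)
  have hmax := isMaxPair_of_induced hM hB hBD hab hind
  have hTe : pairStab (⊤ : Subgroup G) D (subIdem M _ b) = T := by
    ext y
    rw [mem_pairStab_top_iff hind.1, hT]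
  exact ⟨_, ⟨hM, hB, hmax, hD, ha, hDa, hTe.symm ▸ he⟩,
    exists_cycData hM hB hmax hD ha hDa (hTe.symm ▸ he)⟩

end CfsgLib.Jordan.CyclicDefect
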