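import Cfsg.Agent.Lib.BlockStar.GenStar

/-!
# The shape of the characters of a block with cyclic defect group

For a block with maximal pair `(D, e0)`, `D` cyclic of order `p ^ a`, and inertial index `e` the
stabiliser of the pair acts on `D` by the powers `x ↦ x ^ r` with `r ^ e = 1` in `ZMod (p ^ a)`, so
orbits are written with these exponents.
-/

set_option autoImplicit false
set_option linter.style.haveILetI false
set_option linter.unusedSectionVars false

noncomputable section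

namespace CfsgLib.Jordan.CyclicDefect

open Cfsg CfsgLib.Blocks CfsgLib.BrauerPairs CfsgLib.BlockStar

variable {G : Type*} [Group G] [Fintype G]

/-- The exponents of the inertial quotient. -/
def expSet (p a e : ℕ) [NeZero (p ^ a)] : Finset (ZMod (p ^ a)) :=
  Finset.univ.filter fun r => r ^ e = 1

/-- The orbit sum of a linear character of `D`, zero outside `D`. -/
def orbSum (p a e : ℕ) [NeZero (p ^ a)] {D : Subgroup G} (l : D →* ℂˣ) (x : G) : ℂ := by
  classical exact if h : x ∈ D then ∑ r ∈ expSet p a e, ((l ⟨x, h⟩ : ℂˣ) : ℂ) ^ r.val else 0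

/-- The data attached to a block with cyclic defect group. -/
structure CycData (p : ℕ) [Fact p.Prime] (M : Ideal AlgInt) [M.IsPrime]
    (B : Set (IrrCharacter G)) (D : Subgroup G) (e0 : MonoidAlgebra (Res M) G) (a e : ℕ)
    [NeZero (p ^ a)] where
  /-- the rows constant on the sections -/
  X : Set (IrrCharacter G)
  /-- the exceptional family -/
  Y : Set (IrrCharacter G)
  /-- the signs -/
  δ : IrrCharacter G → ℤ
  /-- the sign of the exceptional family -/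
  δ₀ : ℤ
  /-- a member of the orbit attached to a member of `Y` -/
  lam : IrrCharacter G → (D →* ℂˣ)
  /-- the common function on the sections -/
  Ω : G → MonoidAlgebra (Res M) G → ℂ
  e_dvd : e ∣ p - 1
  cyclic : IsCyclic D
  card_D : Nat.card D = p ^ a
  a_pos : 1 ≤ a
  union : B = X ∪ Y
  disj : Disjoint X Y
  card_X : Nat.card X = e
  sign : ∀ χ ∈ X, δ χ = 1 ∨ δ χ = -1
  sign₀ : δ₀ = 1 ∨ δ₀ = -1
  lam_ne : ∀ ψ ∈ Y, lam ψ ≠ 1
  lam_exists : ∀ l : D →* ℂˣ, l ≠ 1 → ∃ ψ ∈ Y, ∃ r ∈ expSet p a e, lam ψ = l ^ r.val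
  lam_inj : ∀ ψ ∈ Y, ∀ ψ' ∈ Y, (∃ r ∈ expSet p a e, lam ψ = (lam ψ') ^ r.val) → ψ = ψ'
  reg_eq : ∀ ψ ∈ Y, ∀ ψ' ∈ Y, ∀ g : G, ¬ p ∣ orderOf g → (ψ : G → ℂ) g = (ψ' : G → ℂ) g
  rel : ∀ ψ ∈ Y, ∀ g : G, ¬ p ∣ orderOf g →
    (δ₀ : ℂ) * (ψ : G → ℂ) g + ∑ᶠ χ ∈ X, (δ χ : ℂ) * (χ : G → ℂ) g = 0
  /-- the values on the singular elements -/
  value : ∀ χ ∈ B, ∀ g : G, p ∣ orderOf g → (χ : G → ℂ) g =
    ∑ c ∈ blocksAt M (ppart p g), LamF p D e0
      (fun x => by
        classical exact if χ ∈ X then (δ χ : ℂ) else -(δ₀ : ℂ) * orbSum p a e (lam χ) x)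
      (ppart p g) c * Ω g c
  mem_Ω : ∀ g : G, p ∣ orderOf g → ∀ c, MemLocalRing M (Ω g c)
  dvd_Ω : ∀ g : G, p ∣ orderOf g → ∀ c,
    MemLocalRing M ((p : ℂ) ^ a * Ω g c / (Nat.card (Subgroup.centralizer ({g} : Set G)) : ℂ))
  /-- the stabiliser of the pair acts on `D` by the exponents -/
  stab_pow : ∀ t ∈ pairStab (⊤ : Subgroup G) D e0, ∃ r ∈ expSet p a e,
    ∀ x ∈ D, t * x * t⁻¹ = x ^ r.val
  pow_stab : ∀ r ∈ expSet p a e, ∃ t ∈ pairStab (⊤ : Subgroup G) D e0,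
    ∀ x ∈ D, t * x * t⁻¹ = x ^ r.val

/-- The function on `D` attached to a member of the block. -/
def CycData.fn {p : ℕ} [Fact p.Prime] {M : Ideal AlgInt} [M.IsPrime]
    {B : Set (IrrCharacter G)} {D : Subgroup G} {e0 : MonoidAlgebra (Res M) G} {a e : ℕ}
    [NeZero (p ^ a)] (S : CycData p M B D e0 a e) (χ : IrrCharacter G) (x : G) : ℂ := by
  classical exact if χ ∈ S.X then (S.δ χ : ℂ) else -(S.δ₀ : ℂ) * orbSum p a e (S.lam χ) x

end CfsgLib.Jordan.CyclicDefect
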