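import Mathlib

/-!
# Layers of a nilpotent central operator

An algebra `A` with a central nilpotent `π` and a full idempotent `q` with corner `K[π] q` acts on
`X`, with an operator `t` normalising the action.  If the commutant of `A` and `t` is local up to
maps pushing `ker π ^ j` into `range π ^ (N - j)`, then at most one layer of the kernel of `π`
below the top is nonzero, and it has multiplicity one; with an element congruent to `π ^ e` which
is scalar up to such maps, the position of this layer is within `e` of one of the two ends.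
-/

set_option autoImplicit false
set_option linter.style.haveILetI false
set_option linter.unusedSectionVars false

namespace CfsgLib.Jordan.CyclicDefect

open Module Polynomial

variable {K : Type*} [Field K] {A : Type*} [Ring A] [Algebra K A]

/-- An algebra which is a matrix algebra over `K[π]` in disguise. -/
structure PiModel (K A : Type*) [Field K] [Ring A] [Algebra K A] (N n : ℕ) where
  /-- the central nilpotent -/
  π : A
  /-- the idempotent -/
  q : A
  /-- left factors -/
  a : Fin n → A
  /-- right factors -/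
  b : Fin n → A
  comm : ∀ x, Commute π x
  nil : π ^ N = 0
  idem : q * q = q
  unit : ∑ i, a i * q * b i = 1
  corner : ∀ x, ∃ f : K[X], q * x * q = aeval π f * q
  diag : ∀ i j, ∃ y, q * b i * a j * q = (if i = j then q else 0) + π * y

variable {N n : ℕ} (S : PiModel K A N n)
variable {X : Type*} [AddCommGroup X] [Module K X] [FiniteDimensional K X]
variable (φ : A →ₐ[K] Module.End K X)

/-- The part of the kernel in the image of the `j`-th power. -/
def layer (P : Module.End K X) (j : ℕ) : Submodule K X :=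
  LinearMap.ker P ⊓ LinearMap.range (P ^ j)

omit [FiniteDimensional K X] in
theorem layer_anti (P : Module.End K X) {i j : ℕ} (h : i ≤ j) : layer P j ≤ layer P i := by
  rintro v ⟨hv, x, rfl⟩
  refine ⟨hv, (P ^ (j - i)) x, ?_⟩
  rw [← Module.End.mul_apply, ← pow_add, Nat.add_sub_cancel' h]

theorem finrank_range_pow (P : Module.End K X) (j : ℕ) :
    finrank K (LinearMap.range (P ^ j)) =
      finrank K (LinearMap.range (P ^ (j + 1))) + finrank K (layer P j) := by
  have h := LinearMap.finrank_range_add_finrank_ker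
    (P.domRestrict (LinearMap.range (P ^ j)))
  have e1 : LinearMap.range (P.domRestrict (LinearMap.range (P ^ j))) =
      LinearMap.range (P ^ (j + 1)) := by
    rw [LinearMap.range_domRestrict, ← LinearMap.range_comp, pow_succ']
    rfl
  have e2 : LinearMap.ker (P.domRestrict (LinearMap.range (P ^ j))) =
      (layer P j).comap (LinearMap.range (P ^ j)).subtype := by
    ext x
    simp [layer]
  have e3 : finrank K ((layer P j).comap (LinearMap.range (P ^ j)).subtype) =
      finrank K (layer P j) :=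
    LinearEquiv.finrank_eq (Submodule.comapSubtypeEquivOfLe inf_le_right)
  rw [e1, e2, e3] at h
  exact h.symm

theorem finrank_range_pow_eq_sum (P : Module.End K X) (j : ℕ) :
    finrank K X = finrank K (LinearMap.range (P ^ j)) +
      ∑ i ∈ Finset.range j, finrank K (layer P i) := by
  induction j with
  | zero =>
    rw [pow_zero, show LinearMap.range (1 : Module.End K X) = ⊤ from LinearMap.range_id, finrank_top,
      Finset.range_zero, Finset.sum_empty, add_zero]
  | succ j ih => rw [Finset.sum_range_succ, ih, finrank_range_pow P j]; ring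

/-- Maps pushing the kernels of the powers into the opposite images. -/
def IsProj (P f : Module.End K X) (N : ℕ) : Prop :=
  ∀ j, j ≤ N → ∀ v, (P ^ j) v = 0 → f v ∈ LinearMap.range (P ^ (N - j))

omit [FiniteDimensional K X] in
include S in
theorem commute_pi (y : A) (v : X) : φ S.π (φ y v) = φ y (φ S.π v) := by
  rw [← Module.End.mul_apply, ← map_mul, (S.comm y).eq, map_mul, Module.End.mul_apply]

omit [FiniteDimensional K X] in
include S in
theorem stable_layer (y : A) (j : ℕ) {v : X} (hv : v ∈ layer (φ S.π) j) :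
    φ y v ∈ layer (φ S.π) j := by
  obtain ⟨hv0, x, rfl⟩ := hv
  refine ⟨?_, φ y x, ?_⟩
  · show φ S.π (φ y _) = 0
    rw [commute_pi S φ, show φ S.π ((φ S.π ^ j) x) = 0 from hv0, map_zero]
  · rw [← map_pow, ← Module.End.mul_apply, ← Module.End.mul_apply, ← map_mul, ← map_mul,
      ((S.comm y).pow_left j).eq]

omit [FiniteDimensional K X] in
include S in
theorem diag_apply (i j : Fin n) {v : X} (hv : φ S.π v = 0) :
    φ (S.q * S.b i * S.a j * S.q) v = if i = j then φ S.q v else 0 := by
  obtain ⟨y, hy⟩ := S.diag i j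
  rw [hy, (S.comm y).eq, map_add, LinearMap.add_apply, map_mul, Module.End.mul_apply, hv,
    map_zero, add_zero]
  split_ifs <;> simp

/-- A stable subspace of the kernel is `n` times its part cut out by `q`. -/
theorem finrank_stable {U : Submodule K X} (hU : U ≤ LinearMap.ker (φ S.π))
    (hst : ∀ y : A, ∀ v ∈ U, φ y v ∈ U) :
    finrank K U = n * finrank K (U ⊓ LinearMap.range (φ S.q) : Submodule K X) := by
  set UW : Submodule K X := U ⊓ LinearMap.range (φ S.q)
  have hq : ∀ v ∈ UW, φ S.q v = v := by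
    rintro v ⟨-, x, rfl⟩
    rw [← Module.End.mul_apply, ← map_mul, S.idem]
  let Ψ : U →ₗ[K] (Fin n → UW) := LinearMap.pi fun i =>
    (((φ (S.q * S.b i)).comp U.subtype).codRestrict UW fun v =>
      ⟨hst _ _ v.2, φ (S.b i) v, by simp⟩)
  let Φ : (Fin n → UW) →ₗ[K] U :=
    (∑ i, ((φ (S.a i)).comp UW.subtype).comp (LinearMap.proj i)).codRestrict U fun f => by
      simp only [LinearMap.sum_apply, LinearMap.comp_apply]
      exact sum_mem fun i _ => hst _ _ (f i).2.1
  have hΨ : ∀ v i, (Ψ v i : X) = φ (S.q * S.b i) (v : X) := fun v i => rfl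
  have hΦ : ∀ f, (Φ f : X) = ∑ i, φ (S.a i) (f i : X) := fun f =>
    (LinearMap.sum_apply _ _ f).trans rfl
  have h1 : Φ.comp Ψ = LinearMap.id := by
    refine LinearMap.ext fun v => Subtype.ext ?_
    rw [LinearMap.comp_apply, hΦ]
    simp only [hΨ, ← Module.End.mul_apply, ← map_mul, ← mul_assoc]
    rw [← LinearMap.sum_apply, ← map_sum, S.unit, map_one]
    rfl
  have h2 : Ψ.comp Φ = LinearMap.id := by
    refine LinearMap.ext fun f => funext fun i => Subtype.ext ?_
    rw [LinearMap.comp_apply, LinearMap.id_apply, hΨ, hΦ, map_sum, Finset.sum_eq_single i]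
    · conv_lhs => rw [← hq _ (f i).2, ← Module.End.mul_apply, ← Module.End.mul_apply, ← map_mul,
        ← map_mul, diag_apply S φ i i (hU (f i).2.1), if_pos rfl, hq _ (f i).2]
    · intro j _ hji
      rw [← hq _ (f j).2, ← Module.End.mul_apply, ← Module.End.mul_apply, ← map_mul,
        ← map_mul, diag_apply S φ i j (hU (f j).2.1), if_neg (Ne.symm hji)]
    · exact fun h => absurd (Finset.mem_univ _) h
  rw [(LinearEquiv.ofLinearMap Ψ Φ h2 h1).finrank_eq, Module.finrank_pi_fintype]
  simp [UW]

omit [FiniteDimensional K X] in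
/-- A rank one map on a layer commuting with the algebra. -/
theorem exists_endo (μ : X →ₗ[K] K) (r : ℕ) (hμ : ∀ x, μ ((φ S.π ^ r) x) = 0) {a : X}
    (ha : φ S.q a = a) (har : (φ S.π ^ r) a = 0) :
    ∃ β : Module.End K X, (∀ y, Commute (φ y) β) ∧
      ∀ v, φ S.π v = 0 → β v = ∑ k, μ (φ (S.q * S.b k) v) • φ (S.a k) ((φ S.π ^ (r - 1)) a) := by
  set P := φ S.π with hP
  obtain ⟨f, hf⟩ : ∃ f : Module.End K X,
      ∀ x, f x = ∑ i ∈ Finset.range r, μ ((P ^ (r - 1 - i)) x) • (P ^ i) a :=
    ⟨∑ i ∈ Finset.range r, (μ.comp (P ^ (r - 1 - i))).smulRight ((P ^ i) a),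
      fun x => by simp [LinearMap.sum_apply]⟩
  have hfP : ∀ x, f (P x) = P (f x) := by
    intro x
    rw [hf, hf, map_sum]
    simp only [map_smul]
    rcases r with _ | r
    · simp
    rw [Finset.sum_range_succ' _ r, Finset.sum_range_succ _ r]
    have h1 : μ ((P ^ (r + 1 - 1 - 0)) (P x)) = 0 := by
      rw [← Module.End.mul_apply, ← pow_succ, show r + 1 - 1 - 0 + 1 = r + 1 by omega]
      exact hμ x
    have h2 : P ((P ^ r) a) = 0 := by rw [← Module.End.mul_apply, ← pow_succ']; exact har
    rw [h1, zero_smul, add_zero, h2, smul_zero, add_zero]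
    refine Finset.sum_congr rfl fun i hi => ?_
    rw [← Module.End.mul_apply, ← Module.End.mul_apply, ← pow_succ, ← pow_succ',
      show r + 1 - 1 - (i + 1) + 1 = r + 1 - 1 - i by
        have := Finset.mem_range.1 hi; omega]
  have hfpoly : ∀ (g : K[X]) (x : X), f (φ (aeval S.π g) x) = φ (aeval S.π g) (f x) := by
    intro g x
    have hc : Commute f P := LinearMap.ext hfP
    have : Commute f (φ (aeval S.π g)) := by
      rw [← aeval_algHom_apply]
      induction g using Polynomial.induction_on' with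
      | add a b ha hb => rw [map_add]; exact ha.add_right hb
      | monomial k c =>
        rw [aeval_monomial]
        exact (Algebra.commute_algebraMap_right c f).mul_right (hc.pow_right k)
    exact LinearMap.congr_fun this.eq x
  have hqf : ∀ x, φ S.q (f x) = f x := by
    intro x
    rw [hf, map_sum]
    refine Finset.sum_congr rfl fun i _ => ?_
    rw [map_smul]
    congr 1
    rw [hP, ← map_pow, ← Module.End.mul_apply, ← map_mul, ← ((S.comm S.q).pow_left i).eq,
      map_mul, Module.End.mul_apply, ha]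
  let β : Module.End K X := ∑ k, (φ (S.a k)).comp (f.comp (φ (S.q * S.b k)))
  have hβ : ∀ x, β x = ∑ k, φ (S.a k) (f (φ (S.q * S.b k) x)) := fun x => by
    simp [β, LinearMap.sum_apply]
  refine ⟨β, fun y => LinearMap.ext fun x => ?_, fun v hv => ?_⟩
  · rw [Module.End.mul_apply, Module.End.mul_apply, hβ, hβ, map_sum]
    choose g hg using fun k l => S.corner (S.b k * y * S.a l)
    have e1 : ∀ k, S.q * S.b k * y = ∑ l, aeval S.π (g k l) * (S.q * S.b l) := by
      intro k
      calc S.q * S.b k * y = S.q * S.b k * y * ∑ l, S.a l * S.q * S.b l := by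
            rw [S.unit, mul_one]
        _ = _ := by
          rw [Finset.mul_sum]
          refine Finset.sum_congr rfl fun l _ => ?_
          calc S.q * S.b k * y * (S.a l * S.q * S.b l)
              = S.q * (S.b k * y * S.a l) * S.q * S.b l := by simp only [mul_assoc]
            _ = _ := by rw [hg, mul_assoc]
    have e2 : ∀ l, ∑ k, S.a k * aeval S.π (g k l) * S.q = y * S.a l * S.q := by
      intro l
      calc ∑ k, S.a k * aeval S.π (g k l) * S.q
          = ∑ k, S.a k * S.q * S.b k * (y * S.a l * S.q) := Finset.sum_congr rfl fun k _ => by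
            rw [mul_assoc, ← hg k l]
            simp only [mul_assoc]
        _ = _ := by rw [← Finset.sum_mul, S.unit, one_mul]
    symm
    calc ∑ k, φ (S.a k) (f (φ (S.q * S.b k) (φ y x)))
        = ∑ k, ∑ l, φ (S.a k * aeval S.π (g k l) * S.q) (f (φ (S.q * S.b l) x)) := by
          refine Finset.sum_congr rfl fun k _ => ?_
          rw [← Module.End.mul_apply (φ (S.q * S.b k)) (φ y), ← map_mul, e1, map_sum,
            LinearMap.sum_apply, map_sum, map_sum]
          refine Finset.sum_congr rfl fun l _ => ?_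
          simp only [map_mul, Module.End.mul_apply]
          rw [hqf, hfpoly]
      _ = ∑ l, φ (y * S.a l * S.q) (f (φ (S.q * S.b l) x)) := by
          rw [Finset.sum_comm]
          exact Finset.sum_congr rfl fun l _ => by rw [← LinearMap.sum_apply, ← map_sum, e2]
      _ = _ := Finset.sum_congr rfl fun l _ => by
          rw [map_mul, Module.End.mul_apply, hqf, map_mul, Module.End.mul_apply]
  · rw [hβ]
    refine Finset.sum_congr rfl fun k _ => ?_
    have hw : P (φ (S.q * S.b k) v) = 0 := by rw [commute_pi S φ, hv, map_zero]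
    rw [hf]
    rcases r with _ | r
    · have : μ (φ (S.q * S.b k) v) = 0 := by simpa using hμ (φ (S.q * S.b k) v)
      rw [this]; simp
    rw [Finset.sum_eq_single r]
    · rw [show r + 1 - 1 - r = 0 by omega, pow_zero, Module.End.one_apply, map_smul,
        Nat.add_sub_cancel]
    · intro i hi hir
      have h1 : r + 1 - 1 - i ≠ 0 := by have := Finset.mem_range.1 hi; omega
      obtain ⟨j, hj⟩ := Nat.exists_eq_succ_of_ne_zero h1
      rw [hj, pow_succ, Module.End.mul_apply, hw, map_zero, map_zero, zero_smul]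
    · intro h; exact absurd (Finset.mem_range.2 (Nat.lt_succ_self r)) h


section Pattern

variable (t : (Module.End K X)ˣ) (τ : Module.End K X) (e : ℕ)

/-- The hypotheses on the normalising operators. -/
structure Twist : Prop where
  /-- `t` normalises the algebra -/
  norm : ∀ y, ∃ y', φ y * t = (t : Module.End K X) * φ y'
  /-- a power of `t` lies in the algebra -/
  tpow : ∃ w, (t : Module.End K X) ^ e = φ w
  /-- `τ` respects the images of the powers -/
  tau_range : ∀ j, ∀ v ∈ LinearMap.range (φ S.π ^ j), τ v ∈ LinearMap.range (φ S.π ^ j)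
  /-- `τ` commutes with the algebra on the kernel -/
  tau_comm : ∀ y v, φ S.π v = 0 → τ (φ y v) = φ y (τ v)
  /-- `t` is `τ` up to an element of the algebra -/
  tau_t : ∃ u, ∀ v, φ S.π v = 0 → (t : Module.End K X) (τ v) = φ u v
  /-- a power of `τ` is a nonzero scalar -/
  tau_pow : ∃ c : K, c ≠ 0 ∧ ∀ v, φ S.π v = 0 → (τ ^ e) v = c • v

/-- Locality of the commutant up to maps pushing kernels into opposite images. -/
def IsLocalUpToProj : Prop :=
  ∀ β : Module.End K X, (∀ y, Commute (φ y) β) → Commute (t : Module.End K X) β →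
    ∃ (r : K) (Nl Pr : Module.End K X), β = r • 1 + Nl + Pr ∧ IsNilpotent Nl ∧ IsProj (φ S.π) Pr N

variable {t τ e}

omit [FiniteDimensional K X] in
/-- A nilpotent map multiplies a vector modulo a stable subspace only by zero. -/
theorem scalar_eq_zero {Nl : Module.End K X} (hN : IsNilpotent Nl) {U : Submodule K X}
    (hU : ∀ v ∈ U, Nl v ∈ U) {v : X} (hv : v ∉ U) {c : K} (h : Nl v - c • v ∈ U) : c = 0 := by
  obtain ⟨k, hk⟩ := hN
  have hind : ∀ i : ℕ, (Nl ^ i) v - c ^ i • v ∈ U := by
    intro i
    induction i with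
    | zero => simp
    | succ i ih =>
      have e1 : (Nl ^ (i + 1)) v - c ^ (i + 1) • v =
          Nl ((Nl ^ i) v - c ^ i • v) + c ^ i • (Nl v - c • v) := by
        rw [pow_succ' Nl, Module.End.mul_apply, map_sub, map_smul, smul_sub, smul_smul,
          ← pow_succ]
        abel
      rw [e1]
      exact add_mem (hU _ ih) (U.smul_mem _ h)
  have h1 := hind k
  rw [hk, LinearMap.zero_apply, zero_sub, U.neg_mem_iff] at h1
  by_contra hc
  exact hv ((U.smul_mem_iff (pow_ne_zero k hc)).1 h1)

omit [FiniteDimensional K X] in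
include S in
theorem aeval_apply (f : K[X]) {v : X} (hv : φ S.π v = 0) :
    φ (aeval S.π f) v = f.coeff 0 • v := by
  induction f using Polynomial.induction_on' with
  | add a b ha hb => rw [map_add, map_add, LinearMap.add_apply, ha, hb, coeff_add, add_smul]
  | monomial k c =>
    rw [aeval_monomial, map_mul, AlgHom.commutes, Module.End.mul_apply]
    rcases k with _ | k
    · simp
    · rw [map_pow, pow_succ, Module.End.mul_apply, hv, map_zero, map_zero, coeff_monomial,
        if_neg (Nat.succ_ne_zero k), zero_smul]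

omit [FiniteDimensional K X] in
theorem layer_q {v : X} {j : ℕ}
    (hv : v ∈ layer (φ S.π) j ⊓ LinearMap.range (φ S.q)) : φ S.q v = v := by
  obtain ⟨-, x, rfl⟩ := hv
  rw [← Module.End.mul_apply, ← map_mul, S.idem]

variable (hT : Twist S φ t τ e)
include hT

omit [FiniteDimensional K X] in
theorem tau_layer (j : ℕ) {v : X} (hv : v ∈ layer (φ S.π) j) : τ v ∈ layer (φ S.π) j :=
  ⟨by show φ S.π (τ v) = 0; rw [← hT.tau_comm S.π v hv.1, show φ S.π v = 0 from hv.1, map_zero],
    hT.tau_range j v hv.2⟩

omit [FiniteDimensional K X] in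
theorem exists_tau_preimage (he0 : 0 < e) (j : ℕ) {v : X} (hv : v ∈ layer (φ S.π) j) :
    ∃ w ∈ layer (φ S.π) j, τ w = v := by
  obtain ⟨c, hc0, hc⟩ := hT.tau_pow
  have hst : ∀ i, (τ ^ i) v ∈ layer (φ S.π) j := by
    intro i
    induction i with
    | zero => exact hv
    | succ i ih => rw [pow_succ', Module.End.mul_apply]; exact tau_layer S φ hT j ih
  refine ⟨c⁻¹ • (τ ^ (e - 1)) v, Submodule.smul_mem _ _ (hst _), ?_⟩
  rw [map_smul, ← Module.End.mul_apply, ← pow_succ', Nat.sub_add_cancel he0, hc v hv.1, smul_smul,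
    inv_mul_cancel₀ hc0, one_smul]

omit [FiniteDimensional K X] in
theorem t_layer (he0 : 0 < e) (j : ℕ) {v : X} (hv : v ∈ layer (φ S.π) j) :
    (t : Module.End K X) v ∈ layer (φ S.π) j := by
  obtain ⟨w, hw, rfl⟩ := exists_tau_preimage S φ hT he0 j hv
  obtain ⟨u, hu⟩ := hT.tau_t
  rw [hu w hw.1]
  exact stable_layer S φ u j hw

theorem tinv_layer (he0 : 0 < e) (j : ℕ) {v : X} (hv : v ∈ layer (φ S.π) j) :
    (↑t⁻¹ : Module.End K X) v ∈ layer (φ S.π) j := by
  let f : layer (φ S.π) j →ₗ[K] layer (φ S.π) j :=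
    ((t : Module.End K X).domRestrict _).codRestrict _ fun w => t_layer S φ hT he0 j w.2
  have hinj : Function.Injective f := fun a b h => Subtype.ext (by
    have h0 : (t : Module.End K X) (a : X) = (t : Module.End K X) b := congrArg Subtype.val h
    have h1 := congrArg (↑t⁻¹ : Module.End K X) h0
    simpa only [← Module.End.mul_apply, Units.inv_mul, Module.End.one_apply] using h1)
  obtain ⟨w, hw⟩ := LinearMap.injective_iff_surjective.1 hinj ⟨v, hv⟩
  have hw' : (t : Module.End K X) (w : X) = v := congrArg Subtype.val hw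
  rw [← hw', ← Module.End.mul_apply, Units.inv_mul, Module.End.one_apply]
  exact w.2

variable [IsAlgClosed K] (he : (e : K) ≠ 0) (hloc : IsLocalUpToProj S φ t)
include he hloc

/-- A layer below the top which is not zero is the only one, and has multiplicity one. -/
theorem exists_unique_layer {r : ℕ} (hr : 1 ≤ r) (hrN : r < N)
    (hne : ∃ v, v ∈ layer (φ S.π) (r - 1) ⊓ LinearMap.range (φ S.q) ∧ v ∉ layer (φ S.π) r) :
    (∀ j, 1 ≤ j → j < N → j ≠ r → layer (φ S.π) (j - 1) = layer (φ S.π) j) ∧
      ∃ v1 ∈ layer (φ S.π) (r - 1) ⊓ LinearMap.range (φ S.q), v1 ∉ layer (φ S.π) r ∧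
        layer (φ S.π) (r - 1) ⊓ LinearMap.range (φ S.q) =
          (layer (φ S.π) r ⊓ LinearMap.range (φ S.q)) ⊔ Submodule.span K {v1} := by
  classical
  have he0 : 0 < e := Nat.pos_of_ne_zero fun h => he (by rw [h, Nat.cast_zero])
  obtain ⟨c, hc0, hcpow⟩ := hT.tau_pow
  set P := φ S.π with hP
  set LW : Submodule K X := layer P (r - 1) ⊓ LinearMap.range (φ S.q) with hLW
  -- an eigenvector
  obtain ⟨v1, hv1, hv1r, l, hl⟩ : ∃ v1 ∈ LW, v1 ∉ layer P r ∧
      ∃ l : K, τ v1 - l • v1 ∈ layer P r := by
    let L' : Submodule K LW := (layer P r).comap LW.subtype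
    let T0 : LW →ₗ[K] LW := (τ.domRestrict LW).codRestrict LW fun v =>
      ⟨tau_layer S φ hT _ v.2.1, τ v, by
        rw [LinearMap.domRestrict_apply, ← hT.tau_comm S.q v v.2.1.1, layer_q S φ v.2]⟩
    have hle : L' ≤ L'.comap T0 := fun v hv => tau_layer S φ hT _ hv
    haveI : Nontrivial (LW ⧸ L') := Submodule.Quotient.nontrivial_iff.2 fun h => by
      obtain ⟨v, hv, hvr⟩ := hne
      exact hvr (show (⟨v, hv⟩ : LW) ∈ L' from h ▸ Submodule.mem_top)
    obtain ⟨l, hl⟩ := Module.End.exists_eigenvalue (L'.mapQ L' T0 hle)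
    obtain ⟨x, hx⟩ := hl.exists_hasEigenvector
    obtain ⟨v, rfl⟩ := Submodule.mkQ_surjective L' x
    refine ⟨v, v.2, fun hv => hx.2 ((Submodule.Quotient.mk_eq_zero L').2 hv), l, ?_⟩
    have h1 : L'.mkQ (T0 v) = L'.mkQ (l • v) := by
      rw [map_smul]; exact hx.apply_eq_smul
    exact (Submodule.Quotient.eq L').1 h1
  have hv1P : P v1 = 0 := hv1.1.1
  have hτk : ∀ i, (τ ^ i) v1 - l ^ i • v1 ∈ layer P r := by
    intro i
    induction i with
    | zero => simp
    | succ i ih =>
      have e1 : (τ ^ (i + 1)) v1 - l ^ (i + 1) • v1 =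
          τ ((τ ^ i) v1 - l ^ i • v1) + l ^ i • (τ v1 - l • v1) := by
        rw [pow_succ' τ, Module.End.mul_apply, map_sub, map_smul, smul_sub, smul_smul,
          ← pow_succ]
        abel
      rw [e1]
      exact add_mem (tau_layer S φ hT _ ih) (Submodule.smul_mem _ _ hl)
  have hlc : l ^ e = c := by
    have h1 := hτk e
    rw [hcpow v1 hv1P, ← sub_smul] at h1
    by_contra hne'
    exact hv1r (((layer P r).smul_mem_iff (sub_ne_zero.2 (Ne.symm hne'))).1 h1)
  have hl0 : l ≠ 0 := fun h => hc0 (by rw [← hlc, h, zero_pow he0.ne'])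
  -- the functional
  have hv1range : v1 ∉ LinearMap.range (P ^ r) := fun h => hv1r ⟨hv1.1.1, h⟩
  obtain ⟨μ0, hμ1, hμ0⟩ := Submodule.exists_dual_map_eq_bot_of_notMem hv1range inferInstance
  have hμ0' : ∀ x ∈ LinearMap.range (P ^ r), μ0 x = 0 := fun x hx => by
    have : μ0 x ∈ Submodule.map μ0 (LinearMap.range (P ^ r)) := ⟨x, hx, rfl⟩
    rwa [hμ0, Submodule.mem_bot] at this
  let μ : X →ₗ[K] K :=
    ((e : K) * μ0 v1)⁻¹ • ∑ i ∈ Finset.range e, (l⁻¹) ^ i • μ0.comp (τ ^ i)
  have hμdef : ∀ x, μ x = ((e : K) * μ0 v1)⁻¹ *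
      ∑ i ∈ Finset.range e, (l⁻¹) ^ i * μ0 ((τ ^ i) x) := fun x => by
    simp [μ, LinearMap.sum_apply, LinearMap.smul_apply]
  have hτrange : ∀ i x, x ∈ LinearMap.range (P ^ r) → (τ ^ i) x ∈ LinearMap.range (P ^ r) := by
    intro i x hx
    induction i with
    | zero => exact hx
    | succ i ih => rw [pow_succ', Module.End.mul_apply]; exact hT.tau_range r _ ih
  have hμr : ∀ x, μ ((P ^ r) x) = 0 := fun x => by
    rw [hμdef, Finset.sum_eq_zero fun i _ => ?_, mul_zero]
    rw [hμ0' _ (hτrange i _ ⟨x, rfl⟩), mul_zero]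
  have hμr' : ∀ x ∈ LinearMap.range (P ^ r), μ x = 0 := by
    rintro _ ⟨x, rfl⟩; exact hμr x
  have hμv1 : μ v1 = 1 := by
    rw [hμdef, Finset.sum_congr rfl fun i _ => ?_, Finset.sum_const, Finset.card_range,
      nsmul_eq_mul, inv_mul_cancel₀ (mul_ne_zero he hμ1)]
    have h1 := hμ0' _ (hτk i).2
    rw [map_sub, map_smul, sub_eq_zero, smul_eq_mul] at h1
    rw [h1, ← mul_assoc, ← mul_pow, inv_mul_cancel₀ hl0, one_pow, one_mul]
  have hμτ : ∀ x, P x = 0 → μ (τ x) = l * μ x := by
    intro x hx
    rw [hμdef, hμdef, mul_left_comm l]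
    congr 1
    have hterm : ∀ i, (l⁻¹) ^ i * μ0 ((τ ^ i) (τ x)) =
        l * ((l⁻¹) ^ (i + 1) * μ0 ((τ ^ (i + 1)) x)) := fun i => by
      rw [← Module.End.mul_apply, ← pow_succ, pow_succ (l⁻¹)]
      field_simp
    rw [Finset.sum_congr rfl fun i _ => hterm i, ← Finset.mul_sum]
    congr 1
    have h := Finset.sum_range_succ' (fun i => (l⁻¹) ^ i * μ0 ((τ ^ i) x)) e
    rw [Finset.sum_range_succ, hcpow x hx, map_smul, smul_eq_mul, ← hlc, ← mul_assoc, ← mul_pow,
      inv_mul_cancel₀ hl0, one_pow, one_mul, pow_zero, one_mul, pow_zero,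
      Module.End.one_apply] at h
    exact (add_right_cancel h).symm
  -- the rank one map
  obtain ⟨x1, hx1⟩ := hv1.1.2
  have hqv1 : φ S.q v1 = v1 := layer_q S φ hv1
  have hqa : φ S.q (φ S.q x1) = φ S.q x1 := by
    rw [← Module.End.mul_apply, ← map_mul, S.idem]
  have hqpow : ∀ (i : ℕ) (x : X), (P ^ i) (φ S.q x) = φ S.q ((P ^ i) x) := fun i x => by
    rw [hP, ← map_pow, ← Module.End.mul_apply, ← Module.End.mul_apply, ← map_mul, ← map_mul,
      ((S.comm S.q).pow_left i).eq]
  have hara : (P ^ (r - 1)) (φ S.q x1) = v1 := by rw [hqpow, hx1, hqv1]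
  have har : (P ^ r) (φ S.q x1) = 0 := by
    rw [← Nat.sub_add_cancel hr, pow_succ', Module.End.mul_apply, hara, hv1P]
  obtain ⟨β0, hcomm, hβ0⟩ := exists_endo S φ μ r hμr hqa har
  rw [hara] at hβ0
  have hβW : ∀ v, P v = 0 → φ S.q v = v → β0 v = μ v • v1 := by
    intro v hv hqv
    have hvb : ∀ k, P (φ (S.q * S.b k) v) = 0 := fun k => by rw [commute_pi S φ, hv, map_zero]
    choose g hg using fun k => S.corner (S.a k)
    have e1 : φ S.q (β0 v) = β0 v := by
      rw [← Module.End.mul_apply, (hcomm S.q).eq, Module.End.mul_apply, hqv]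
    have e2 : ∀ k (w : X), P w = 0 → φ (S.q * S.a k * S.q) w = (g k).coeff 0 • φ S.q w :=
      fun k w hw => by
        rw [hg, map_mul, Module.End.mul_apply,
          aeval_apply S φ _ (by rw [commute_pi S φ, hw, map_zero])]
    have e3 : ∀ k, φ S.q (φ (S.a k) v1) = (g k).coeff 0 • v1 := fun k => by
      conv_lhs => rw [← hqv1, ← Module.End.mul_apply, ← Module.End.mul_apply, ← map_mul, ← map_mul,
        e2 k v1 hv1P, hqv1]
    have e4 : v = ∑ k, (g k).coeff 0 • φ (S.q * S.b k) v := by
      conv_lhs => rw [← hqv, ← show φ (∑ k, S.a k * S.q * S.b k) v = v by rw [S.unit, map_one]; rfl,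
        map_sum, LinearMap.sum_apply, map_sum]
      refine Finset.sum_congr rfl fun k _ => ?_
      have hq2 : S.q * (S.q * S.b k) = S.q * S.b k := by rw [← mul_assoc, S.idem]
      have h := e2 k _ (hvb k)
      rw [← Module.End.mul_apply (φ S.q) (φ (S.q * S.b k)), ← map_mul, hq2] at h
      rw [← h, ← Module.End.mul_apply, ← map_mul, ← Module.End.mul_apply, ← map_mul]
      congr 2
      simp only [mul_assoc, hq2]
    rw [← e1, hβ0 v hv, map_sum]
    conv_rhs => rw [e4, map_sum, Finset.sum_smul]
    refine Finset.sum_congr rfl fun k _ => ?_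
    rw [map_smul, e3, smul_smul, map_smul, smul_eq_mul, mul_comm]
  have hβlow : ∀ j, r < j → ∀ v ∈ layer P (j - 1), β0 v = 0 := by
    intro j hj v hv
    rw [hβ0 v hv.1]
    refine Finset.sum_eq_zero fun k _ => ?_
    rw [hμr' _ (stable_layer S φ _ r (layer_anti P (by omega) hv)).2, zero_smul]
  have hβlayer : ∀ j, ∀ v ∈ layer P (j - 1), j ≠ r → β0 v ∈ layer P j := by
    intro j v hv hj
    rcases lt_or_gt_of_ne hj with h | h
    · rw [hβ0 v hv.1]
      exact sum_mem fun k _ => Submodule.smul_mem _ _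
        (stable_layer S φ _ j (layer_anti P (by omega) hv1.1))
    · rw [hβlow j h v hv]; exact zero_mem _
  have hβtau : ∀ j, ∀ w ∈ layer P (j - 1), τ (β0 w) - β0 (τ w) ∈ layer P j := by
    intro j w hw
    rcases le_or_gt j r with hj | hj
    · have e1 : β0 (τ w) = ∑ k, (l * μ (φ (S.q * S.b k) w)) • φ (S.a k) v1 := by
        rw [hβ0 _ (tau_layer S φ hT _ hw).1]
        refine Finset.sum_congr rfl fun k _ => ?_
        rw [← hT.tau_comm _ w hw.1, hμτ _ (by rw [commute_pi S φ]; rw [show φ S.π w = 0 from hw.1,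
          map_zero])]
      rw [e1, hβ0 w hw.1, map_sum, ← Finset.sum_sub_distrib]
      refine sum_mem fun k _ => ?_
      rw [map_smul, hT.tau_comm _ v1 hv1P, mul_comm, ← smul_smul, ← map_smul (φ (S.a k)) l,
        ← smul_sub, ← map_sub]
      exact Submodule.smul_mem _ _ (stable_layer S φ _ j (layer_anti P hj hl))
    · rw [hβlow j hj w hw, hβlow j hj _ (tau_layer S φ hT _ hw), map_zero, sub_zero]
      exact zero_mem _
  have hβt : ∀ j, ∀ v ∈ layer P (j - 1),
      (t : Module.End K X) (β0 v) - β0 ((t : Module.End K X) v) ∈ layer P j := by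
    intro j v hv
    obtain ⟨w, hw, rfl⟩ := exists_tau_preimage S φ hT he0 _ hv
    obtain ⟨u, hu⟩ := hT.tau_t
    have hβw : P (β0 w) = 0 := by
      rw [hP, ← Module.End.mul_apply, (hcomm S.π).eq, Module.End.mul_apply,
        show φ S.π w = 0 from hw.1, map_zero]
    have e1 : β0 ((t : Module.End K X) (τ w)) = (t : Module.End K X) (τ (β0 w)) := by
      rw [hu w hw.1, hu _ hβw, ← Module.End.mul_apply, ← (hcomm u).eq]
      rfl
    rw [e1, ← map_sub]
    exact t_layer S φ hT he0 j (by
      simpa using (layer P j).neg_mem (hβtau j w hw))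
  -- averaging
  let γ : ℕ → Module.End K X := fun i => (↑(t ^ i) : Module.End K X) * β0 * ↑(t ^ i)⁻¹
  have hγ0 : γ 0 = β0 := by simp [γ]
  have hγs : ∀ i, γ (i + 1) = (t : Module.End K X) * γ i * ↑t⁻¹ := fun i => by
    simp only [γ, pow_succ' t, mul_inv_rev, Units.val_mul, mul_assoc]
  have hγcomm : ∀ i y, Commute (φ y) (γ i) := by
    intro i
    induction i with
    | zero => rw [hγ0]; exact hcomm
    | succ i ih =>
      intro y
      obtain ⟨y', hy'⟩ := hT.norm y
      have hy'' : φ y' * (↑t⁻¹ : Module.End K X) = ↑t⁻¹ * φ y := by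
        rw [Units.mul_inv_eq_iff_eq_mul, mul_assoc, hy', ← mul_assoc, Units.inv_mul, one_mul]
      show φ y * γ (i + 1) = γ (i + 1) * φ y
      calc φ y * γ (i + 1) = (t : Module.End K X) * (φ y' * γ i) * ↑t⁻¹ := by
            rw [hγs, ← mul_assoc, ← mul_assoc, hy', mul_assoc (t : Module.End K X) (φ y') (γ i)]
        _ = (t : Module.End K X) * γ i * (φ y' * ↑t⁻¹) := by
            rw [(ih y').eq]; simp only [mul_assoc]
        _ = γ (i + 1) * φ y := by rw [hy'', hγs]; simp only [mul_assoc]
  have hγe : γ e = β0 := by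
    obtain ⟨w, hw⟩ := hT.tpow
    show (↑(t ^ e) : Module.End K X) * β0 * ↑(t ^ e)⁻¹ = β0
    rw [show (↑(t ^ e) : Module.End K X) * β0 = β0 * ↑(t ^ e) by
      rw [Units.val_pow_eq_pow_val, hw]; exact (hcomm w).eq, mul_assoc, Units.mul_inv, mul_one]
  have hγmod : ∀ i j, ∀ v ∈ layer P (j - 1), γ i v - β0 v ∈ layer P j := by
    intro i
    induction i with
    | zero => intro j v _; rw [hγ0, sub_self]; exact zero_mem _
    | succ i ih =>
      intro j v hv
      have hw := tinv_layer S φ hT he0 (j - 1) hv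
      have e1 : (t : Module.End K X) ((↑t⁻¹ : Module.End K X) v) = v := by
        rw [← Module.End.mul_apply, Units.mul_inv, Module.End.one_apply]
      rw [hγs, Module.End.mul_apply, Module.End.mul_apply]
      generalize (↑t⁻¹ : Module.End K X) v = w at hw e1
      subst e1
      rw [← sub_add_sub_cancel _ ((t : Module.End K X) (β0 w)), ← map_sub]
      exact add_mem (t_layer S φ hT he0 j (ih j w hw)) (hβt j w hw)
  set β : Module.End K X := (e : K)⁻¹ • ∑ i ∈ Finset.range e, γ i with hβdef
  have hβy : ∀ y, Commute (φ y) β := fun y =>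
    (Commute.sum_right _ _ _ fun i _ => hγcomm i y).smul_right _
  have hβc : Commute (t : Module.End K X) β := by
    refine Commute.smul_right ?_ _
    show (t : Module.End K X) * _ = _ * (t : Module.End K X)
    have h1 : ∑ i ∈ Finset.range e, γ (i + 1) = ∑ i ∈ Finset.range e, γ i := by
      have h := Finset.sum_range_succ' γ e
      rw [Finset.sum_range_succ, hγe, hγ0] at h
      exact (add_right_cancel h).symm
    conv_rhs => rw [← h1]
    rw [Finset.mul_sum, Finset.sum_mul]
    refine Finset.sum_congr rfl fun i _ => ?_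
    rw [hγs, Units.inv_mul_cancel_right]
  have hβmod : ∀ j, ∀ v ∈ layer P (j - 1), β v - β0 v ∈ layer P j := by
    intro j v hv
    have e1 : β v - β0 v = (e : K)⁻¹ • ∑ i ∈ Finset.range e, (γ i v - β0 v) := by
      rw [hβdef, LinearMap.smul_apply, LinearMap.sum_apply, Finset.sum_sub_distrib,
        Finset.sum_const, Finset.card_range, ← Nat.cast_smul_eq_nsmul K, smul_sub, smul_smul,
        inv_mul_cancel₀ he, one_smul]
    rw [e1]
    exact Submodule.smul_mem _ _ (sum_mem fun i _ => hγmod i j v hv)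
  obtain ⟨r0, Nl, Pr, heq, hNl, hPr⟩ := hloc β hβy hβc
  have hPr' : ∀ v, P v = 0 → ∀ j, j < N → Pr v ∈ layer P j := by
    intro v hv j hj
    obtain ⟨x, hx⟩ := hPr 1 (by omega) v (by rw [pow_one]; exact hv)
    refine layer_anti P (show j ≤ N - 1 by omega) ⟨?_, x, hx⟩
    show P (Pr v) = 0
    rw [← hx, ← Module.End.mul_apply, ← pow_succ', Nat.sub_add_cancel (by omega : 1 ≤ N), hP,
      ← map_pow, S.nil, map_zero, LinearMap.zero_apply]
  have hNlv : ∀ v, Nl v = β v - r0 • v - Pr v := fun v => by
    rw [heq]; simp only [LinearMap.add_apply, LinearMap.smul_apply, Module.End.one_apply]; abel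
  have hNlU : ∀ j, j < N → ∀ u ∈ layer P j, Nl u ∈ layer P j := by
    intro j hj u hu
    rw [hNlv]
    refine sub_mem (sub_mem ⟨?_, ?_⟩ (Submodule.smul_mem _ _ hu)) (hPr' u hu.1 j hj)
    · show P (β u) = 0
      rw [hP, ← Module.End.mul_apply, (hβy S.π).eq, Module.End.mul_apply,
        show φ S.π u = 0 from hu.1, map_zero]
    · obtain ⟨x, hx⟩ := hu.2
      refine ⟨β x, ?_⟩
      rw [← hx, ← Module.End.mul_apply, ← Module.End.mul_apply, hP, ← map_pow,
        (hβy (S.π ^ j)).eq]
  -- evaluation on a layer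
  have hev : ∀ j, j < N → ∀ v ∈ layer P (j - 1), ∀ k : K,
      β0 v - k • v ∈ layer P j → v ∉ layer P j → k = r0 := by
    intro j hj v hv k hk hvj
    refine sub_eq_zero.1 (scalar_eq_zero hNl (hNlU j hj) hvj (c := k - r0) ?_)
    rw [hNlv, sub_smul, show β v - r0 • v - Pr v - (k • v - r0 • v) =
      (β v - β0 v) + (β0 v - k • v) - Pr v by abel]
    exact sub_mem (add_mem (hβmod j v hv) hk) (hPr' v hv.1 j hj)
  have hβv1 : β0 v1 = v1 := by rw [hβW v1 hv1P hqv1, hμv1, one_smul]
  have hr01 : (1 : K) = r0 :=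
    hev r hrN v1 hv1.1 1 (by rw [hβv1, one_smul, sub_self]; exact zero_mem _) hv1r
  refine ⟨fun j hj hjN hjr => le_antisymm (fun v hv => ?_) (layer_anti P (Nat.sub_le j 1)),
    v1, hv1, hv1r, le_antisymm (fun v hv => ?_) (sup_le (inf_le_inf_right _
      (layer_anti P (Nat.sub_le r 1))) ((Submodule.span_singleton_le_iff_mem _ _).2 hv1))⟩
  · by_contra hvj
    have := hev j hjN v hv 0 (by rw [zero_smul, sub_zero]; exact hβlayer j v hv hjr) hvj
    exact one_ne_zero (hr01.trans this.symm)
  · have hq : φ S.q v = v := layer_q S φ hv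
    have hv' : v - μ v • v1 ∈ LW := sub_mem hv (Submodule.smul_mem _ _ hv1)
    have h0 : β0 (v - μ v • v1) = 0 := by
      rw [map_sub, map_smul, hβW v hv.1.1 hq, hβv1, sub_self]
    have hin : v - μ v • v1 ∈ layer P r := by
      by_contra hvj
      have := hev r hrN _ hv'.1 0 (by rw [zero_smul, sub_zero, h0]; exact zero_mem _) hvj
      exact one_ne_zero (hr01.trans this.symm)
    exact Submodule.mem_sup.2 ⟨_, ⟨hin, hv'.2⟩, _,
      Submodule.smul_mem _ _ (Submodule.mem_span_singleton_self v1), sub_add_cancel v _⟩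

omit he hloc hT [IsAlgClosed K] in
/-- An element congruent to `π ^ m` which is scalar up to maps pushing kernels confines the
position of a layer. -/
theorem layer_bound {θ y : A} {m : ℕ} (hθ : θ = S.π ^ m * (1 + S.π * y)) (hm : 1 ≤ m) {s : K}
    {Pr : Module.End K X} (hPr : IsProj (φ S.π) Pr N) (heq : φ θ = s • 1 + Pr) {r : ℕ}
    (hr : 1 ≤ r) (hrN : r < N) {v0 : X} (hv0 : v0 ∈ layer (φ S.π) (r - 1))
    (hv0r : v0 ∉ layer (φ S.π) r) : r ≤ m ∨ N ≤ r + m := by
  by_contra hcon
  push Not at hcon
  set P := φ S.π with hP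
  obtain ⟨a, ha⟩ := hv0.2
  have har : (P ^ r) a = 0 := by
    rw [← Nat.sub_add_cancel hr, pow_succ', Module.End.mul_apply, ha]; exact hv0.1
  obtain ⟨x, hx⟩ := hPr r hrN.le a har
  have hbig : ∀ j, r ≤ j → (P ^ j) a = 0 := fun j hj => by
    rw [← Nat.sub_add_cancel hj, pow_add, Module.End.mul_apply, har, map_zero]
  have hθa : ∀ i, (P ^ i) (φ θ a) = φ (1 + S.π * y) ((P ^ (i + m)) a) := fun i => by
    rw [hθ, hP, ← map_pow, ← map_pow, ← Module.End.mul_apply, ← Module.End.mul_apply, ← map_mul,
      ← map_mul, ((S.comm (1 + S.π * y)).pow_left (i + m)).symm.eq, pow_add, mul_assoc]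
  have hPrr : ∀ i, r ≤ i + (N - r) → (P ^ i) (Pr a) ∈ LinearMap.range (P ^ r) := fun i hi => by
    refine ⟨(P ^ (i + (N - r) - r)) x, ?_⟩
    rw [← hx, ← Module.End.mul_apply, ← Module.End.mul_apply, ← pow_add, ← pow_add]
    congr 2
    omega
  have hnot : v0 ∉ LinearMap.range (P ^ r) := fun h => hv0r ⟨hv0.1, h⟩
  have hkey : φ θ a = s • a + Pr a := by
    rw [heq]; simp only [LinearMap.add_apply, LinearMap.smul_apply, Module.End.one_apply]
  have hs : s = 0 := by
    have h1 := hθa (r - 1)
    rw [hbig _ (by omega), map_zero, hkey, map_add, map_smul, ha] at h1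
    by_contra hs
    exact hnot (((LinearMap.range (P ^ r)).smul_mem_iff hs).1
      (by rw [eq_neg_of_add_eq_zero_left h1]; exact neg_mem (hPrr _ (by omega))))
  apply hnot
  have h2 := hθa (r - 1 - m)
  rw [hkey, hs, zero_smul, zero_add, show r - 1 - m + m = r - 1 by omega, ha] at h2
  have h3 : φ (1 + S.π * y) v0 = v0 := by
    rw [(S.comm y).eq, map_add, map_one, LinearMap.add_apply, Module.End.one_apply, map_mul,
      Module.End.mul_apply, show φ S.π v0 = 0 from hv0.1, map_zero, add_zero]
  rw [h3] at h2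
  rw [← h2]
  exact hPrr _ (by omega)

/-- The dimensions of the images: all blocks of `π` on the part cut out by `q` are full except at
most one, of size `r` near an end. -/
theorem exists_pattern {θ y : A} {m : ℕ} (hθ : θ = S.π ^ m * (1 + S.π * y)) (hm : 1 ≤ m) {s : K}
    {Pr : Module.End K X} (hPr : IsProj (φ S.π) Pr N) (heq : φ θ = s • 1 + Pr) (hN : 1 ≤ N) :
    ∃ z r : ℕ, r < N ∧ (r ≤ m ∨ N ≤ r + m) ∧ finrank K X = n * (N * z + r) ∧
      finrank K (LinearMap.range (φ S.π ^ (N - 1))) = n * z ∧
      finrank K (LinearMap.range (φ S.π)) + n * (if r = 0 then z else z + 1) = finrank K X := by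
  classical
  set P := φ S.π with hP
  let w : ℕ → ℕ := fun i => finrank K (layer P i ⊓ LinearMap.range (φ S.q) : Submodule K X)
  have hdim : ∀ i, finrank K (layer P i) = n * w i := fun i =>
    finrank_stable S φ inf_le_left fun x v hv => stable_layer S φ x i hv
  have htop : finrank K (LinearMap.range (P ^ (N - 1))) = n * w (N - 1) := by
    rw [finrank_range_pow P (N - 1), Nat.sub_add_cancel hN, hP, ← map_pow, S.nil, map_zero,
      LinearMap.range_zero, finrank_bot, zero_add, hdim]
  have hlow : finrank K (LinearMap.range P) + n * w 0 = finrank K X := by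
    rw [finrank_range_pow_eq_sum P 1, pow_one, Finset.sum_range_one, hdim]
  have hall : finrank K X = n * ∑ i ∈ Finset.range N, w i := by
    rw [finrank_range_pow_eq_sum P N, hP, ← map_pow, S.nil, map_zero, LinearMap.range_zero,
      finrank_bot, zero_add, Finset.mul_sum]
    exact Finset.sum_congr rfl fun i _ => hdim i
  by_cases hex : ∃ r, 1 ≤ r ∧ r < N ∧
      ∃ v, v ∈ layer P (r - 1) ⊓ LinearMap.range (φ S.q) ∧ v ∉ layer P r
  · obtain ⟨r, hr, hrN, hne⟩ := hex
    obtain ⟨hoth, v1, hv1, hv1r, hsup⟩ := exists_unique_layer S φ hT he hloc hr hrN hne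
    have hw1 : w (r - 1) = w r + 1 := by
      show finrank K (layer P (r - 1) ⊓ LinearMap.range (φ S.q) : Submodule K X) = _
      rw [hsup]
      have h := Submodule.finrank_sup_add_finrank_inf_eq
        (layer P r ⊓ LinearMap.range (φ S.q)) (Submodule.span K {v1})
      have hv10 : v1 ≠ 0 := fun h => hv1r (h ▸ zero_mem _)
      have hinf : (layer P r ⊓ LinearMap.range (φ S.q)) ⊓ Submodule.span K {v1} = ⊥ := by
        refine (Submodule.disjoint_span_singleton' hv10).2 ?_ |>.eq_bot
        exact fun h => hv1r h.1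
      rw [hinf, finrank_bot, add_zero, finrank_span_singleton hv10] at h
      exact h
    have hwj : ∀ j, 1 ≤ j → j < N → j ≠ r → w (j - 1) = w j := fun j h1 h2 h3 => by
      simp only [w, hP] at *
      rw [hoth j h1 h2 h3]
    have hval : ∀ i, i < N → w i = w (N - 1) + if i < r then 1 else 0 := by
      intro i hi
      obtain ⟨d, hd⟩ : ∃ d, i + d = N - 1 := ⟨N - 1 - i, by omega⟩
      induction d generalizing i with
      | zero => obtain rfl : i = N - 1 := hd
                rw [if_neg (by omega), add_zero]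
      | succ d ih =>
        have h1 := ih (i + 1) (by omega) (by omega)
        by_cases hir : i + 1 = r
        · obtain rfl : i = r - 1 := by omega
          rw [hw1, if_pos (by omega), show r = r - 1 + 1 by omega, h1, if_neg (by omega)]
        · have h2 := hwj (i + 1) (by omega) (by omega) hir
          rw [Nat.add_sub_cancel] at h2
          rw [h2, h1]
          by_cases h : i < r
          · rw [if_pos h, if_pos (by omega)]
          · rw [if_neg h, if_neg (by omega)]
    refine ⟨w (N - 1), r, hrN, layer_bound S φ hθ hm hPr heq hr hrN hv1.1 hv1r, ?_, htop, ?_⟩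
    · rw [hall, Finset.sum_congr rfl fun i hi => hval i (Finset.mem_range.1 hi),
        Finset.sum_add_distrib, Finset.sum_const, Finset.card_range, smul_eq_mul]
      congr 2
      rw [← Finset.sum_filter, Finset.sum_const, smul_eq_mul, mul_one,
        show (Finset.range N).filter (· < r) = Finset.range r by ext x; simp; omega,
        Finset.card_range]
    · have h0 := hval 0 (by omega)
      rw [if_pos (by omega : 0 < r)] at h0
      rw [if_neg (by omega : ¬ r = 0), ← h0, hlow]
  · push Not at hex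
    have hw : ∀ i, i < N → w i = w (N - 1) := by
      intro i hi
      obtain ⟨d, hd⟩ : ∃ d, i + d = N - 1 := ⟨N - 1 - i, by omega⟩
      induction d generalizing i with
      | zero => obtain rfl : i = N - 1 := hd; rfl
      | succ d ih =>
        rw [← ih (i + 1) (by omega) (by omega)]
        refine le_antisymm (Submodule.finrank_mono fun v hv => ?_)
          (Submodule.finrank_mono (inf_le_inf_right _ (layer_anti P (Nat.le_succ i))))
        exact ⟨hex (i + 1) (by omega) (by omega) v (by simpa using hv), hv.2⟩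
    refine ⟨w (N - 1), 0, hN, Or.inl (Nat.zero_le _), ?_, htop, ?_⟩
    · rw [hall, Finset.sum_congr rfl fun i hi => hw i (Finset.mem_range.1 hi), Finset.sum_const,
        Finset.card_range, smul_eq_mul, add_zero]
    · rw [if_pos rfl, ← hw 0 hN, hlow]

end Pattern

end CfsgLib.Jordan.CyclicDefect
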