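import Cfsg.Agent.Lib.Jordan.CyclicDefect.Pattern
import Cfsg.Agent.Lib.BlockStar.LocalRank
import Cfsg.Agent.Lib.Jordan.CyclicDefect.Data
import Cfsg.Agent.S4633

/-!
# The subgroups around a cyclic defect group

For a block with cyclic defect group `D` of order `p ^ a` and inertial index `e`: the exponents of
the inertial quotient, and the setting at the centraliser of the subgroup of order `p`.
-/

set_option autoImplicit false
set_option linter.style.haveILetI false
set_option linter.unusedSectionVars false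

noncomputable section

namespace CfsgLib.Jordan.CyclicDefect

open Cfsg CfsgLib.Blocks MonoidAlgebra CfsgLib.BrauerPairs CfsgLib.BlockStar
open CfsgLib.BlockSections (belowBlock belowBlock_spec)

variable {G : Type*} [Group G] [Fintype G] {M : Ideal AlgInt} [M.IsPrime] {p : ℕ} [Fact p.Prime]

/-- A block with cyclic defect group, a maximal pair, the order and the inertial index. -/
structure CycBlock (p : ℕ) [Fact p.Prime] (M : Ideal AlgInt) [M.IsPrime]
    (B : Set (IrrCharacter G)) (D : Subgroup G) (e0 : MonoidAlgebra (Res M) G) (a e : ℕ) :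
    Prop where
  hM : IsPModular p M
  hB : IsPBlock M B
  hmax : IsMaxPair p (⊤ : Subgroup G) (redElem M (blockCoeff B)) D e0
  cyclic : IsCyclic D
  a_pos : 1 ≤ a
  card_D : Nat.card D = p ^ a
  inert : (Subgroup.centralizer (D : Set G)).relIndex (pairStab (⊤ : Subgroup G) D e0) = e

variable {B : Set (IrrCharacter G)} {D : Subgroup G} {e0 : MonoidAlgebra (Res M) G} {a e : ℕ}

namespace CycBlock

variable (K : CycBlock p M B D e0 a e)
include K

theorem comm : ∀ x ∈ D, ∀ y ∈ D, x * y = y * x := fun x hx y hy => by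
  haveI := K.cyclic
  exact congrArg Subtype.val (IsCyclic.commGroup (α := D) |>.mul_comm ⟨x, hx⟩ ⟨y, hy⟩)

theorem exists_gen : ∃ w ∈ D, orderOf w = p ^ a ∧ ∀ x ∈ D, ∃ i : ℕ, w ^ i = x := by
  haveI := K.cyclic
  obtain ⟨w, hw⟩ := IsCyclic.exists_generator (α := D)
  refine ⟨w, w.2, by rw [Subgroup.orderOf_coe, orderOf_eq_card_of_forall_mem_zpowers hw, K.card_D],
    fun x hx => ?_⟩
  obtain ⟨i, hi⟩ := mem_powers_iff_mem_zpowers.2 (hw ⟨x, hx⟩)
  exact ⟨i, congrArg Subtype.val hi⟩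

theorem pow_card {x : G} (hx : x ∈ D) : x ^ p ^ a = 1 := by
  rw [← K.card_D]
  exact orderOf_dvd_iff_pow_eq_one.1
    (by rw [← Subgroup.orderOf_mk x hx]; exact orderOf_dvd_natCard _)

theorem ne_bot : D ≠ ⊥ := fun h => by
  have h1 : Nat.card D = 1 := by rw [h]; exact Subgroup.card_bot
  rw [K.card_D] at h1
  exact (Nat.one_lt_pow (by have := K.a_pos; omega) (Fact.out : p.Prime).one_lt).ne' h1

theorem centralizer_le_stab :
    Subgroup.centralizer (D : Set G) ≤ pairStab (⊤ : Subgroup G) D e0 :=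
  (cenIn_top D).ge.trans (cenIn_le_pairStab K.hmax.1.1)

theorem normal_stab :
    ((Subgroup.centralizer (D : Set G)).subgroupOf (pairStab (⊤ : Subgroup G) D e0)).Normal :=
  Subgroup.normal_subgroupOf_of_le_normalizer fun _ hx =>
    normalizer_le_normalizer_cen D (mem_pairStab.1 hx).2.1

/-- The inertial quotient: its index divides `p - 1`, it is generated by one element and it acts
freely. -/
theorem inertia : e ∣ p - 1 ∧ (∀ x ∈ pairStab (⊤ : Subgroup G) D e0, ∀ y ∈ D, y ≠ 1 →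
    x * y * x⁻¹ = y → x ∈ Subgroup.centralizer (D : Set G)) ∧
    ∃ t0 ∈ pairStab (⊤ : Subgroup G) D e0, t0 ^ e ∈ Subgroup.centralizer (D : Set G) ∧
      (e = 1 → t0 = 1) ∧
      (∀ x ∈ pairStab (⊤ : Subgroup G) D e0,
        ∃ i : ℕ, ∃ c ∈ Subgroup.centralizer (D : Set G), x = t0 ^ i * c) ∧
      ∀ i : ℕ, t0 ^ i ∈ Subgroup.centralizer (D : Set G) → e ∣ i := by
  haveI := Blocks.charP_res K.hM
  haveI : M.IsMaximal := K.hM.2.1
  haveI : IsAlgClosed (Res M) := Blocks.isAlgClosed_res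
  have hb := isBlockIdem_redElem_blockCoeff (M := M) K.hB
  obtain ⟨c, hc, hce⟩ := exists_isPBlock_subIdem (M := M) (H := Subgroup.centralizer (D : Set G))
    (by rw [← cenIn_top]; exact K.hmax.1.1.2.2)
  have hP : IsPGroup p D := K.hmax.1.1.1
  have hDC : D ≤ Subgroup.centralizer (D : Set G) := fun u hu =>
    Subgroup.mem_centralizer_iff.2 fun v hv => K.comm v hv u hu
  have hind : IsInducedBlock M (Subgroup.centralizer (D : Set G)) c B :=
    (isInducedBlock_iff K.hM hP hDC (Subgroup.centralizer_le_normalizer _) le_rfl hc K.hB).2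
      (by rw [hce]; exact K.hmax.1.2)
  have hT : ∀ g : G, g ∈ pairStab (⊤ : Subgroup G) D e0 ↔
      (g ∈ Subgroup.normalizer (D : Set G) ∧
        StabilizesBlock (Subgroup.centralizer (D : Set G)) c g) := fun g => by
    rw [← hce, mem_pairStab_top_iff hc]
  haveI := K.normal_stab
  obtain ⟨hcyc, hdvd, hfree⟩ := Cfsg.Agent.S4633.result p M K.hM B K.hB D
    ((isDefectGroup_iff K.hM K.hB).2 (K.hmax.isDefectIn hb)) K.ne_bot K.cyclic c hind _ hT
  rw [K.inert] at hdvd
  refine ⟨hdvd, hfree, ?_⟩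
  set T := pairStab (⊤ : Subgroup G) D e0
  set C := (Subgroup.centralizer (D : Set G)).subgroupOf T
  obtain ⟨q, hq⟩ := IsCyclic.exists_generator (α := T ⧸ C)
  have hcard : Nat.card (T ⧸ C) = e := K.inert
  by_cases he1 : e = 1
  · refine ⟨1, one_mem _, by rw [one_pow]; exact one_mem _, fun _ => rfl, fun x hx => ?_,
      fun i _ => he1 ▸ one_dvd i⟩
    refine ⟨0, x, ?_, by rw [pow_zero, one_mul]⟩
    have htop : C = ⊤ := Subgroup.index_eq_one.1 (hcard.trans he1)
    have : (⟨x, hx⟩ : T) ∈ C := htop ▸ Subgroup.mem_top _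
    exact Subgroup.mem_subgroupOf.1 this
  obtain ⟨t, rfl⟩ := QuotientGroup.mk_surjective q
  have hord : orderOf (QuotientGroup.mk t : T ⧸ C) = e := by
    rw [orderOf_eq_card_of_forall_mem_zpowers hq, hcard]
  have hmem : ∀ i : ℕ, (t : G) ^ i ∈ Subgroup.centralizer (D : Set G) ↔
      (QuotientGroup.mk t : T ⧸ C) ^ i = 1 := fun i => by
    rw [← QuotientGroup.mk_pow, QuotientGroup.eq_one_iff, Subgroup.mem_subgroupOf,
      Subgroup.coe_pow]
  refine ⟨t, t.2, (hmem e).2 (by rw [← hord]; exact pow_orderOf_eq_one _),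
    fun h => absurd h he1, fun x hx => ?_, fun i hi => ?_⟩
  · obtain ⟨i, hi⟩ := mem_powers_iff_mem_zpowers.2 (hq (QuotientGroup.mk ⟨x, hx⟩))
    have hi' : (QuotientGroup.mk (t ^ i) : T ⧸ C) = QuotientGroup.mk ⟨x, hx⟩ := hi
    refine ⟨i, ((t : G) ^ i)⁻¹ * x, ?_, (mul_inv_cancel_left _ _).symm⟩
    have h := QuotientGroup.eq.1 hi'
    rwa [Subgroup.mem_subgroupOf, Subgroup.coe_mul, Subgroup.coe_inv, Subgroup.coe_pow] at h
  · rw [← hord]
    exact orderOf_dvd_of_pow_eq_one ((hmem i).1 hi)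

theorem e_pos : 0 < e := Nat.pos_of_ne_zero fun h => by
  have := K.inertia.1
  rw [h, zero_dvd_iff] at this
  have := (Fact.out : p.Prime).two_le
  omega

theorem not_dvd_e : ¬ p ∣ e := fun h => by
  have h1 := Nat.le_of_dvd (by have := (Fact.out : p.Prime).two_le; omega) (h.trans K.inertia.1)
  have := (Fact.out : p.Prime).two_le
  omega

/-- The elements of order at most `p` form one subgroup. -/
theorem exists_order_p : ∃ z ∈ D, orderOf z = p ∧ (∀ y ∈ D, y ^ p = 1 → y ∈ Subgroup.zpowers z) ∧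
    ∀ v ∈ D, v ≠ 1 → z ∈ Subgroup.zpowers v := by
  obtain ⟨w, hw, hord, hgen⟩ := K.exists_gen
  have hp := (Fact.out : p.Prime)
  obtain ⟨b, rfl⟩ : ∃ b, a = b + 1 := ⟨a - 1, by have := K.a_pos; omega⟩
  set z := w ^ p ^ b
  have hz : orderOf z = p := by
    rw [orderOf_pow' _ (pow_pos hp.pos b).ne', hord, pow_succ, Nat.gcd_eq_right (dvd_mul_right _ _),
      Nat.mul_div_cancel_left _ (pow_pos hp.pos b)]
  have hz' : ∀ y ∈ D, y ^ p = 1 → y ∈ Subgroup.zpowers z := by
    intro y hy hyp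
    obtain ⟨i, rfl⟩ := hgen y hy
    rw [← pow_mul, ← orderOf_dvd_iff_pow_eq_one, hord, pow_succ] at hyp
    obtain ⟨j, rfl⟩ := Nat.dvd_of_mul_dvd_mul_right hp.pos hyp
    exact ⟨j, by simp only [zpow_natCast]; rw [← pow_mul]⟩
  refine ⟨z, pow_mem hw _, hz, hz', fun v hv hv1 => ?_⟩
  have hvo : orderOf v ∣ p ^ (b + 1) := orderOf_dvd_of_pow_eq_one (K.pow_card hv)
  obtain ⟨k, -, hk⟩ := (Nat.dvd_prime_pow hp).1 hvo
  obtain ⟨k', rfl⟩ : ∃ k', k = k' + 1 := ⟨k - 1, by
    rcases k with _ | k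
    · exact absurd (orderOf_eq_one_iff.1 (by rw [hk, pow_zero])) hv1
    · rfl⟩
  set y := v ^ p ^ k'
  have hy : orderOf y = p := by
    rw [orderOf_pow' _ (pow_pos hp.pos k').ne', hk, pow_succ,
      Nat.gcd_eq_right (dvd_mul_right _ _), Nat.mul_div_cancel_left _ (pow_pos hp.pos k')]
  have hle : Subgroup.zpowers y ≤ Subgroup.zpowers z :=
    Subgroup.zpowers_le.2 (hz' y (pow_mem hv _) (by rw [← hy]; exact pow_orderOf_eq_one y))
  have heq := Subgroup.eq_of_le_of_card_ge hle (by rw [Nat.card_zpowers, Nat.card_zpowers, hy, hz])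
  exact Subgroup.zpowers_le.2 (Subgroup.pow_mem _ (Subgroup.mem_zpowers v) _)
    (heq.ge (Subgroup.mem_zpowers z))

/-- The block at a nontrivial element is nilpotent. -/
theorem exists_abNilp {v : G} (hv : v ∈ D) (hv1 : v ≠ 1)
    [Fintype (Subgroup.centralizer ({v} : Set G))] [CharP (Res M) p] [IsAlgClosed (Res M)] :
    ∃ e' : MonoidAlgebra (Res M) (Subgroup.centralizer ({v} : Set G)),
      mapG (Subgroup.centralizer ({v} : Set G)).subtype e' = e0 ∧
      AbNilp p M (belowBlock (M := M) p D e0 v)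
        (D.subgroupOf (Subgroup.centralizer ({v} : Set G))) e' := by
  haveI : M.IsMaximal := K.hM.2.1
  obtain ⟨e', he', hm⟩ := exists_local K.hM K.hB K.hmax K.comm hv
  obtain ⟨hbl, -, -⟩ := belowBlock_spec K.hM K.hB K.hmax hv
  refine ⟨e', he', K.hM, hbl, hm, ?_, abelian_local K.comm _⟩
  refine (hm.isNilp_iff_of_abelian (isBlockIdem_redElem_blockCoeff hbl)
    (abelian_local K.comm _)).2 fun x hx => ?_
  have hxT := (mem_pairStab_local K.comm hv he' x).1 hx
  have hxc := K.inertia.2.1 _ hxT v hv hv1 (by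
    rw [Subgroup.mem_centralizer_singleton_iff.1 x.2, mul_inv_cancel_right])
  exact Subgroup.mem_centralizer_iff.2 fun w hw =>
    Subtype.ext (Subgroup.mem_centralizer_iff.1 hxc _ (Subgroup.mem_subgroupOf.1 hw))

theorem pow_val_cast {x : G} (hx : x ∈ D) [NeZero (p ^ a)] (n : ℕ) :
    x ^ ((n : ZMod (p ^ a))).val = x ^ n := by
  rw [ZMod.val_natCast]
  conv_rhs => rw [← Nat.mod_add_div n (p ^ a), pow_add, pow_mul, K.pow_card hx, one_pow, mul_one]

theorem pow_val_mul {x : G} (hx : x ∈ D) [NeZero (p ^ a)] (r s : ZMod (p ^ a)) :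
    x ^ (r * s).val = (x ^ r.val) ^ s.val := by
  rw [← pow_mul, ← K.pow_val_cast hx (r.val * s.val)]
  simp

/-- Roots of unity of order dividing `e` congruent modulo `p` are equal. -/
theorem expSet_inj [NeZero (p ^ a)] {r s : ZMod (p ^ a)} (hr : r ∈ expSet p a e)
    (hs : s ∈ expSet p a e) (h : (r.val : ZMod p) = (s.val : ZMod p)) : r = s := by
  simp only [expSet, Finset.mem_filter, Finset.mem_univ, true_and] at hr hs
  have hp := (Fact.out : p.Prime)
  let f : ZMod (p ^ a) →+* ZMod p :=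
    ZMod.castHom (dvd_pow_self p (by have := K.a_pos; omega)) (ZMod p)
  have hf : ∀ x : ZMod (p ^ a), f x = (x.val : ZMod p) := fun x => by
    conv_lhs => rw [← ZMod.natCast_zmod_val x, map_natCast]
  obtain ⟨q, hq⟩ : ∃ q, q = r * s ^ (e - 1) := ⟨_, rfl⟩
  have hsq : s * s ^ (e - 1) = 1 := by rw [← pow_succ', Nat.sub_add_cancel K.e_pos, hs]
  have hfq : f q = 1 := by
    rw [hq, map_mul, map_pow, hf r, h, ← hf s, ← pow_succ', Nat.sub_add_cancel K.e_pos, ← map_pow,
      hs, map_one]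
  have hqe : q ^ e = 1 := by rw [hq, mul_pow, hr, ← pow_mul, mul_comm (e - 1) e, pow_mul, hs, one_pow, mul_one]
  have hdvd : (p : ℤ) ∣ (q.val : ℤ) - 1 := by
    rw [← ZMod.intCast_zmod_eq_zero_iff_dvd]
    push_cast
    rw [← hf, hfq, sub_self]
  have h2 := dvd_sub_pow_of_dvd_sub (a := (q.val : ℤ)) (b := 1) hdvd (a - 1)
  rw [one_pow, Nat.sub_add_cancel K.a_pos] at h2
  have h3 : q ^ p ^ (a - 1) = 1 := by
    have h4 : (((q.val : ℤ) ^ p ^ (a - 1) - 1 : ℤ) : ZMod (p ^ a)) = 0 := by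
      rw [ZMod.intCast_zmod_eq_zero_iff_dvd]
      exact_mod_cast h2
    push_cast at h4
    rwa [ZMod.natCast_zmod_val, sub_eq_zero] at h4
  have h5 : q = 1 := by
    have h6 : q ^ Nat.gcd e (p ^ (a - 1)) = 1 := pow_gcd_eq_one.2 ⟨hqe, h3⟩
    have hco : Nat.gcd e (p ^ (a - 1)) = 1 :=
      (Nat.Coprime.pow_right _ ((hp.coprime_iff_not_dvd.2 K.not_dvd_e).symm))
    rwa [hco, pow_one] at h6
  calc r = r * (s * s ^ (e - 1)) := by rw [hsq, mul_one]
    _ = s * q := by rw [hq]; ring
    _ = s := by rw [h5, mul_one]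

/-- An exponent other than one fixes only the identity. -/
theorem pow_fixed [NeZero (p ^ a)] {r : ZMod (p ^ a)} (hr : r ∈ expSet p a e) (hr1 : r ≠ 1)
    {x : G} (hx : x ∈ D) (h : x ^ r.val = x) : x = 1 := by
  have hp := (Fact.out : p.Prime)
  by_contra hx1
  obtain ⟨k, -, hk⟩ :=
    (Nat.dvd_prime_pow hp).1 (orderOf_dvd_of_pow_eq_one (K.pow_card hx))
  have hk0 : k ≠ 0 := fun h0 => hx1 (orderOf_eq_one_iff.1 (by rw [hk, h0, pow_zero]))
  refine hr1 (K.expSet_inj hr (by simp [expSet]) ?_)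
  rw [ZMod.natCast_eq_natCast_iff]
  have h1 : r.val ≡ 1 [MOD orderOf x] := pow_eq_pow_iff_modEq.1 (by rw [h, pow_one])
  haveI : Fact (1 < p ^ a) := ⟨Nat.one_lt_pow (by have := K.a_pos; omega) hp.one_lt⟩
  rw [ZMod.val_one]
  exact h1.of_dvd (hk ▸ dvd_pow_self p hk0)

/-- The exponents are those of the powers of the generator of the inertial quotient. -/
theorem exists_exponent [NeZero (p ^ a)] {t0 : G} (ht0 : t0 ∈ pairStab (⊤ : Subgroup G) D e0)
    (hte : t0 ^ e ∈ Subgroup.centralizer (D : Set G))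
    (hmin : ∀ i : ℕ, t0 ^ i ∈ Subgroup.centralizer (D : Set G) → e ∣ i) :
    ∃ r0 : ZMod (p ^ a), (∀ i : ℕ, ∀ x ∈ D, t0 ^ i * x * (t0 ^ i)⁻¹ = x ^ (r0 ^ i).val) ∧
      (Finset.range e).image (fun i => r0 ^ i) = expSet p a e ∧
      Set.InjOn (fun i => r0 ^ i) (Finset.range e : Set ℕ) := by
  classical
  have hp := (Fact.out : p.Prime)
  haveI : Fact (1 < p ^ a) := ⟨Nat.one_lt_pow (by have := K.a_pos; omega) hp.one_lt⟩
  obtain ⟨w, hw, hord, hgen⟩ := K.exists_gen
  obtain ⟨k, hk⟩ := hgen _ ((Subgroup.mem_normalizer_iff.1 (mem_pairStab.1 ht0).2.1 w).1 hw)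
  have h1 : ∀ x ∈ D, t0 * x * t0⁻¹ = x ^ ((k : ZMod (p ^ a))).val := by
    intro x hx
    obtain ⟨i, rfl⟩ := hgen x hx
    rw [K.pow_val_cast (pow_mem hw _), ← conj_pow, ← hk, ← pow_mul, ← pow_mul, mul_comm]
  set r0 : ZMod (p ^ a) := (k : ZMod (p ^ a))
  have hpow : ∀ i : ℕ, ∀ x ∈ D, t0 ^ i * x * (t0 ^ i)⁻¹ = x ^ (r0 ^ i).val := by
    intro i
    induction i with
    | zero => intro x hx; simp [ZMod.val_one]
    | succ i ih =>
      intro x hx
      rw [pow_succ' t0, mul_inv_rev, pow_succ, K.pow_val_mul hx,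
        ← h1 _ (pow_mem hx _), ← ih x hx]
      group
  have hre : r0 ^ e = 1 := by
    have h2 := hpow e w hw
    rw [← Subgroup.mem_centralizer_iff.1 hte w hw, mul_inv_cancel_right] at h2
    have h3 : 1 ≡ (r0 ^ e).val [MOD p ^ a] :=
      (pow_eq_pow_iff_modEq.1 (by rw [pow_one]; exact h2)).of_dvd (dvd_of_eq hord.symm)
    rw [← ZMod.natCast_eq_natCast_iff, Nat.cast_one, ZMod.natCast_zmod_val] at h3
    exact h3.symm
  have hinj : Set.InjOn (fun i => r0 ^ i) (Finset.range e : Set ℕ) := by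
    intro i hi j hj hij
    simp only [Finset.coe_range, Set.mem_Iio] at hi hj
    wlog hle : i ≤ j generalizing i j
    · exact (this hij.symm hj hi (le_of_lt (not_le.1 hle))).symm
    have h2 : r0 ^ (j - i) = 1 := by
      have hu : IsUnit (r0 ^ i) := (IsUnit.of_pow_eq_one hre K.e_pos.ne').pow i
      apply hu.mul_left_cancel
      rw [← pow_add, Nat.add_sub_cancel' hle, mul_one]
      exact hij.symm
    have h3 : t0 ^ (j - i) ∈ Subgroup.centralizer (D : Set G) := by
      refine Subgroup.mem_centralizer_iff.2 fun x hx => ?_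
      have h4 := hpow (j - i) x hx
      rw [h2, ZMod.val_one, pow_one, mul_inv_eq_iff_eq_mul] at h4
      exact h4.symm
    obtain ⟨m, hm⟩ := hmin _ h3
    rcases m with _ | m
    · omega
    · have : e ≤ j - i := hm ▸ Nat.le_mul_of_pos_right _ (Nat.succ_pos _)
      omega
  refine ⟨r0, hpow, Finset.eq_of_subset_of_card_le ?_ ?_, hinj⟩
  · intro r hr
    obtain ⟨i, -, rfl⟩ := Finset.mem_image.1 hr
    simp only [expSet, Finset.mem_filter, Finset.mem_univ, true_and]
    rw [← pow_mul, mul_comm, pow_mul, hre, one_pow]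
  · rw [Finset.card_image_of_injOn hinj, Finset.card_range]
    calc (expSet p a e).card
        ≤ (Polynomial.nthRoots e (1 : ZMod p)).toFinset.card := by
          refine Finset.card_le_card_of_injOn (fun r => (r.val : ZMod p)) ?_
            fun r hr s hs h => K.expSet_inj hr hs h
          intro r hr
          simp only [expSet, Finset.coe_filter, Finset.mem_univ, true_and, Set.mem_ofPred_eq] at hr
          simp only [Multiset.mem_toFinset, Finset.mem_coe, Polynomial.mem_nthRoots K.e_pos]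
          let f : ZMod (p ^ a) →+* ZMod p :=
            ZMod.castHom (dvd_pow_self p (by have := K.a_pos; omega)) (ZMod p)
          have hf : f r = (r.val : ZMod p) := by
            conv_lhs => rw [← ZMod.natCast_zmod_val r, map_natCast]
          rw [← hf, ← map_pow, hr, map_one]
      _ ≤ e := (Multiset.toFinset_card_le _).trans (Polynomial.card_nthRoots e _)

/-- The setting at the centraliser of the subgroup of order `p`. -/
theorem exists_localSetup [CharP (Res M) p] [IsAlgClosed (Res M)] {z : G} (hz : z ∈ D)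
    (hzp : orderOf z = p) (hzu : ∀ y ∈ D, y ^ p = 1 → y ∈ Subgroup.zpowers z)
    (hzv : ∀ v ∈ D, v ≠ 1 → z ∈ Subgroup.zpowers v)
    {t0 : G} (ht0 : t0 ∈ pairStab (⊤ : Subgroup G) D e0)
    (hte : t0 ^ e ∈ Subgroup.centralizer (D : Set G)) (ht1 : e = 1 → t0 = 1)
    (hdec : ∀ x ∈ pairStab (⊤ : Subgroup G) D e0,
      ∃ i : ℕ, ∃ c ∈ Subgroup.centralizer (D : Set G), x = t0 ^ i * c)
    (hmin : ∀ i : ℕ, t0 ^ i ∈ Subgroup.centralizer (D : Set G) → e ∣ i)
    [Fintype (Subgroup.centralizer ({z} : Set G))] :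
    ∃ e' : MonoidAlgebra (Res M) (Subgroup.centralizer ({z} : Set G)),
      mapG (Subgroup.centralizer ({z} : Set G)).subtype e' = e0 ∧
      ∃ (θ : IrrCharacter (Subgroup.centralizer ({z} : Set G)))
        (u : D.subgroupOf (Subgroup.centralizer ({z} : Set G))) (T : Subgroup G),
        LocalSetup (p := p) (Subgroup.centralizer ({z} : Set G))
          (belowBlock (M := M) p D e0 z) (D.subgroupOf (Subgroup.centralizer ({z} : Set G)))
          e' θ u e t0 T (Subgroup.normalizer (Subgroup.zpowers z : Set G)) := by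
  classical
  haveI : M.IsMaximal := K.hM.2.1
  have hp := (Fact.out : p.Prime)
  have hz1 : z ≠ 1 := fun h => hp.one_lt.ne' (by rw [← hzp, h, orderOf_one])
  obtain ⟨e', he', H⟩ := K.exists_abNilp hz hz1
  refine ⟨e', he', ?_⟩
  have hb := isBlockIdem_redElem_blockCoeff (M := M) K.hB
  obtain ⟨hbl, hle, -⟩ := belowBlock_spec K.hM K.hB K.hmax hz
  set b := belowBlock (M := M) p D e0 z
  set f := subIdem M (Subgroup.centralizer ({z} : Set G)) b with hfdef
  set T1 := pairStab (⊤ : Subgroup G) (Subgroup.zpowers z) f with hT1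
  set T := pairStab (⊤ : Subgroup G) D e0 with hTdef
  have hDC : D ≤ (Subgroup.centralizer ({z} : Set G)) := le_centralizer_of_mem K.comm hz
  have hcz : Subgroup.centralizer (Subgroup.zpowers z : Set G) = (Subgroup.centralizer ({z} : Set G)) :=
    BrauerCharacters.centralizer_zpowers_eq z
  have hCDC : Subgroup.centralizer (D : Set G) ≤ (Subgroup.centralizer ({z} : Set G)) := fun x hx =>
    Subgroup.mem_centralizer_singleton_iff.2 (Subgroup.mem_centralizer_iff.1 hx z hz).symm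
  have hnormC : ∀ x ∈ Subgroup.normalizer (Subgroup.zpowers z : Set G),
      ∀ g, g ∈ (Subgroup.centralizer ({z} : Set G)) ↔ x * g * x⁻¹ ∈ (Subgroup.centralizer ({z} : Set G)) := fun x hx g => by
    have h := Subgroup.mem_normalizer_iff.1 (normalizer_le_normalizer_cen _ hx) g
    rwa [hcz] at h
  have hconjz : ∀ x : G, x * z * x⁻¹ ∈ D → x ∈ Subgroup.normalizer (Subgroup.zpowers z : Set G) := by
    intro x hx
    have hxo : orderOf (x * z * x⁻¹) = p := hzp ▸ (MulAut.conj x).orderOf_eq z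
    have hxz : x * z * x⁻¹ ∈ Subgroup.zpowers z :=
      hzu _ hx (hxo ▸ pow_orderOf_eq_one _)
    have heq : Subgroup.zpowers (x * z * x⁻¹) = Subgroup.zpowers z :=
      Subgroup.eq_of_le_of_card_ge (Subgroup.zpowers_le.2 hxz)
        (by rw [Nat.card_zpowers, Nat.card_zpowers, hxo, hzp])
    have hcj : cj x (Subgroup.zpowers z) = Subgroup.zpowers z := by rw [cj_zpowers, heq]
    refine Subgroup.mem_normalizer_iff.2 fun y => ?_
    conv_rhs => rw [← hcj, mem_cj]
    rw [show x⁻¹ * (x * y * x⁻¹) * x = y by group]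
  have hTT1 : T ≤ T1 := by
    intro x hx
    obtain ⟨-, hxD, hxe⟩ := mem_pairStab.1 hx
    have hxN := hconjz x ((Subgroup.mem_normalizer_iff.1 hxD z).1 hz)
    refine mem_pairStab.2 ⟨Subgroup.mem_top x, hxN, ?_⟩
    have h := hle.conj (c := x) (Subgroup.mem_top x)
    rw [cj_of_mem_normalizer hxD, hxe, cj_of_mem_normalizer hxN] at h
    exact (existsUnique_pairLE K.hmax.1.1 (Subgroup.zpowers_le.2 hz)).unique h hle
  have hpair : IsPair p (⊤ : Subgroup G) (Subgroup.zpowers z) f := hle.isPair_left K.hmax.1.1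
  have hCT1 : (Subgroup.centralizer ({z} : Set G)) ≤ T1 := by
    rw [← hcz, ← cenIn_top]; exact cenIn_le_pairStab hpair
  have hT1N : T1 ≤ Subgroup.normalizer (Subgroup.zpowers z : Set G) := fun x hx =>
    (mem_pairStab.1 hx).2.1
  have hdecomp : ∀ x ∈ T1, ∃ i : ℕ, ∃ c ∈ (Subgroup.centralizer ({z} : Set G)), x = t0 ^ i * c := by
    intro x hx
    obtain ⟨y, hy, c, hc, rfl⟩ := K.hmax.stab_eq_of_abelian hb K.comm hle x hx
    obtain ⟨i, d, hd, rfl⟩ := hdec y hy
    refine ⟨i, d * c, mul_mem (hCDC hd) ?_, mul_assoc _ _ _⟩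
    rw [cenIn_top, hcz] at hc
    exact hc
  have hfree := K.inertia.2.1
  have hindex : (Subgroup.centralizer ({z} : Set G)).relIndex T1 = e := by
    haveI : ((Subgroup.centralizer ({z} : Set G)).subgroupOf T1).Normal := Subgroup.normal_subgroupOf_of_le_normalizer fun x hx => by
      have h := normalizer_le_normalizer_cen _ (hT1N hx)
      rwa [hcz] at h
    have hsup : T.subgroupOf T1 ⊔ (Subgroup.centralizer ({z} : Set G)).subgroupOf T1 = ⊤ := by
      rw [← Subgroup.subgroupOf_sup hTT1 hCT1, Subgroup.subgroupOf_eq_top]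
      intro x hx
      obtain ⟨i, c, hc, rfl⟩ := hdecomp x hx
      exact mul_mem ((le_sup_left : T ≤ T ⊔ (Subgroup.centralizer ({z} : Set G))) (pow_mem ht0 i)) ((le_sup_right : (Subgroup.centralizer ({z} : Set G)) ≤ T ⊔ (Subgroup.centralizer ({z} : Set G))) hc)
    have h1 : (Subgroup.centralizer ({z} : Set G)).relIndex T1 = (Subgroup.centralizer ({z} : Set G)).relIndex T := by
      show ((Subgroup.centralizer ({z} : Set G)).subgroupOf T1).index = _
      rw [← Subgroup.relIndex_top_right, ← hsup, Subgroup.relIndex_sup_right,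
        Subgroup.relIndex_subgroupOf hTT1]
    rw [h1, ← Subgroup.inf_relIndex_right (Subgroup.centralizer ({z} : Set G)) T,
      show (Subgroup.centralizer ({z} : Set G)) ⊓ T = Subgroup.centralizer (D : Set G) from
        le_antisymm (fun x hx => hfree x hx.2 z hz hz1 (by
            rw [Subgroup.mem_centralizer_singleton_iff.1 hx.1, mul_inv_cancel_right]))
          (le_inf hCDC K.centralizer_le_stab)]
    exact K.inert
  set σ := conjOn (Subgroup.centralizer ({z} : Set G)) t0 (hnormC t0 (hT1N (hTT1 ht0))) with hσ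
  obtain ⟨-, ht0D, ht0e⟩ := mem_pairStab.1 ht0
  have hσP : (D.subgroupOf (Subgroup.centralizer ({z} : Set G))).map σ.toMonoidHom = (D.subgroupOf (Subgroup.centralizer ({z} : Set G))) := by
    ext v
    constructor
    · rintro ⟨w, hw, rfl⟩
      exact (Subgroup.mem_normalizer_iff.1 ht0D (w : G)).1 hw
    · intro hv
      refine ⟨σ.symm v, ?_, σ.apply_symm_apply v⟩
      show t0⁻¹ * (v : G) * t0 ∈ D
      exact (Subgroup.mem_normalizer_iff''.1 ht0D (v : G)).1 hv
  have hσe : mapG σ.toMonoidHom e' = e' := by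
    refine mapG_injective (Subgroup.centralizer ({z} : Set G)).subtype_injective ?_
    rw [hσ, ← single_mul_mapG_mul_single, ← conjA_eq_mul, he', ht0e]
  obtain ⟨w, hw, hword, hwgen⟩ := K.exists_gen
  obtain ⟨θ, hθ, hθfix⟩ : ∃ θ ∈ b, compIrr σ θ = θ := by
    by_cases he1 : e = 1
    · obtain ⟨θ, hθ⟩ := Blocks.isPBlock_nonempty hbl
      refine ⟨θ, hθ, Subtype.ext (funext fun g => ?_)⟩
      rw [compIrr_apply, show σ g = g from Subtype.ext (by
        rw [hσ, coe_conjOn, ht1 he1, one_mul, inv_one, mul_one])]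
    · refine H.exists_fixed σ hσP hσe fun v hv hfix => ?_
      by_contra hv1
      have h := hfree t0 ht0 (v : G) hv (fun h => hv1 (Subtype.ext h))
        (congrArg Subtype.val hfix)
      exact he1 (Nat.dvd_one.1 (hmin 1 (by rwa [pow_one])))
  refine ⟨θ, ⟨⟨w, hDC hw⟩, hw⟩, T1,
    { nilp := H, hθ := hθ
      gen := fun v => by
        obtain ⟨i, hi⟩ := hwgen _ v.2
        exact ⟨i, Subtype.ext (Subtype.ext (by simpa using hi))⟩
      mem_t0 := hTT1 ht0, CT := hCT1, TN := hT1N, norm := hnormC, decomp := hdecomp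
      tpow := hCDC hte, not_dvd := K.not_dvd_e, index := hindex, mapP := hσP, fixE0 := hσe
      fixθ := hθfix
      orth := fun x hxN hxT => ?_
      ti := fun x v hv hv1 hxv => ?_ }⟩
  · have hid : mapG (Subgroup.centralizer ({z} : Set G)).subtype (redElem M (blockCoeff b)) = f :=
      (redElem_subgroupBlockCoeff (Subgroup.centralizer ({z} : Set G)) b).symm
    rw [hid]
    have hblk : IsBlockIdem (Subgroup.centralizer ({z} : Set G)) f := isBlockIdem_subIdem hbl
    refine hblk.mul_eq_zero_of_ne (hblk.conj ?_) fun h => hxT ?_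
    · have h := normalizer_le_normalizer_cen _ hxN
      rwa [hcz] at h
    · exact mem_pairStab.2 ⟨Subgroup.mem_top x, hxN, h.symm⟩
  · rw [Subgroup.map_subgroupOf_eq_of_le hDC] at hv hxv
    obtain ⟨i, hi⟩ := hzv v hv hv1
    have h1 : x⁻¹ * z * x⁻¹⁻¹ ∈ D := by
      rw [← hi, ← conj_zpow, inv_inv]
      exact zpow_mem hxv _
    have := inv_mem (hconjz x⁻¹ h1)
    rwa [inv_inv] at this

end CycBlock

end CfsgLib.Jordan.CyclicDefect
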