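import Cfsg.Agent.Lib.DefectOne.Average
import Mathlib.GroupTheory.Index
import Mathlib.Algebra.Module.Basic
import Mathlib.Tactic.Group

/-!
# The corner of a trace from a defect group

For an idempotent of a subgroup `C` with a trace presentation from `D`, stable under `T` and
orthogonal to its other conjugates in `N`, with `D` moved off itself outside `N`, the corner of the
trace to the group of an endomorphism commuting with `T` is a multiple of it up to a trace from the
trivial group to `C`.
-/

set_option autoImplicit false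
set_option linter.style.haveILetI false

namespace CfsgLib.Jordan.CyclicDefect

open DefectOne

variable {G : Type*} [Group G] [Fintype G] {A : Type*} [Ring A] (σ : G →* A)

/-- The data of the corner. -/
structure CornerData (D C T N : Subgroup G) (E a : A) [Fintype (C ⧸ D.subgroupOf C)] : Prop where
  DC : D ≤ C
  CT : C ≤ T
  TN : T ≤ N
  idem : E * E = E
  fix : ∀ t ∈ T, Commute (σ t) E
  orth : ∀ x ∈ N, x ∉ T → E * (σ x * E * σ x⁻¹) = 0
  ti : ∀ x : G, ∀ v ∈ D, v ≠ 1 → x⁻¹ * v * x ∈ D → x ∈ N
  comm : Commute E a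
  fixD : ∀ v ∈ D, Commute (σ v) a
  trace : avg (σ.comp C.subtype) (D.subgroupOf C) a = E

variable {σ} {D C T N : Subgroup G} {E a : A} [Fintype (C ⧸ D.subgroupOf C)]

theorem corner_trace (h : CornerData σ D C T N E a) [Fintype (G ⧸ D)] [Fintype C] {β : A}
    (hβ : ∀ t ∈ T, Commute (σ t) β) (hβE : E * β * E = β) :
    ∃ δ : A, E * avg σ D (β * a) * E =
      C.relIndex T • β + ∑ g : C, σ (g : G) * δ * σ (g : G)⁻¹ := by
  classical
  haveI : Fintype D := Fintype.ofFinite _
  set γ := β * a with hγdef
  have hDT : D ≤ T := h.DC.trans h.CT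
  have hγ : ∀ v ∈ D, Commute (σ v) γ := fun v hv => (hβ v (hDT hv)).mul_right (h.fixD v hv)
  have hEγ : E * γ * E = γ := by
    rw [hγdef, show E * (β * a) * E = E * β * (a * E) by simp only [mul_assoc], ← h.comm.eq,
      ← mul_assoc, hβE]
  have hmem : ∀ {H : Subgroup G}, D ≤ H → ∀ x : G, (QuotientGroup.mk x : G ⧸ D).out ∈ H ↔ x ∈ H := by
    intro H hDH x
    obtain ⟨⟨k, hk⟩, he⟩ := QuotientGroup.mk_out_eq_mul D x
    rw [he]
    exact H.mul_mem_cancel_right (hDH hk)
  have hinv : ∀ y : G, σ y⁻¹ * σ y = 1 := fun y => by rw [← map_mul, inv_mul_cancel, map_one]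
  have hinv' : ∀ y : G, σ y * σ y⁻¹ = 1 := fun y => by rw [← map_mul, mul_inv_cancel, map_one]
  have hEl : E * γ = γ := by
    conv_lhs => rw [← hEγ]
    rw [← mul_assoc, ← mul_assoc, h.idem, hEγ]
  set QT := Finset.univ.filter fun q : G ⧸ D => q.out ∈ T
  set QN := Finset.univ.filter fun q : G ⧸ D => q.out ∈ N ∧ q.out ∉ T
  set QF := Finset.univ.filter fun q : G ⧸ D => q.out ∉ N
  have hsplit : avg σ D γ = ∑ q ∈ QT, conjAt σ D γ q + ∑ q ∈ QN, conjAt σ D γ q +
      ∑ q ∈ QF, conjAt σ D γ q := by
    rw [avg, Finset.sum_filter, Finset.sum_filter, Finset.sum_filter, ← Finset.sum_add_distrib,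
      ← Finset.sum_add_distrib]
    refine Finset.sum_congr rfl fun q _ => ?_
    by_cases h1 : q.out ∈ T
    · simp [h1, h.TN h1]
    · by_cases h2 : q.out ∈ N <;> simp [h1, h2]
  -- the part outside the stabiliser inside `N`
  have hN : ∀ q ∈ QN, E * conjAt σ D γ q * E = 0 := by
    intro q hq
    obtain ⟨hqN, hqT⟩ := (Finset.mem_filter.1 hq).2
    have h1 : conjAt σ D γ q = σ q.out * E * σ q.out⁻¹ * conjAt σ D γ q := by
      rw [conjAt]
      calc σ q.out * γ * σ q.out⁻¹ = σ q.out * (E * γ) * σ q.out⁻¹ := by rw [hEl]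
        _ = σ q.out * E * (σ q.out⁻¹ * σ q.out) * γ * σ q.out⁻¹ := by
            rw [hinv]; simp only [mul_one, mul_assoc]
        _ = _ := by simp only [mul_assoc]
    rw [h1, ← mul_assoc, h.orth _ hqN hqT, zero_mul, zero_mul]
  -- the part inside the stabiliser
  have hTpart : E * (∑ q ∈ QT, conjAt σ D γ q) * E = C.relIndex T • β := by
    have h1 : ∀ q ∈ QT, E * conjAt σ D γ q * E = β * conjAt σ D a q := by
      intro q hq
      have hqT := (Finset.mem_filter.1 hq).2
      have h2 : E * conjAt σ D γ q * E = σ q.out * (E * γ * E) * σ q.out⁻¹ := by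
        rw [conjAt]
        calc E * (σ q.out * γ * σ q.out⁻¹) * E
            = E * σ q.out * γ * (σ q.out⁻¹ * E) := by simp only [mul_assoc]
          _ = σ q.out * E * γ * (E * σ q.out⁻¹) := by
              rw [← (h.fix _ hqT).eq, (h.fix _ (inv_mem hqT)).eq]
          _ = _ := by simp only [mul_assoc]
      rw [h2, hEγ, hγdef, conjAt, ← mul_assoc (σ q.out) β a, (hβ _ hqT).eq]
      simp only [mul_assoc]
    rw [Finset.mul_sum, Finset.sum_mul, Finset.sum_congr rfl h1, ← Finset.mul_sum]
    haveI : Fintype (T ⧸ C.subgroupOf T) := Fintype.ofFinite _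
    have h3 : ∑ q ∈ QT, conjAt σ D a q = C.relIndex T • E := by
      let r : (T ⧸ C.subgroupOf T) × (C ⧸ D.subgroupOf C) → G ⧸ D := fun s =>
        QuotientGroup.mk ((s.1.out : G) * (s.2.out : G))
      have hr : ∀ s, r s ∈ QT := fun s => Finset.mem_filter.2 ⟨Finset.mem_univ _,
        (hmem hDT _).2 (mul_mem s.1.out.2 (h.CT s.2.out.2))⟩
      calc ∑ q ∈ QT, conjAt σ D a q = ∑ s, conjAt σ D a (r s) := by
            refine (Finset.sum_nbij r (fun s _ => hr s) ?_ ?_ fun s _ => rfl).symm
            · intro s _ s' _ hss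
              have h4 := QuotientGroup.eq.1 hss
              have h5 : s.1 = s'.1 := by
                rw [← QuotientGroup.out_eq' s.1, ← QuotientGroup.out_eq' s'.1, QuotientGroup.eq,
                  Subgroup.mem_subgroupOf, Subgroup.coe_mul, Subgroup.coe_inv]
                have h6 : (s.1.out : G)⁻¹ * (s'.1.out : G) = (s.2.out : G) *
                    (((s.1.out : G) * s.2.out)⁻¹ * ((s'.1.out : G) * s'.2.out)) * (s'.2.out : G)⁻¹ := by
                  group
                rw [h6]
                exact mul_mem (mul_mem s.2.out.2 (h.DC h4)) (inv_mem s'.2.out.2)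
              refine Prod.ext h5 ?_
              rw [← QuotientGroup.out_eq' s.2, ← QuotientGroup.out_eq' s'.2, QuotientGroup.eq,
                Subgroup.mem_subgroupOf, Subgroup.coe_mul, Subgroup.coe_inv]
              have h7 : (s.2.out : G)⁻¹ * (s'.2.out : G) =
                  ((s.1.out : G) * s.2.out)⁻¹ * ((s.1.out : G) * s'.2.out) := by group
              rw [h7]
              rw [← h5] at h4
              exact h4
            · intro q hq
              have hqT := (Finset.mem_filter.1 hq).2
              set t : T := ⟨q.out, hqT⟩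
              set x : T ⧸ C.subgroupOf T := QuotientGroup.mk t
              have hc : (x.out : G)⁻¹ * q.out ∈ C := by
                have := QuotientGroup.eq.1 (QuotientGroup.out_eq' x)
                rwa [Subgroup.mem_subgroupOf, Subgroup.coe_mul, Subgroup.coe_inv] at this
              set y : C ⧸ D.subgroupOf C := QuotientGroup.mk ⟨_, hc⟩
              refine ⟨(x, y), Finset.mem_univ _, ?_⟩
              have hd : (y.out : G)⁻¹ * ((x.out : G)⁻¹ * q.out) ∈ D := by
                have := QuotientGroup.eq.1 (QuotientGroup.out_eq' y)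
                rwa [Subgroup.mem_subgroupOf, Subgroup.coe_mul, Subgroup.coe_inv] at this
              show QuotientGroup.mk ((x.out : G) * (y.out : G)) = q
              conv_rhs => rw [← QuotientGroup.out_eq' q]
              rw [QuotientGroup.eq, mul_inv_rev, mul_assoc]
              exact hd
        _ = ∑ _x : T ⧸ C.subgroupOf T, E := by
            rw [Fintype.sum_prod_type]
            refine Finset.sum_congr rfl fun x _ => ?_
            calc ∑ y, conjAt σ D a (r (x, y))
                = σ (x.out : G) * avg (σ.comp C.subtype) (D.subgroupOf C) a * σ (x.out : G)⁻¹ := by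
                  rw [avg, Finset.mul_sum, Finset.sum_mul]
                  refine Finset.sum_congr rfl fun y _ => ?_
                  show conjAt σ D a (QuotientGroup.mk ((x.out : G) * (y.out : G))) = _
                  rw [← conj_well_defined h.fixD, mul_inv_rev, map_mul, map_mul, conjAt]
                  simp only [MonoidHom.comp_apply, Subgroup.coe_subtype, Subgroup.coe_inv,
                    mul_assoc]
              _ = E := by
                  rw [h.trace, (h.fix _ x.out.2).eq, mul_assoc, hinv', mul_one]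
        _ = _ := by
            rw [Finset.sum_const, Finset.card_univ, Subgroup.relIndex, Subgroup.index,
              Nat.card_eq_fintype_card]
    rw [h3, mul_smul_comm]
    congr 1
    calc β * E = E * β * E * E := by rw [hβE]
      _ = β := by rw [mul_assoc (E * β), h.idem, hβE]
  -- the free part
  have hCN : C ≤ N := h.CT.trans h.TN
  have hfree : ∀ q ∈ QF, ∀ v ∈ D, v • q = q → v = 1 := by
    intro q hq v hv hvq
    by_contra hv1
    refine (Finset.mem_filter.1 hq).2 (h.ti q.out v hv hv1 ?_)
    have h1 : (QuotientGroup.mk (v * q.out) : G ⧸ D) = QuotientGroup.mk q.out := by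
      show v • (QuotientGroup.mk q.out : G ⧸ D) = _
      rw [QuotientGroup.out_eq', hvq]
    have h2 := QuotientGroup.eq.1 h1
    rw [mul_inv_rev, mul_assoc] at h2
    have h3 := inv_mem h2
    simpa [mul_assoc] using h3
  have hstable : ∀ y ∈ N, ∀ q ∈ QF, y • q ∈ QF := by
    intro y hy q hq
    refine Finset.mem_filter.2 ⟨Finset.mem_univ _, fun h1 => (Finset.mem_filter.1 hq).2 ?_⟩
    have h2 : (QuotientGroup.mk (y * q.out) : G ⧸ D).out ∈ N := by
      show (y • (QuotientGroup.mk q.out : G ⧸ D)).out ∈ N
      rwa [QuotientGroup.out_eq']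
    exact (N.mul_mem_cancel_left hy).1 ((hmem (hDT.trans h.TN) _).1 h2)
  set Rr := QF.filter fun q => (Quotient.mk (MulAction.orbitRel D (G ⧸ D)) q).out = q
  set H := ∑ q ∈ Rr, conjAt σ D γ q
  have horb : ∑ q ∈ QF, conjAt σ D γ q = ∑ v : D, σ (v : G) * H * σ (v : G)⁻¹ := by
    calc ∑ q ∈ QF, conjAt σ D γ q
        = ∑ s ∈ (Finset.univ : Finset D) ×ˢ Rr, conjAt σ D γ ((s.1 : G) • s.2) := by
          refine (Finset.sum_nbij (fun s : D × (G ⧸ D) => (s.1 : G) • s.2) ?_ ?_ ?_
            fun s _ => rfl).symm
          · exact fun s hs => hstable _ (hDT.trans h.TN s.1.2) _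
              (Finset.mem_filter.1 (Finset.mem_product.1 hs).2).1
          · intro s hs s' hs' hss
            obtain ⟨hq, hrep⟩ := Finset.mem_filter.1 (Finset.mem_product.1 (Finset.mem_coe.1 hs)).2
            obtain ⟨hq', hrep'⟩ :=
              Finset.mem_filter.1 (Finset.mem_product.1 (Finset.mem_coe.1 hs')).2
            have hss' : (s.1 : G) • s.2 = (s'.1 : G) • s'.2 := hss
            have h2 : s.2 = s'.2 := by
              rw [← hrep, ← hrep']
              refine congrArg Quotient.out (Quotient.sound ⟨s.1⁻¹ * s'.1, ?_⟩)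
              show ((s.1 : G)⁻¹ * (s'.1 : G)) • s'.2 = s.2
              rw [mul_smul, ← hss', inv_smul_smul]
            refine Prod.ext ?_ h2
            have h3 := hfree s.2 hq ((s'.1 : G)⁻¹ * s.1) (mul_mem (inv_mem s'.1.2) s.1.2)
              (by rw [mul_smul, hss', inv_smul_smul, h2])
            exact Subtype.ext (inv_mul_eq_one.1 h3).symm
          · intro q hq
            set r0 := (Quotient.mk (MulAction.orbitRel D (G ⧸ D)) q).out with hr0
            obtain ⟨v, hv⟩ : r0 ∈ MulAction.orbit D q :=
              Quotient.mk_out (s := MulAction.orbitRel D (G ⧸ D)) q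
            have hv' : (v : G) • q = r0 := hv
            refine ⟨(v⁻¹, r0), Finset.mem_product.2 ⟨Finset.mem_univ _, Finset.mem_filter.2
              ⟨hv' ▸ hstable _ (hDT.trans h.TN v.2) _ (Finset.mem_coe.1 hq), ?_⟩⟩, ?_⟩
            · rw [hr0, Quotient.out_eq]
            · show ((v⁻¹ : D) : G) • r0 = q
              rw [← hv', Subgroup.coe_inv, inv_smul_smul]
      _ = _ := by
          rw [Finset.sum_product]
          refine Finset.sum_congr rfl fun v _ => ?_
          rw [Finset.mul_sum, Finset.sum_mul]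
          exact Finset.sum_congr rfl fun q _ => conjAt_smul hγ _ _
  have hFC : ∀ c ∈ C, Commute (σ c) (∑ q ∈ QF, conjAt σ D γ q) := by
    intro c hc
    have h1 : σ c * (∑ q ∈ QF, conjAt σ D γ q) * σ c⁻¹ = ∑ q ∈ QF, conjAt σ D γ q := by
      rw [Finset.mul_sum, Finset.sum_mul]
      exact Finset.sum_nbij' (fun q => c • q) (fun q => c⁻¹ • q)
        (fun q hq => hstable _ (hCN hc) q hq) (fun q hq => hstable _ (inv_mem (hCN hc)) q hq)
        (fun q _ => inv_smul_smul c q) (fun q _ => smul_inv_smul c q)
        fun q _ => (conjAt_smul hγ c q).symm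
    calc σ c * ∑ q ∈ QF, conjAt σ D γ q
        = σ c * (∑ q ∈ QF, conjAt σ D γ q) * (σ c⁻¹ * σ c) := by rw [hinv, mul_one]
      _ = σ c * (∑ q ∈ QF, conjAt σ D γ q) * σ c⁻¹ * σ c := by simp only [mul_assoc]
      _ = _ := by rw [h1]
  set SF := E * (∑ q ∈ QF, conjAt σ D γ q) * E with hSF
  have hSFC : ∀ c ∈ C, Commute (σ c) SF := fun c hc =>
    ((h.fix c (h.CT hc)).mul_right (hFC c hc)).mul_right (h.fix c (h.CT hc))
  refine ⟨a * (E * H * E), ?_⟩
  rw [hsplit, mul_add, mul_add, add_mul, add_mul, hTpart, ← hSF,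
    show E * (∑ q ∈ QN, conjAt σ D γ q) * E = 0 by
      rw [Finset.mul_sum, Finset.sum_mul]; exact Finset.sum_eq_zero hN, add_zero]
  congr 1
  have hESF : E * SF = SF := by
    rw [hSF, ← mul_assoc, ← mul_assoc, h.idem]
  calc SF = avg (σ.comp C.subtype) (D.subgroupOf C) a * SF := by rw [h.trace, hESF]
    _ = ∑ y : C ⧸ D.subgroupOf C, σ (y.out : G) * (a * SF) * σ (y.out : G)⁻¹ := by
        rw [avg, Finset.sum_mul]
        refine Finset.sum_congr rfl fun y _ => ?_
        rw [conjAt]
        simp only [MonoidHom.comp_apply, Subgroup.coe_subtype, Subgroup.coe_inv, mul_assoc]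
        rw [(hSFC _ (inv_mem y.out.2)).eq]
    _ = ∑ y : C ⧸ D.subgroupOf C, ∑ v : D,
          σ ((y.out : G) * v) * (a * (E * H * E)) * σ ((y.out : G) * v)⁻¹ := by
        refine Finset.sum_congr rfl fun y _ => ?_
        rw [hSF, horb, Finset.mul_sum, Finset.sum_mul, Finset.mul_sum, Finset.mul_sum,
          Finset.sum_mul]
        refine Finset.sum_congr rfl fun v _ => ?_
        have hv : E * (σ (v : G) * H * σ (v : G)⁻¹) * E = σ (v : G) * (E * H * E) * σ (v : G)⁻¹ := by
          calc _ = E * σ (v : G) * H * (σ (v : G)⁻¹ * E) := by simp only [mul_assoc]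
            _ = σ (v : G) * E * H * (E * σ (v : G)⁻¹) := by
                rw [← (h.fix _ (hDT v.2)).eq, (h.fix _ (inv_mem (hDT v.2))).eq]
            _ = _ := by simp only [mul_assoc]
        rw [hv, mul_inv_rev, map_mul, map_mul]
        simp only [← mul_assoc]
        rw [mul_assoc (σ (y.out : G)) a (σ (v : G)), ← (h.fixD _ v.2).eq, ← mul_assoc]
    _ = ∑ g : C, σ (g : G) * (a * (E * H * E)) * σ (g : G)⁻¹ := by
        rw [← Fintype.sum_prod_type']
        refine Fintype.sum_bijective
          (fun s : (C ⧸ D.subgroupOf C) × D => s.1.out * ⟨(s.2 : G), h.DC s.2.2⟩)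
          ⟨?_, ?_⟩ _ _ fun s => rfl
        · intro s s' hs
          have h1 : s.1 = s'.1 := by
            have h2 := congrArg (QuotientGroup.mk (s := D.subgroupOf C)) hs
            dsimp only at h2
            have e1 : ∀ t : (C ⧸ D.subgroupOf C) × D,
                (⟨(t.2 : G), h.DC t.2.2⟩ : C) ∈ D.subgroupOf C := fun t =>
              Subgroup.mem_subgroupOf.2 t.2.2
            rw [QuotientGroup.mk_mul_of_mem _ (e1 s), QuotientGroup.mk_mul_of_mem _ (e1 s'),
              QuotientGroup.out_eq', QuotientGroup.out_eq'] at h2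
            exact h2
          have h3 : s.1.out * (⟨(s.2 : G), h.DC s.2.2⟩ : C) =
              s'.1.out * ⟨(s'.2 : G), h.DC s'.2.2⟩ := hs
          rw [h1] at h3
          exact Prod.ext h1 (Subtype.ext (congrArg Subtype.val (mul_left_cancel h3) :))
        · intro g
          obtain ⟨⟨k, hk⟩, he⟩ := QuotientGroup.mk_out_eq_mul (D.subgroupOf C) g
          refine ⟨(QuotientGroup.mk g,
            ⟨((k⁻¹ : C) : G), by simpa using Subgroup.mem_subgroupOf.1 hk⟩), ?_⟩
          show (QuotientGroup.mk g : C ⧸ D.subgroupOf C).out * ⟨((k⁻¹ : C) : G), _⟩ = g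
          rw [he]
          exact mul_inv_cancel_right g k

end CfsgLib.Jordan.CyclicDefect
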