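import Cfsg.Agent.Lib.Jordan.CyclicDefect.Irreducible
import Cfsg.Agent.Lib.Jordan.CyclicDefect.Layers

/-!
# The block algebra of a nilpotent block with cyclic defect group

Over the residue field it is free of rank `n ^ 2` over the truncated polynomial ring generated by
the central element of a generator of the defect group, with quotient the matrix algebra.
-/

set_option autoImplicit false
set_option linter.style.haveILetI false
set_option linter.unusedSectionVars false

noncomputable section

namespace CfsgLib.Jordan.CyclicDefect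

open Cfsg CfsgLib.Blocks MonoidAlgebra CfsgLib.BrauerPairs CfsgLib.BlockStar Module
open CfsgLib.BrauerCharacters (annIdeal annMap mem_annIdeal annMap_surjective annMap_eq_zero
  annMap_eq_iff)

variable {C : Type*} [Group C] [Fintype C] {M : Ideal AlgInt} [M.IsPrime] {p : ℕ} [Fact p.Prime]
  [CharP (Res M) p] [IsAlgClosed (Res M)]
  {b : Set (IrrCharacter C)} {P : Subgroup C} {e0 : MonoidAlgebra (Res M) C}
  (S : Above M) (H : AbNilp p M b P e0) {θ : IrrCharacter C} (hθ : θ ∈ b)

/-- The central element over the residue field. -/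
def AbNilp.zK (v : P) : MonoidAlgebra S.K C :=
  mapRingHom C (S.res.comp S.ιV) (H.zc hθ v : MonoidAlgebra (locRing M) C)

theorem AbNilp.zK_mul (v w : P) : H.zK S hθ v * H.zK S hθ w = H.zK S hθ (v * w) := by
  rw [AbNilp.zK, AbNilp.zK, AbNilp.zK, ← map_mul, ← H.zc_mul hθ]
  rfl

theorem AbNilp.zK_one : H.zK S hθ 1 = H.eK S := by rw [AbNilp.zK, H.zc_one]; rfl

theorem AbNilp.eK_zK (v : P) : H.eK S * H.zK S hθ v = H.zK S hθ v := by
  rw [← H.zK_one S hθ, H.zK_mul, one_mul]

theorem AbNilp.isClassElem_eK : IsClassElem (H.eK S) :=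
  (idemLoc M b (memLocalRing_blockCoeff H.hB)).2.map _

theorem AbNilp.eK_mul_self : H.eK S * H.eK S = H.eK S := by
  rw [AbNilp.eK, ← map_mul]
  exact congrArg _ (congrArg Subtype.val (idemLoc_mul_self (memLocalRing_blockCoeff H.hB)))

theorem AbNilp.commute_zK (v : P) (x : MonoidAlgebra S.K C) : Commute (H.zK S hθ v) x :=
  (IsClassElem.commute (IsClassElem.map (H.zc hθ v).2 (S.res.comp S.ιV)) x).symm

instance AbNilp.twoSided : (annIdeal (H.eK S)).IsTwoSided :=
  BrauerCharacters.isTwoSided_annIdeal (H.isClassElem_eK S)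

/-- The block algebra. -/
abbrev AbNilp.Alg : Type _ := MonoidAlgebra S.K C ⧸ annIdeal (H.eK S)

/-- The nilpotent central element of the generator. -/
def AbNilp.pi (u : P) : H.Alg S := annMap (H.eK S) (H.zK S hθ u) - 1

theorem AbNilp.annMap_zK_one : annMap (H.eK S) (H.zK S hθ 1) = 1 := by
  rw [← map_one (annMap (H.eK S)), annMap_eq_iff, H.zK_one, H.eK_mul_self, one_mul]

theorem AbNilp.annMap_zK_pow (u : P) (i : ℕ) :
    annMap (H.eK S) (H.zK S hθ u) ^ i = annMap (H.eK S) (H.zK S hθ (u ^ i)) := by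
  induction i with
  | zero => rw [pow_zero, pow_zero, H.annMap_zK_one]
  | succ i ih => rw [pow_succ, pow_succ, ih, ← map_mul, H.zK_mul]

theorem AbNilp.commute_annMap_zK (v : P) (x : H.Alg S) :
    Commute (annMap (H.eK S) (H.zK S hθ v)) x := by
  obtain ⟨a, rfl⟩ := annMap_surjective x
  exact (H.commute_zK S hθ v a).map _

theorem AbNilp.commute_pi (u : P) (x : H.Alg S) : Commute (H.pi S hθ u) x :=
  (H.commute_annMap_zK S hθ u x).sub_left (Commute.one_left x)

omit [CharP (Res M) p] [IsAlgClosed (Res M)] H in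
/-- In characteristic `p` the power one less of `x - 1` is the geometric sum. -/
theorem sub_one_pow_eq_geom {K A : Type*} [Field K] [CharP K p] [Ring A] [Algebra K A] (x : A)
    (k : ℕ) : (x - 1) ^ (p ^ k - 1) = ∑ i ∈ Finset.range (p ^ k), x ^ i ∧
      (x - 1) ^ (p ^ k) = x ^ (p ^ k) - 1 := by
  have hN : 0 < p ^ k := pow_pos (Fact.out : p.Prime).pos k
  have h2 : (Polynomial.X - 1 : Polynomial K) ^ (p ^ k) = Polynomial.X ^ (p ^ k) - 1 := by
    rw [sub_pow_char_pow, one_pow]
  have h1 : (Polynomial.X - 1 : Polynomial K) ^ (p ^ k - 1) =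
      ∑ i ∈ Finset.range (p ^ k), Polynomial.X ^ i := by
    refine mul_right_cancel₀ (b := (Polynomial.X - 1 : Polynomial K))
      (by simpa using Polynomial.X_sub_C_ne_zero (R := K) 1) ?_
    rw [← pow_succ, Nat.sub_add_cancel hN, h2, geom_sum_mul]
  exact ⟨by simpa using congrArg (Polynomial.aeval x) h1,
    by simpa using congrArg (Polynomial.aeval x) h2⟩

theorem AbNilp.pi_pow_card (u : P) : H.pi S hθ u ^ Nat.card P = 0 := by
  haveI : CharP S.K p := S.charP H.hM
  obtain ⟨k, hk⟩ := IsPGroup.iff_card.1 H.hmax.1.1.1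
  rw [hk, AbNilp.pi, (sub_one_pow_eq_geom (K := S.K) _ k).2, H.annMap_zK_pow, ← hk,
    pow_card_eq_one', H.annMap_zK_one, sub_self]

theorem AbNilp.pi_pow_pred [Fintype P] {u : P} (hu : ∀ v : P, v ∈ Subgroup.zpowers u) :
    H.pi S hθ u ^ (Nat.card P - 1) = annMap (H.eK S) (∑ v : P, H.zK S hθ v) := by
  classical
  haveI : CharP S.K p := S.charP H.hM
  obtain ⟨k, hk⟩ := IsPGroup.iff_card.1 H.hmax.1.1.1
  rw [hk, AbNilp.pi, (sub_one_pow_eq_geom (K := S.K) _ k).1, ← hk, map_sum,
    Finset.sum_congr rfl fun i _ => H.annMap_zK_pow S hθ u i]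
  have hord : orderOf u = Nat.card P := orderOf_eq_card_of_forall_mem_zpowers hu
  refine Finset.sum_nbij (fun i => u ^ i) (fun i _ => Finset.mem_univ _) ?_ ?_ (fun i _ => rfl)
  · intro i hi j hj h
    rw [Finset.coe_range, Set.mem_Iio, ← hord] at hi hj
    exact pow_injOn_Iio_orderOf hi hj h
  · intro v _
    have := hu v
    rw [(isOfFinOrder_of_finite u).mem_zpowers_iff_mem_range_orderOf, Finset.mem_image] at this
    obtain ⟨i, hi, rfl⟩ := this
    exact ⟨i, by rwa [Finset.coe_range, Set.mem_Iio, ← hord, ← Finset.mem_range], rfl⟩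

/-- The coefficients of the sum of all central elements. -/
theorem AbNilp.sum_zcFun [Fintype P] (g : C) :
    ∑ v : P, H.zcFun hθ v g =
      (Nat.card C : ℂ)⁻¹ * (θ : C → ℂ) 1 * Nat.card P * (θ : C → ℂ) g⁻¹ := by
  classical
  simp only [AbNilp.zcFun]
  rw [Finset.sum_comm, Finset.sum_eq_single (1 : P →* ℂˣ)]
  · simp only [MonoidHom.one_apply, Units.val_one, one_mul, Finset.sum_const, Finset.card_univ,
      nsmul_eq_mul, H.th_one hθ]
    rw [blockCoeff, finsum_mem_singleton, CharTheory.IsIrrCharacter.inv θ.2,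
      Fintype.card_eq_nat_card]
    ring
  · intro l _ hl
    rw [← Finset.sum_mul]
    refine mul_eq_zero_of_left ?_ _
    by_contra hne
    apply hl
    refine MonoidHom.ext fun w => Units.ext ?_
    have hs : ∑ v : P, (l v : ℂ) = (l w : ℂ) * ∑ v : P, (l v : ℂ) := by
      rw [Finset.mul_sum]
      refine (Fintype.sum_equiv (Equiv.mulLeft w) _ _ fun x => ?_).symm
      simp [map_mul]
    rw [MonoidHom.one_apply, Units.val_one]
    exact (mul_left_eq_self₀.1 hs.symm).resolve_right hne
  · exact fun h => absurd (Finset.mem_univ _) h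

include H hθ in
/-- The scale of the sum is a unit. -/
theorem AbNilp.res_scale_ne_zero :
    S.res (S.ιV ⟨(Nat.card C : ℂ)⁻¹ * (θ : C → ℂ) 1 * Nat.card P, H.memLocalRing_scale hθ⟩) ≠ 0 := by
  haveI : M.IsMaximal := H.hM.2.1
  have hp := (Fact.out : p.Prime)
  obtain ⟨h1, h2, h3⟩ := BrauerCharacters.charDegree_spec θ
  have hd := BrauerCharacters.defect_add_degree (p := p) hθ
  set n := charDegree (θ : C → ℂ)
  obtain ⟨k, hk⟩ := h3
  have hk0 : k ≠ 0 := fun h0 => by
    rw [h0, mul_zero] at hk
    exact Nat.card_pos.ne' hk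
  rw [H.height_zero hθ, add_zero, hk, Nat.factorization_mul h2.ne' hk0, Finsupp.add_apply] at hd
  have hN : Nat.card P = ordProj[p] k := by
    rw [Blocks.card_isDefectGroup H.hM H.hB H.isDefectGroup]
    congr 1
    omega
  obtain ⟨k', hk'⟩ : Nat.card P ∣ k := hN ▸ Nat.ordProj_dvd k p
  have hkey : ((Nat.card C : ℂ)⁻¹ * (θ : C → ℂ) 1 * Nat.card P) * (k' : ℂ) = 1 := by
    rw [h1, hk, hk']
    push_cast
    have hn : (n : ℂ) ≠ 0 := Nat.cast_ne_zero.2 h2.ne'
    have hP : (Nat.card P : ℂ) ≠ 0 := Nat.cast_ne_zero.2 Nat.card_pos.ne'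
    have hk'' : (k' : ℂ) ≠ 0 := Nat.cast_ne_zero.2 fun h0 => hk0 (by rw [hk', h0, mul_zero])
    field_simp
  intro h0
  have : S.res (S.ιV (⟨_, H.memLocalRing_scale hθ⟩ * ⟨(k' : ℂ), memLocalRing_natCast k'⟩)) = 1 := by
    rw [show (⟨_, H.memLocalRing_scale hθ⟩ * ⟨(k' : ℂ), memLocalRing_natCast k'⟩ : locRing M) = 1
      from Subtype.ext hkey, map_one, map_one]
  rw [map_mul, map_mul, h0, zero_mul] at this
  exact zero_ne_one this

variable {d : ℕ} (ρ : C →* Matrix (Fin d) (Fin d) S.V)
  (htr : ∀ g, (((ρ g).trace : S.V) : ℂ) = (θ : C → ℂ) g)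
  (hsc : ∀ f : Matrix (Fin d) (Fin d) S.V, (∀ g, Commute f (ρ g)) → ∃ c : S.V, f = c • 1)

include H htr in
theorem AbNilp.degree_pos : 0 < d := by
  refine Nat.pos_of_ne_zero fun h => CharTheory.apply_one_ne_zero_of_isIrr θ.2 ?_
  rw [degree_eq S ρ htr, h, Nat.cast_zero]

include htr hsc in
/-- The central elements act as one on the reduction of the base member. -/
theorem AbNilp.redAlg_zK (v : P) : redAlg S ρ (H.zK S hθ v) = 1 := by
  set Z := mapRingHom C S.ιV (H.zc hθ v : MonoidAlgebra (locRing M) C)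
  have hcomm : ∀ g, Commute (valAlg S ρ Z) (ρ g) := fun g => by
    have h := (((H.zc hθ v).2.map S.ιV).commute (single g 1)).map (valAlg S ρ)
    rw [valAlg_single, one_smul] at h
    first | exact h | exact h.symm
  obtain ⟨c, hc⟩ := hsc _ hcomm
  have h2 : ((valAlg S ρ Z).trace : S.V) = c * (d : S.V) := by
    rw [hc, Matrix.trace_smul, Matrix.trace_one, Fintype.card_fin, smul_eq_mul]
  have h3 := trace_valAlg S ρ htr Z
  have h4 := H.omega_zc_th hθ v (1 : P →* ℂˣ)
  rw [H.th_one, coe_omegaLoc, omega_eq_sum, MonoidHom.one_apply, Units.val_one,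
    div_eq_one_iff_eq (CharTheory.apply_one_ne_zero_of_isIrr θ.2)] at h4
  have h5 : (((c * (d : S.V)) : S.V) : ℂ) = (θ : C → ℂ) 1 := by
    rw [← h2, h3, ← h4]
    refine Finset.sum_congr rfl fun g _ => ?_
    rw [coeff_mapRingHom, coeff_mapRingHom]
    rfl
  rw [degree_eq S ρ htr] at h5
  push_cast at h5
  have hd0 : (d : ℂ) ≠ 0 := Nat.cast_ne_zero.2 (H.degree_pos S ρ htr).ne'
  have hc1 : c = 1 := Subtype.ext (mul_right_cancel₀ hd0 (h5.trans (one_mul _).symm))
  have h6 := map_valAlg S ρ Z
  rw [hc, hc1, one_smul, Matrix.map_one _ (map_zero _) (map_one _)] at h6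
  rw [h6]
  congr 1
  refine MonoidAlgebra.ext (Finsupp.ext fun g => ?_)
  simp only [Z, AbNilp.zK, coeff_mapRingHom]
  rfl

include hθ htr in
theorem AbNilp.annMap_le_redAlg : ∀ a ∈ annIdeal (H.eK S), redAlg S ρ a = 0 := fun a ha => by
  rw [← mul_one (redAlg S ρ a), ← H.redAlg_eK S ρ hθ htr, ← map_mul, mem_annIdeal.1 ha, map_zero]

/-- The reduced representation of the block algebra. -/
def AbNilp.algRep : H.Alg S →ₐ[S.K] Matrix (Fin d) (Fin d) S.K :=
  Ideal.Quotient.liftₐ (annIdeal (H.eK S)) (redAlg S ρ) (H.annMap_le_redAlg S hθ ρ htr)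

theorem AbNilp.algRep_annMap (a : MonoidAlgebra S.K C) :
    H.algRep S hθ ρ htr (annMap (H.eK S) a) = redAlg S ρ a := rfl

include hsc in
theorem AbNilp.algRep_pi (u : P) : H.algRep S hθ ρ htr (H.pi S hθ u) = 0 := by
  rw [AbNilp.pi, map_sub, map_one, H.algRep_annMap, H.redAlg_zK S hθ ρ htr hsc, sub_self]

include hθ htr in
theorem AbNilp.finrank_alg : finrank S.K (H.Alg S) = Nat.card P * (d * d) := by
  classical
  haveI := Fintype.ofFinite (IrrCharacter C)
  set eR : MonoidAlgebra (locRing M) C :=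
    (idemLoc M b (memLocalRing_blockCoeff H.hB) : MonoidAlgebra (locRing M) C) with heR
  have heRi : eR * eR = eR := congrArg Subtype.val (idemLoc_mul_self (memLocalRing_blockCoeff H.hB))
  obtain ⟨r, hr⟩ :=
    BrauerCharacters.exists_rank_of_idempotent (BrauerCharacters.regMat_mul_self heRi)
  have hr1 : (r : ℂ) = ∑ᶠ χ ∈ b, ((charDegree (χ : C → ℂ) : ℂ)) ^ 2 := by
    rw [← (hr ℂ (locRing M).subtype).2, BrauerCharacters.regMat_map, heR, map_idemLoc,
      BrauerCharacters.trace_regMat_blockIdem]
  have hdim : finrank S.K (H.Alg S) = r := by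
    rw [← (hr S.K (S.res.comp S.ιV)).1, BrauerCharacters.regMat_map,
      BrauerCharacters.finrank_annQuot]
    rfl
  have hsum : ∑ᶠ χ ∈ b, ((charDegree (χ : C → ℂ) : ℂ)) ^ 2 = (Nat.card P : ℂ) * (d * d) := by
    rw [← H.image_th hθ, finsum_mem_range (H.th_injective hθ), finsum_eq_sum_of_fintype,
      Finset.sum_congr rfl fun l _ => show ((charDegree ((H.th hθ l : IrrCharacter C) : C → ℂ) : ℂ)) ^ 2 =
        (d : ℂ) * d by
        rw [← (BrauerCharacters.charDegree_spec (H.th hθ l)).1, H.th_deg, degree_eq S ρ htr,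
          pow_two], Finset.sum_const, Finset.card_univ, nsmul_eq_mul, Fintype.card_eq_nat_card,
      H.card_homs]
  rw [hsum] at hr1
  rw [hdim]
  exact_mod_cast hr1

include H hθ htr hsc in
/-- The kernel of the top power lies in the kernel of the representation. -/
theorem AbNilp.algRep_eq_zero_of_top [Fintype P] {u : P} (hu : ∀ v : P, v ∈ Subgroup.zpowers u)
    {y : H.Alg S} (hy : H.pi S hθ u ^ (Nat.card P - 1) * y = 0) :
    H.algRep S hθ ρ htr y = 0 := by
  classical
  set T := ∑ v : P, H.zK S hθ v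
  set cst := S.res (S.ιV ⟨(Nat.card C : ℂ)⁻¹ * (θ : C → ℂ) 1 * Nat.card P,
    H.memLocalRing_scale hθ⟩) with hcst
  have hcoefT : ∀ g, T.coeff g = cst * S.res (ρ g⁻¹).trace := by
    intro g
    simp only [T, coeff_finsetSum_apply, AbNilp.zK, coeff_mapRingHom, ← map_sum]
    rw [hcst, RingHom.comp_apply, ← map_mul]
    congr 1
    refine Subtype.ext ?_
    push_cast
    rw [htr]
    show ((∑ v : P, (H.zc hθ v : MonoidAlgebra (locRing M) C).coeff g : locRing M) : ℂ) = _
    push_cast
    exact H.sum_zcFun hθ g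
  have key : ∀ a : MonoidAlgebra S.K C, annMap (H.eK S) (T * a) = 0 →
      (redAlg S ρ a).trace = 0 := by
    intro a ha
    have h1 : T * a = 0 := by
      rw [annMap_eq_zero, mul_assoc, ((H.isClassElem_eK S).commute a).eq, ← mul_assoc] at ha
      have h2 : T * H.eK S = T := by
        simp only [T, Finset.sum_mul]
        exact Finset.sum_congr rfl fun v _ => by
          rw [(H.commute_zK S hθ v _).eq, H.eK_zK]
      rwa [h2] at ha
    have h3 : (T * a).coeff 1 = cst * (redAlg S ρ a).trace := by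
      clear h1 ha
      induction a using MonoidAlgebra.induction_linear with
      | zero => simp
      | add x z hx hz =>
        rw [mul_add, MonoidAlgebra.coeff_add, Finsupp.add_apply, hx, hz, map_add, Matrix.trace_add,
          mul_add]
      | single g c =>
        rw [coeff_mul_single_apply, one_mul, hcoefT, inv_inv, redAlg_single, Matrix.trace_smul,
          smul_eq_mul, show ((ρ g).map S.res).trace = S.res (ρ g).trace by
            simp [Matrix.trace, map_sum]]
        ring
    rw [h1] at h3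
    rw [MonoidAlgebra.coeff_zero, Finsupp.zero_apply] at h3
    exact (mul_eq_zero.1 h3.symm).resolve_left (H.res_scale_ne_zero S hθ)
  have hzero : ∀ z, (H.algRep S hθ ρ htr (y * z)).trace = 0 := by
    intro z
    obtain ⟨a, ha⟩ := annMap_surjective (y * z)
    rw [← ha, H.algRep_annMap]
    refine key a ?_
    rw [map_mul, ha, ← H.pi_pow_pred S hθ hu, ← mul_assoc, hy, zero_mul]
  refine Matrix.ext fun i j => ?_
  obtain ⟨a, ha⟩ := H.redAlg_surjective S ρ hθ htr (Matrix.single j i 1)
  have h := hzero (annMap (H.eK S) a)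
  rw [map_mul, H.algRep_annMap, ha] at h
  simpa [Matrix.trace, Matrix.mul_apply, Matrix.single_apply, Matrix.zero_apply, ite_and,
    Finset.sum_ite_eq, Finset.sum_ite_eq'] using h

include H hθ htr hsc in
/-- The model of the block algebra. -/
theorem AbNilp.exists_model [Fintype P] {u : P} (hu : ∀ v : P, v ∈ Subgroup.zpowers u) :
    ∃ Mdl : PiModel S.K (H.Alg S) (Nat.card P) d, Mdl.π = H.pi S hθ u ∧
      (∀ x, H.algRep S hθ ρ htr x = 0 → ∃ y, x = Mdl.π * y) ∧
      ∀ j ≤ Nat.card P, ∀ x, Mdl.π ^ j * x = 0 → ∃ y, x = Mdl.π ^ (Nat.card P - j) * y := by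
  classical
  haveI : FiniteDimensional S.K (H.Alg S) := BrauerCharacters.finiteDimensional_annQuot
  set N := Nat.card P with hN
  have hN1 : 1 ≤ N := Nat.card_pos
  set π := H.pi S hθ u with hπdef
  set R := H.algRep S hθ ρ htr with hR
  set f : Module.End S.K (H.Alg S) := LinearMap.mulLeft S.K π with hf
  have hfpow : ∀ j x, (f ^ j) x = π ^ j * x := fun j x => by
    rw [hf, LinearMap.pow_mulLeft]; rfl
  have hnil : f ^ N = 0 := LinearMap.ext fun x => by
    rw [hfpow, hπdef, H.pi_pow_card, zero_mul]; rfl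
  have hRsurj : Function.Surjective R := fun m => by
    obtain ⟨a, ha⟩ := H.redAlg_surjective S ρ hθ htr m
    exact ⟨annMap (H.eK S) a, ha⟩
  have hdim : finrank S.K (H.Alg S) = N * (d * d) := H.finrank_alg S hθ ρ htr
  have hkerR : finrank S.K (LinearMap.ker R.toLinearMap) + d * d = N * (d * d) := by
    have h := LinearMap.finrank_range_add_finrank_ker R.toLinearMap
    rw [LinearMap.range_eq_top.2 hRsurj, finrank_top, Module.finrank_matrix, hdim,
      Fintype.card_fin, Module.finrank_self, mul_one] at h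
    linarith
  -- the top power
  have htop : d * d ≤ finrank S.K (LinearMap.range (f ^ (N - 1))) := by
    have h := LinearMap.finrank_range_add_finrank_ker (f ^ (N - 1))
    have hle : finrank S.K (LinearMap.ker (f ^ (N - 1))) ≤
        finrank S.K (LinearMap.ker R.toLinearMap) :=
      Submodule.finrank_mono fun y hy => H.algRep_eq_zero_of_top S hθ ρ htr hsc hu
        (by rw [← hfpow]; exact hy)
    rw [hdim] at h
    linarith
  set w := fun i => finrank S.K (layer f i) with hw
  have hsum : ∀ j, N * (d * d) = finrank S.K (LinearMap.range (f ^ j)) +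
      ∑ i ∈ Finset.range j, w i := fun j => by rw [← hdim]; exact finrank_range_pow_eq_sum f j
  have hlast : d * d ≤ w (N - 1) := by
    have h := finrank_range_pow f (N - 1)
    rw [Nat.sub_add_cancel hN1, hnil, LinearMap.range_zero, finrank_bot, zero_add] at h
    show d * d ≤ finrank S.K (layer f (N - 1))
    linarith
  have hge : ∀ i ∈ Finset.range N, d * d ≤ w i := fun i hi =>
    hlast.trans (Submodule.finrank_mono (layer_anti f (by
      have := Finset.mem_range.1 hi; omega)))
  have heq : ∀ i ∈ Finset.range N, d * d = w i := by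
    refine (Finset.sum_eq_sum_iff_of_le hge).1 ?_
    have h := hsum N
    rw [hnil, LinearMap.range_zero, finrank_bot, zero_add] at h
    rw [Finset.sum_const, Finset.card_range, smul_eq_mul, h]
  have hrank : ∀ j ≤ N, finrank S.K (LinearMap.range (f ^ j)) + j * (d * d) = N * (d * d) := by
    intro j hj
    rw [hsum j, ← Finset.sum_congr rfl fun i hi => heq i
      (Finset.mem_range.2 ((Finset.mem_range.1 hi).trans_le hj)), Finset.sum_const,
      Finset.card_range, smul_eq_mul]
  -- the kernel of the representation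
  have hker : ∀ x, R x = 0 → ∃ y, x = π * y := by
    have hle : LinearMap.range f ≤ LinearMap.ker R.toLinearMap := by
      rintro _ ⟨y, rfl⟩
      show R (π * y) = 0
      rw [map_mul, hR, hπdef, H.algRep_pi S hθ ρ htr hsc, zero_mul]
    have heq' := Submodule.eq_of_le_of_finrank_eq hle (by
      have h := hrank 1 hN1
      rw [pow_one, one_mul] at h
      linarith)
    intro x hx
    obtain ⟨y, hy⟩ : x ∈ LinearMap.range f := heq' ▸ (LinearMap.mem_ker.2 hx)
    exact ⟨y, hy.symm⟩
  -- matrix units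
  have hnilker : ∀ z ∈ RingHom.ker (R : H.Alg S →+* Matrix (Fin d) (Fin d) S.K), IsNilpotent z := by
    intro z hz
    obtain ⟨y, rfl⟩ := hker z hz
    exact (H.commute_pi S hθ u y).isNilpotent_mul_right ⟨N, H.pi_pow_card S hθ u⟩
  let i0 : Fin d := ⟨0, H.degree_pos S ρ htr⟩
  obtain ⟨q, hq, hRq⟩ := exists_isIdempotentElem_eq_of_ker_isNilpotent
    (R : H.Alg S →+* Matrix (Fin d) (Fin d) S.K) hnilker (Matrix.single i0 i0 1) (hRsurj _)
    (by simp [IsIdempotentElem])
  choose av hav using fun i : Fin d => hRsurj (Matrix.single i i0 1)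
  choose bv hbv using fun i : Fin d => hRsurj (Matrix.single i0 i 1)
  have hRq' : R q = Matrix.single i0 i0 1 := hRq
  set U := ∑ i, av i * q * bv i with hUdef
  have hRU : R U = 1 := by
    rw [hUdef, map_sum]
    ext a c
    simp only [map_mul, hav, hbv, hRq', Matrix.sum_apply, Matrix.single_mul_single_same, mul_one,
      Matrix.single_apply, Matrix.one_apply]
    by_cases hac : a = c
    · subst hac; simp
    · rw [if_neg hac, Finset.sum_eq_zero fun i _ => if_neg fun h => hac (h.1.symm.trans h.2)]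
  have hUu : IsUnit U := by
    have := (hnilker (1 - U) (by
      show R (1 - U) = 0
      rw [map_sub, map_one, hRU, sub_self])).isUnit_one_sub
    rwa [sub_sub_cancel] at this
  obtain ⟨W, hW, hW'⟩ : ∃ W, U * W = 1 ∧ W * U = 1 :=
    ⟨↑hUu.unit⁻¹, hUu.mul_val_inv, hUu.val_inv_mul⟩
  have hRW : R W = 1 := by
    have := congrArg R hW
    rwa [map_mul, hRU, one_mul, map_one] at this
  have hcorner : ∀ (k : ℕ) (x : H.Alg S), ∃ g : Polynomial S.K, ∃ y,
      q * x * q = Polynomial.aeval π g * q + π ^ k * (q * y * q) := by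
    intro k
    induction k with
    | zero => exact fun x => ⟨0, x, by rw [map_zero, zero_mul, zero_add, pow_zero, one_mul]⟩
    | succ k ih =>
      intro x
      obtain ⟨g, y, hy⟩ := ih x
      set c : S.K := R y i0 i0
      have h0 : R (q * y * q - c • q) = 0 := by
        rw [map_sub, map_smul, map_mul, map_mul, hRq', sub_eq_zero, Matrix.single_mul_mul_single,
          Matrix.smul_single]
        simp [c]
      obtain ⟨z, hz⟩ := hker _ h0
      have h1 : q * y * q = c • q + π * (q * z * q) := by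
        calc q * y * q = q * (q * y * q) * q := by
              simp only [← mul_assoc, hq.eq]
              rw [mul_assoc (q * y) q q, hq.eq]
          _ = q * (c • q + π * z) * q := by rw [← hz, add_sub_cancel]
          _ = c • q + π * (q * z * q) := by
            rw [mul_add, add_mul, mul_smul_comm, smul_mul_assoc, hq.eq, hq.eq,
              ← mul_assoc q π z, ← (H.commute_pi S hθ u q).eq]
            simp only [mul_assoc, hπdef]
      refine ⟨g + Polynomial.C c * Polynomial.X ^ k, z, ?_⟩
      rw [hy, h1, map_add, map_mul, map_pow, Polynomial.aeval_X, Polynomial.aeval_C, mul_add,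
        ← Algebra.smul_def, add_mul, smul_mul_assoc, mul_smul_comm, pow_succ, mul_assoc,
        add_assoc]
      simp only [mul_assoc]
  let Mdl : PiModel S.K (H.Alg S) N d :=
    { π := π
      q := q
      a := av
      b := fun i => bv i * W
      comm := H.commute_pi S hθ u
      nil := H.pi_pow_card S hθ u
      idem := hq
      unit := by
        rw [Finset.sum_congr rfl fun i _ => (mul_assoc (av i * q) (bv i) W).symm,
          ← Finset.sum_mul]
        exact hW
      corner := fun x => by
        obtain ⟨g, y, hy⟩ := hcorner N x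
        exact ⟨g, by rw [hy, hπdef, H.pi_pow_card, zero_mul, add_zero]⟩
      diag := fun i j => by
        obtain ⟨y, hy⟩ := hker (q * (bv i * W) * av j * q - if i = j then q else 0) (by
          rw [map_sub, map_mul, map_mul, map_mul, map_mul, hRq', hbv, hav, hRW, mul_one,
            Matrix.single_mul_single_same, mul_one]
          split_ifs with h
          · subst h; simp [hRq']
          · rw [map_zero, sub_zero, Matrix.single_mul_single_of_ne (h := h), zero_mul])
        exact ⟨y, by rw [← hy, add_sub_cancel]⟩ }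
  refine ⟨Mdl, rfl, hker, fun j hj x hx => ?_⟩
  have hle : LinearMap.range (f ^ (N - j)) ≤ LinearMap.ker (f ^ j) := by
    rintro _ ⟨y, rfl⟩
    rw [LinearMap.mem_ker, ← Module.End.mul_apply, ← pow_add, Nat.add_sub_cancel' hj, hnil]
    rfl
  have heq' := Submodule.eq_of_le_of_finrank_eq hle (by
    have h1 := LinearMap.finrank_range_add_finrank_ker (f ^ j)
    have h2 := hrank j hj
    have h3 := hrank (N - j) (Nat.sub_le _ _)
    rw [hdim] at h1
    have h4 : (N - j) * (d * d) + j * (d * d) = N * (d * d) := by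
      rw [← add_mul, Nat.sub_add_cancel hj]
    linarith)
  obtain ⟨y, hy⟩ : x ∈ LinearMap.range (f ^ (N - j)) :=
    heq' ▸ (LinearMap.mem_ker.2 (by rw [hfpow]; exact hx))
  exact ⟨y, by rw [← hy, hfpow]⟩

end CfsgLib.Jordan.CyclicDefect
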