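import Cfsg.Agent.Lib.Jordan.CyclicDefect.Local

/-!
# The orbits of the exponents on the linear characters

For a block with cyclic defect group: the exponents act freely on the nontrivial linear characters,
and a function with two adjacent values, invariant and taking the larger value rarely, is constant
on the nontrivial characters or is the indicator of one orbit, up to a translation.
-/

set_option autoImplicit false
set_option linter.style.haveILetI false
set_option linter.unusedSectionVars false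

noncomputable section

namespace CfsgLib.Jordan.CyclicDefect

open Cfsg CfsgLib.Blocks MonoidAlgebra CfsgLib.BrauerPairs CfsgLib.BlockStar
open scoped Classical

variable {G : Type*} [Group G] [Fintype G] {M : Ideal AlgInt} [M.IsPrime] {p : ℕ} [Fact p.Prime]
  {B : Set (IrrCharacter G)} {D : Subgroup G} {e0 : MonoidAlgebra (Res M) G} {a e : ℕ}
  [NeZero (p ^ a)]

/-- The orbit of a linear character under the exponents. -/
def orb (p a e : ℕ) [NeZero (p ^ a)] (l : D →* ℂˣ) : Finset (D →* ℂˣ) :=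
  (expSet p a e).image fun r => l ^ r.val

/-- The possible shapes of a difference of multiplicities. -/
def Shape (p a e : ℕ) [NeZero (p ^ a)] (x : (D →* ℂˣ) → ℤ) : Prop :=
  (∀ l, l ≠ 1 → x l = 0) ∨ ∃ s : ℤ, (s = 1 ∨ s = -1) ∧
    ((∀ l, l ≠ 1 → x l = s) ∨
      ∃ l0 : D →* ℂˣ, l0 ≠ 1 ∧ ∀ l, l ≠ 1 → x l = if l ∈ orb p a e l0 then s else 0)

theorem Shape.neg {x : (D →* ℂˣ) → ℤ} (h : Shape p a e x) : Shape p a e fun l => -x l := by
  rcases h with h | ⟨s, hs, h⟩
  · exact Or.inl fun l hl => by simp [h l hl]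
  refine Or.inr ⟨-s, by omega, ?_⟩
  rcases h with h | ⟨l0, hl0, h⟩
  · exact Or.inl fun l hl => by simp [h l hl]
  · exact Or.inr ⟨l0, hl0, fun l hl => by simp only [h l hl]; split_ifs <;> simp⟩

theorem mem_expSet {r : ZMod (p ^ a)} : r ∈ expSet p a e ↔ r ^ e = 1 := by simp [expSet]

theorem one_mem_expSet : (1 : ZMod (p ^ a)) ∈ expSet p a e := mem_expSet.2 (one_pow e)

theorem mul_mem_expSet {r s : ZMod (p ^ a)} (hr : r ∈ expSet p a e) (hs : s ∈ expSet p a e) :
    r * s ∈ expSet p a e := by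
  rw [mem_expSet] at *; rw [mul_pow, hr, hs, one_mul]

theorem pow_mem_expSet {r : ZMod (p ^ a)} (hr : r ∈ expSet p a e) (i : ℕ) :
    r ^ i ∈ expSet p a e := by
  rw [mem_expSet] at *; rw [← pow_mul, mul_comm, pow_mul, hr, one_pow]

/-- Powers with exponents modulo `p ^ a`. -/
theorem pow_val_mul_monoid {A : Type*} [Monoid A] {x : A} (hx : x ^ p ^ a = 1)
    (r s : ZMod (p ^ a)) : (x ^ r.val) ^ s.val = x ^ (r * s).val := by
  rw [← pow_mul, ZMod.val_mul]
  conv_lhs => rw [← Nat.mod_add_div (r.val * s.val) (p ^ a), pow_add,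
    pow_mul x (p ^ a), hx, one_pow, mul_one]

namespace CycBlock

variable (K : CycBlock p M B D e0 a e)
include K

theorem one_lt_card : 1 < p ^ a :=
  Nat.one_lt_pow (by have := K.a_pos; omega) (Fact.out : p.Prime).one_lt

theorem val_one : (1 : ZMod (p ^ a)).val = 1 := by
  haveI : Fact (1 < p ^ a) := ⟨K.one_lt_card⟩
  exact ZMod.val_one _

theorem pow_card_sub (v : D) : v ^ p ^ a = 1 := Subtype.ext (K.pow_card v.2)

theorem hom_pow_val_mul (l : D →* ℂˣ) (r s : ZMod (p ^ a)) :
    (l ^ r.val) ^ s.val = l ^ (r * s).val := by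
  refine MonoidHom.ext fun v => ?_
  simp only [MonoidHom.pow_apply]
  refine pow_val_mul_monoid ?_ r s
  rw [← map_pow, K.pow_card_sub, map_one]

theorem hom_pow_one (l : D →* ℂˣ) : l ^ (1 : ZMod (p ^ a)).val = l :=
  MonoidHom.ext fun v => by rw [MonoidHom.pow_apply, K.val_one, pow_one]

theorem exists_inv {s : ZMod (p ^ a)} (hs : s ∈ expSet p a e) :
    ∃ t ∈ expSet p a e, s * t = 1 :=
  ⟨s ^ (e - 1), pow_mem_expSet hs _, by
    rw [← pow_succ', Nat.sub_add_cancel K.e_pos, mem_expSet.1 hs]⟩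

theorem hom_pow_fixed {r : ZMod (p ^ a)} (hr : r ∈ expSet p a e) {l : D →* ℂˣ} (hl : l ≠ 1)
    (h : l ^ r.val = l) : r = 1 := by
  obtain ⟨v, hv⟩ : ∃ v, l v ≠ 1 := by
    by_contra hc
    push Not at hc
    exact hl (MonoidHom.ext hc)
  obtain ⟨k, -, hk⟩ := (Nat.dvd_prime_pow (Fact.out : p.Prime)).1
    (orderOf_dvd_of_pow_eq_one (show l v ^ p ^ a = 1 by rw [← map_pow, K.pow_card_sub, map_one]))
  have hk0 : k ≠ 0 := fun h0 => hv (orderOf_eq_one_iff.1 (by rw [hk, h0, pow_zero]))
  refine K.expSet_inj hr one_mem_expSet ?_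
  rw [ZMod.natCast_eq_natCast_iff, K.val_one]
  have h1 : l v ^ r.val = l v ^ 1 := by rw [← MonoidHom.pow_apply, h, pow_one]
  exact (pow_eq_pow_iff_modEq.1 h1).of_dvd (hk ▸ dvd_pow_self p hk0)

theorem hom_pow_injOn {l : D →* ℂˣ} (hl : l ≠ 1) :
    Set.InjOn (fun r : ZMod (p ^ a) => l ^ r.val) (expSet p a e) := by
  intro r hr s hs h
  obtain ⟨t, ht, hst⟩ := K.exists_inv hs
  have h1 : l ^ (r * t).val = l := by
    rw [← K.hom_pow_val_mul, show l ^ r.val = l ^ s.val from h, K.hom_pow_val_mul, hst,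
      K.hom_pow_one]
  have h2 := K.hom_pow_fixed (mul_mem_expSet hr ht) hl h1
  calc r = r * (s * t) := by rw [hst, mul_one]
    _ = s * (r * t) := by ring
    _ = s := by rw [h2, mul_one]

theorem pow_ne_one {l : D →* ℂˣ} (hl : l ≠ 1) {r : ZMod (p ^ a)} (hr : r ∈ expSet p a e) :
    l ^ r.val ≠ 1 := fun h => by
  obtain ⟨t, -, hrt⟩ := K.exists_inv hr
  apply hl
  rw [← K.hom_pow_one l, ← hrt, ← K.hom_pow_val_mul, h]
  exact MonoidHom.ext fun v => by simp

theorem mem_orb_self (l : D →* ℂˣ) : l ∈ orb p a e l :=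
  Finset.mem_image.2 ⟨1, one_mem_expSet, K.hom_pow_one l⟩

theorem orb_pow {l : D →* ℂˣ} {r : ZMod (p ^ a)} (hr : r ∈ expSet p a e) :
    orb p a e (l ^ r.val) = orb p a e l := by
  have h : ∀ (m : D →* ℂˣ) (s : ZMod (p ^ a)), s ∈ expSet p a e →
      orb p a e (m ^ s.val) ⊆ orb p a e m := by
    intro m s hs k hk
    obtain ⟨q, hq, rfl⟩ := Finset.mem_image.1 hk
    exact Finset.mem_image.2
      ⟨s * q, mul_mem_expSet hs hq, (K.hom_pow_val_mul m s q).symm⟩
  refine Finset.Subset.antisymm (h l r hr) ?_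
  obtain ⟨t, ht, hrt⟩ := K.exists_inv hr
  have := h (l ^ r.val) t ht
  rwa [K.hom_pow_val_mul, hrt, K.hom_pow_one] at this

theorem orb_eq_of_mem {l m : D →* ℂˣ} (h : m ∈ orb p a e l) : orb p a e m = orb p a e l := by
  obtain ⟨r, hr, rfl⟩ := Finset.mem_image.1 h
  exact K.orb_pow hr

theorem card_expSet {t0 : G} (ht0 : t0 ∈ pairStab (⊤ : Subgroup G) D e0)
    (hte : t0 ^ e ∈ Subgroup.centralizer (D : Set G))
    (hmin : ∀ i : ℕ, t0 ^ i ∈ Subgroup.centralizer (D : Set G) → e ∣ i) :
    (expSet p a e).card = e := by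
  obtain ⟨r0, -, himg, hinj⟩ := K.exists_exponent ht0 hte hmin
  rw [← himg, Finset.card_image_of_injOn hinj, Finset.card_range]

theorem card_expSet_eq : (expSet p a e).card = e := by
  obtain ⟨-, -, t0, ht0, hte, -, -, hmin⟩ := K.inertia
  exact K.card_expSet ht0 hte hmin

theorem card_orb {l : D →* ℂˣ} (hl : l ≠ 1) : (orb p a e l).card = e := by
  rw [orb, Finset.card_image_of_injOn (K.hom_pow_injOn hl), K.card_expSet_eq]

theorem card_homs : Nat.card (D →* ℂˣ) = p ^ a := by
  letI : CommGroup D :=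
    { (inferInstance : Group D) with mul_comm := fun x y => Subtype.ext (K.comm _ x.2 _ y.2) }
  rw [CommGroup.card_monoidHom_of_hasEnoughRootsOfUnity D ℂ, K.card_D]

theorem finite_homs : Finite (D →* ℂˣ) :=
  Nat.finite_of_card_ne_zero (K.card_homs.trans_ne (pow_ne_zero a (Fact.out : p.Prime).ne_zero))

theorem exists_ne_one : ∃ l : D →* ℂˣ, l ≠ 1 := by
  haveI := K.finite_homs
  have : 1 < Nat.card (D →* ℂˣ) := K.card_homs ▸ K.one_lt_card
  haveI := Finite.one_lt_card_iff_nontrivial.1 this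
  exact exists_ne 1

variable [Fintype (D →* ℂˣ)]

/-- An invariant zero-one function with few ones. -/
theorem shape_aux {y : (D →* ℂˣ) → ℤ} (h01 : ∀ l, y l = 0 ∨ y l = 1)
    (hinv : ∀ l, ∀ r ∈ expSet p a e, y (l ^ r.val) = y l) (hsum : ∑ l, y l ≤ e) :
    Shape p a e fun l => y l - y 1 := by
  set S := Finset.univ.filter fun l => y l = 1 with hS
  have hcard : S.card ≤ e := by
    have h : ∑ l, y l = (S.card : ℤ) := by
      rw [hS, Finset.natCast_card_filter]
      exact Finset.sum_congr rfl fun l _ => by rcases h01 l with h | h <;> simp [h]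
    exact_mod_cast h ▸ hsum
  have hclosed : ∀ l ∈ S, orb p a e l ⊆ S := by
    intro l hl m hm
    obtain ⟨r, hr, rfl⟩ := Finset.mem_image.1 hm
    simp only [hS, Finset.mem_filter, Finset.mem_univ, true_and] at hl ⊢
    rw [hinv l r hr, hl]
  have hmem : ∀ l, y l = if l ∈ S then 1 else 0 := fun l => by
    rcases h01 l with h | h <;> simp [hS, h]
  by_cases h : ∃ l ∈ S, l ≠ 1
  · obtain ⟨l0, hl0, hne⟩ := h
    have heq : orb p a e l0 = S :=
      Finset.eq_of_subset_of_card_le (hclosed l0 hl0) (by rw [K.card_orb hne]; exact hcard)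
    have h1 : y 1 = 0 := by
      rw [hmem, if_neg]
      rw [← heq]
      intro hm
      obtain ⟨r, hr, h1⟩ := Finset.mem_image.1 hm
      exact K.pow_ne_one hne hr h1
    exact Or.inr ⟨1, Or.inl rfl, Or.inr ⟨l0, hne, fun l _ => by rw [heq]; simp only [h1, sub_zero]; exact hmem l⟩⟩
  · push Not at h
    have h0 : ∀ l, l ≠ 1 → y l = 0 := fun l hl => by
      rw [hmem, if_neg fun hm => hl (h l hm)]
    rcases h01 1 with h1 | h1
    · exact Or.inl fun l hl => by simp [h0 l hl, h1]
    · exact Or.inr ⟨-1, Or.inr rfl, Or.inl fun l hl => by simp [h0 l hl, h1]⟩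

/-- An invariant function with two adjacent values, the larger one taken rarely or often. -/
theorem shape_of_pattern {c : (D →* ℂˣ) → ℤ} {z : ℤ} {r : ℕ} (hrN : r < p ^ a)
    (hr : r ≤ e ∨ p ^ a ≤ r + e) (hsum : ∑ l, c l = (p ^ a : ℕ) * z + r)
    (hb : ∀ l, z ≤ c l ∧ c l ≤ z + 1)
    (hinv : ∀ l, ∀ s ∈ expSet p a e, c (l ^ s.val) = c l) :
    Shape p a e fun l => c l - c 1 := by
  have hN : Fintype.card (D →* ℂˣ) = p ^ a := by rw [← Nat.card_eq_fintype_card, K.card_homs]
  have hs : ∑ l, (c l - z) = r := by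
    rw [Finset.sum_sub_distrib, hsum, Finset.sum_const, Finset.card_univ, hN, nsmul_eq_mul]
    push_cast
    ring
  rcases hr with hr | hr
  · have h := K.shape_aux (y := fun l => c l - z) (fun l => by have := hb l; omega)
      (fun l s hs' => by simp only [hinv l s hs']) (by rw [hs]; exact_mod_cast hr)
    simpa using h
  · have h := K.shape_aux (y := fun l => z + 1 - c l) (fun l => by have := hb l; omega)
      (fun l s hs' => by simp only [hinv l s hs']) (by
        rw [Finset.sum_congr rfl fun l _ => (show z + 1 - c l = 1 - (c l - z) by ring),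
          Finset.sum_sub_distrib, hs, Finset.sum_const, Finset.card_univ, hN, nsmul_eq_mul,
          mul_one]
        omega)
    simpa using h.neg

theorem sum_homs_apply (v : D) :
    ∑ l : D →* ℂˣ, (l v : ℂ) = if v = 1 then ((p ^ a : ℕ) : ℂ) else 0 := by
  letI : CommGroup D :=
    { (inferInstance : Group D) with mul_comm := fun x y => Subtype.ext (K.comm _ x.2 _ y.2) }
  have h := Brauer.sum_homUnits_apply v
  rw [K.card_D] at h
  convert h

end CycBlock

theorem sum_hom_apply (l : D →* ℂˣ) :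
    ∑ v : D, (l v : ℂ) = if l = 1 then (Nat.card D : ℂ) else 0 := by
  split_ifs with h
  · simp [h, Nat.card_eq_fintype_card]
  · exact sum_hom_units_eq_zero ((Units.coeHom ℂ).comp l) fun h' => h (MonoidHom.ext fun v =>
      Units.ext (by simpa using DFunLike.congr_fun h' v))

end CfsgLib.Jordan.CyclicDefect
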