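import Cfsg.Agent.Lib.Jordan.CyclicDefect.Rows
import Cfsg.Agent.Lib.Frobenius.Induce

/-!
# The orthogonality of the rows of a block with cyclic defect group

The differences of two twists induced to the group have inner products `e` plus one for twists in
the same orbit, and vanish on the regular elements.
-/

set_option autoImplicit false
set_option linter.style.haveILetI false
set_option linter.unusedSectionVars false
set_option maxHeartbeats 800000

noncomputable section

namespace CfsgLib.Jordan.CyclicDefect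

open Cfsg CfsgLib.Blocks MonoidAlgebra CfsgLib.BrauerPairs CfsgLib.BlockStar
open CfsgLib.BlockSections (belowBlock belowBlock_spec)
open scoped Classical ComplexConjugate

attribute [local instance 5] Fintype.ofFinite

variable {G : Type*} [Group G] [Fintype G] {M : Ideal AlgInt} [M.IsPrime] {p : ℕ} [Fact p.Prime]
  [CharP (Res M) p] [IsAlgClosed (Res M)]
  {B : Set (IrrCharacter G)} {D : Subgroup G} {e0 : MonoidAlgebra (Res M) G} {a e : ℕ}
  [NeZero (p ^ a)]

namespace Loc

variable (L : Loc p M B D e0 a e)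

/-- The difference of a twist and the base member. -/
def eta (l : D →* ℂˣ) : L.C → ℂ := fun h => (L.twist l : L.C → ℂ) h - (L.θ : L.C → ℂ) h

theorem eta_eq (l : D →* ℂˣ) : L.eta l = (L.twist l : L.C → ℂ) - (L.θ : L.C → ℂ) := rfl

theorem isClassFunction_eta (l : D →* ℂˣ) : IsClassFunction L.C (L.eta l) := fun g h => by
  simp only [eta, CharTheory.IsIrrCharacter.isClassFunction (L.twist l).2 g h,
    CharTheory.IsIrrCharacter.isClassFunction L.θ.2 g h]

theorem classInner_twist (l k : D →* ℂˣ) :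
    classInner (L.twist l : L.C → ℂ) (L.twist k : L.C → ℂ) = if l = k then 1 else 0 := by
  rw [CharTheory.classInner_irrCharacter]
  simp [L.twist_injective.eq_iff]

theorem classInner_eta {l k : D →* ℂˣ} (hl : l ≠ 1) (hk : k ≠ 1) :
    classInner (L.eta l) (L.eta k) = (if l = k then 1 else 0) + 1 := by
  rw [eta_eq, eta_eq, ← L.twist_one, CharTheory.classInner_sub_left,
    CharTheory.classInner_sub_right, CharTheory.classInner_sub_right, L.classInner_twist,
    L.classInner_twist, L.classInner_twist, L.classInner_twist, if_neg hl, if_neg (Ne.symm hk),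
    if_pos (rfl : (1 : D →* ℂˣ) = 1)]
  ring

/-- Off the sections of the nontrivial elements of the defect group the difference vanishes. -/
theorem exists_of_eta_ne_zero {l : D →* ℂˣ} {h : L.C} (hne : L.eta l h ≠ 0) :
    ∃ y : L.C, (y : G) * (ppart p h : L.C) * (y : G)⁻¹ ∈ D ∧
      (y : G) * (ppart p h : L.C) * (y : G)⁻¹ ≠ 1 := by
  by_contra hcon
  push Not at hcon
  refine hne ?_
  simp only [eta, twist]
  by_cases hreg : p ∣ orderOf h
  · rw [L.nilp.th_apply L.setup.hθ, apply_eq_sum_val (M := M) (p := p) L.θ h,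
      ← Finset.sum_sub_distrib]
    refine Finset.sum_eq_zero fun c hc => ?_
    rcases L.nilp.lam_cases h c hc with ⟨y, hy, -, -⟩ | h0
    · refine absurd (hcon y (Subgroup.mem_subgroupOf.1 hy)) fun h1 => ?_
      have h2 : ppart p h = 1 := conj_eq_one_iff.1 (Subtype.ext h1 : y * ppart p h * y⁻¹ = 1)
      obtain ⟨r, hr, -, -, hreg'⟩ := ppart_spec (p := p) h
      rw [h2, one_mul] at hr
      exact hreg' (hr ▸ hreg)
    · rw [h0 _ L.setup.hθ, mul_zero, sub_zero]
  · rw [L.nilp.th_regular L.setup.hθ _ hreg, sub_self]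

theorem eta_regular (l : D →* ℂˣ) {h : L.C} (hreg : ¬ p ∣ orderOf h) : L.eta l h = 0 := by
  simp only [eta, twist]
  rw [L.nilp.th_regular L.setup.hθ _ hreg, sub_self]

/-- The induced differences vanish on the regular elements. -/
theorem indFun_eta_regular (l : D →* ℂˣ) {g : G} (hg : ¬ p ∣ orderOf g) :
    indFun L.C (L.eta l) g = 0 := by
  rw [indFun, Finset.sum_eq_zero fun x _ => ?_, mul_zero]
  by_cases hx : x⁻¹ * g * x ∈ L.C
  · rw [Frobenius.extendByZero_of_mem _ _ hx]
    refine L.eta_regular l ?_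
    have : orderOf (x⁻¹ * g * x⁻¹⁻¹) = orderOf g := (MulAut.conj x⁻¹).orderOf_eq g
    rw [inv_inv] at this
    rwa [Subgroup.orderOf_mk, this]
  · exact Frobenius.extendByZero_of_not_mem _ _ hx

theorem classInner_indFun_eta (l : D →* ℂˣ) (χ : IrrCharacter G) :
    classInner (indFun L.C (L.eta l)) (χ : G → ℂ) = (L.dif χ l : ℂ) := by
  rw [Frobenius.classInner_indFun L.C _ _ (CharTheory.IsIrrCharacter.isClassFunction χ.2), eta_eq,
    CharTheory.classInner_sub_left, dif, Int.cast_sub, mult, mult, L.twist_one,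
    CharTheory.classInner_conj_symm, ← coe_subMult,
    CharTheory.classInner_conj_symm (L.θ : L.C → ℂ), ← coe_subMult, map_intCast, map_intCast]

/-- The combination with the differences of multiplicities vanishes on the regular elements. -/
theorem sum_dif_mul_apply (l : D →* ℂˣ) {g : G} (hg : ¬ p ∣ orderOf g) :
    ∑ χ : IrrCharacter G, (L.dif χ l : ℂ) * (χ : G → ℂ) g = 0 := by
  have h := congrFun (CharTheory.eq_sum_classInner
    (Frobenius.indFun_isClassFunction L.C (L.eta l))) g
  rw [L.indFun_eta_regular l hg, Finset.sum_apply] at h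
  rw [h]
  exact Finset.sum_congr rfl fun χ _ => by
    rw [Pi.smul_apply, smul_eq_mul, L.classInner_indFun_eta]

theorem pow_r0_mem (i : ℕ) : L.r0 ^ i ∈ expSet p a e := by
  refine pow_mem_expSet (mem_expSet.2 ?_) i
  obtain ⟨w, hw, hword, -⟩ := L.base.exists_gen
  have hte : L.t0 ^ e ∈ Subgroup.centralizer (D : Set G) :=
    L.base.inertia.2.1 _ (pow_mem L.ht0 e) L.z L.hz L.hz1 (by
      rw [Subgroup.mem_centralizer_singleton_iff.1 L.setup.tpow, mul_inv_cancel_right])
  have h7 := L.pow e w hw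
  rw [← Subgroup.mem_centralizer_iff.1 hte w hw, mul_inv_cancel_right] at h7
  have h8 : 1 ≡ (L.r0 ^ e).val [MOD p ^ a] :=
    (pow_eq_pow_iff_modEq.1 (by rw [pow_one]; exact h7)).of_dvd (dvd_of_eq hword.symm)
  rw [← ZMod.natCast_eq_natCast_iff, Nat.cast_one, ZMod.natCast_zmod_val] at h8
  exact h8.symm

theorem twist_conj (i : ℕ) : ∀ (k : D →* ℂˣ) (y y' : L.C),
    (y' : G) = L.t0 ^ i * y * (L.t0 ^ i)⁻¹ →
      (L.twist k : L.C → ℂ) y' = (L.twist (k ^ (L.r0 ^ i).val) : L.C → ℂ) y := by
  induction i with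
  | zero =>
    intro k y y' h
    rw [pow_zero, L.base.hom_pow_one,
      show y' = y from Subtype.ext (by rw [h, pow_zero, one_mul, inv_one, mul_one])]
  | succ i ih =>
    intro k y y' h
    obtain ⟨w, rfl⟩ := L.σ.surjective y'
    rw [← compIrr_apply L.σ, L.compIrr_twist, ih (k ^ L.r0.val) y w ?_, L.base.hom_pow_val_mul,
      ← pow_succ']
    rw [coe_conjOn, pow_succ'] at h
    calc (w : G) = L.t0⁻¹ * (L.t0 * w * L.t0⁻¹) * L.t0 := by group
      _ = L.t0⁻¹ * (L.t0 * L.t0 ^ i * y * (L.t0 * L.t0 ^ i)⁻¹) * L.t0 := by rw [h]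
      _ = L.t0 ^ i * y * (L.t0 ^ i)⁻¹ := by group

/-- The inner product with a shift of a difference. -/
def shiftInner (l k : D →* ℂˣ) (x : G) : ℂ :=
  classInner (L.eta l) fun h : L.C => extendByZero L.C (L.eta k) (x⁻¹ * h * x)

theorem shiftInner_eq_zero_of_notMem_normalizer (l k : D →* ℂˣ) {x : G}
    (hx : x ∉ Subgroup.normalizer (Subgroup.zpowers L.z : Set G)) :
    L.shiftInner l k x = 0 := by
  rw [shiftInner, classInner, Finset.sum_eq_zero fun h _ => ?_, mul_zero]
  by_contra hne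
  rw [mul_eq_zero, not_or, map_eq_zero] at hne
  obtain ⟨h1, h2⟩ := hne
  have hmem : x⁻¹ * h * x ∈ L.C := by
    by_contra hm
    exact h2 (Frobenius.extendByZero_of_not_mem _ _ hm)
  rw [Frobenius.extendByZero_of_mem _ _ hmem] at h2
  obtain ⟨y, hy, hy1⟩ := L.exists_of_eta_ne_zero h1
  obtain ⟨y', hy', -⟩ := L.exists_of_eta_ne_zero h2
  have hpp : ∀ w : L.C, ((ppart p w : L.C) : G) = ppart p (w : G) := fun w => by
    obtain ⟨r, hr, hc, ⟨j, hj⟩, hreg⟩ := ppart_spec (p := p) w
    exact (ppart_eq (u := ((ppart p w : L.C) : G)) ⟨r, congrArg Subtype.val hr, congrArg Subtype.val hc.eq,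
      ⟨j, by rw [Subgroup.orderOf_coe]; exact hj⟩, by rwa [Subgroup.orderOf_coe]⟩).symm
  rw [hpp] at hy hy1 hy'
  have h3 : ppart p (x⁻¹ * (h : G) * x) = x⁻¹ * ppart p (h : G) * x := by
    have := ppart_conj (p := p) x⁻¹ (h : G)
    rwa [inv_inv] at this
  rw [h3] at hy'
  have hN := L.setup.ti ((y : G) * x * (y' : G)⁻¹) _
    (by rw [Subgroup.map_subgroupOf_eq_of_le L.le_C]; exact hy) hy1
    (by
      rw [Subgroup.map_subgroupOf_eq_of_le L.le_C]
      convert hy' using 1
      group)
  refine hx ?_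
  have hCN : L.C ≤ Subgroup.normalizer (Subgroup.zpowers L.z : Set G) :=
    L.setup.CT.trans L.setup.TN
  have := mul_mem (mul_mem (inv_mem (hCN y.2)) hN) (hCN y'.2)
  convert this using 1
  group

theorem shiftInner_of_mem_stab {l k : D →* ℂˣ} (hl : l ≠ 1) (hk : k ≠ 1) {x : G} {i : ℕ}
    {c : G} (hc : c ∈ L.C) (hx : x⁻¹ = L.t0 ^ i * c) :
    L.shiftInner l k x = (if l = k ^ (L.r0 ^ i).val then 1 else 0) + 1 := by
  have hr : L.r0 ^ i ∈ expSet p a e := L.pow_r0_mem i
  rw [← L.classInner_eta hl (L.base.pow_ne_one hk hr), shiftInner]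
  congr 1
  funext h
  have hcC := L.C.mul_mem (L.C.mul_mem hc h.2) (L.C.inv_mem hc)
  have hn := L.setup.norm (L.t0 ^ i)
    (pow_mem (L.setup.TN L.setup.mem_t0) i) (c * h * c⁻¹)
  have hkey : x⁻¹ * (h : G) * x = L.t0 ^ i * (c * h * c⁻¹) * (L.t0 ^ i)⁻¹ := by
    rw [show x = (x⁻¹)⁻¹ from (inv_inv x).symm, inv_inv x⁻¹, hx]
    group
  rw [Frobenius.extendByZero_of_mem _ _ (hkey ▸ hn.1 hcC)]
  simp only [eta]
  rw [L.twist_conj i k ⟨_, hcC⟩ ⟨_, hkey ▸ hn.1 hcC⟩ hkey, ← L.twist_one,
    L.twist_conj i 1 ⟨_, hcC⟩ ⟨_, hkey ▸ hn.1 hcC⟩ hkey,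
    show (1 : D →* ℂˣ) ^ (L.r0 ^ i).val = 1 from MonoidHom.ext fun v => by simp]
  congr 1 <;>
    exact CharTheory.IsIrrCharacter.isClassFunction (Subtype.prop _) h ⟨c, hc⟩

theorem shiftInner_of_mem_normalizer {l k : D →* ℂˣ} {x : G}
    (hx : x ∈ Subgroup.normalizer (Subgroup.zpowers L.z : Set G)) (hxT : x ∉ L.T) :
    L.shiftInner l k x = 0 := by
  set τ := conjOn L.C x⁻¹ (L.setup.norm x⁻¹ (inv_mem hx)) with hτ
  have hfun : (fun h : L.C => extendByZero L.C (L.eta k) (x⁻¹ * h * x)) =
      (compIrr τ (L.twist k) : L.C → ℂ) - (compIrr τ L.θ : L.C → ℂ) := by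
    funext h
    rw [show x⁻¹ * (h : G) * x = (τ h : G) by rw [hτ, coe_conjOn, inv_inv],
      Frobenius.extendByZero_coe]
    rfl
  set b := belowBlock (M := M) p D e0 L.z
  have hb := L.nilp.hB
  have hout : ∀ ξ ∈ b, compIrr τ ξ ∉ b := by
    intro ξ hξ hmem
    have heq : compIrr τ '' b = b :=
      isPBlock_eq_of_mem (isPBlock_image_compIrr τ hb) hb (Set.mem_image_of_mem _ hξ) hmem
    set eb := redElem M (blockCoeff b)
    have hfix : mapG τ.toMonoidHom eb = eb := by
      refine MonoidAlgebra.ext (Finsupp.ext fun g => ?_)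
      obtain ⟨g, rfl⟩ := τ.surjective g
      rw [show τ g = τ.toMonoidHom g from rfl, coeff_mapG_apply (φ := τ.toMonoidHom) τ.injective,
        coeff_redElem, coeff_redElem, show τ.toMonoidHom g = τ g from rfl,
        ← blockCoeff_image_compIrr τ b g, heq]
    have h1 := L.setup.orth x⁻¹ (inv_mem hx) fun h => hxT (inv_mem_iff.1 h)
    rw [conjA_eq_mul, single_mul_mapG_mul_single x⁻¹ (L.setup.norm x⁻¹ (inv_mem hx)), ← hτ, hfix,
      ← map_mul, (isBlockIdem_redElem_blockCoeff hb).mul_self] at h1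
    exact (isBlockIdem_redElem_blockCoeff (M := M) hb).ne_zero
      (mapG_injective L.C.subtype_injective (h1.trans (map_zero _).symm))
  rw [shiftInner, hfun, eta_eq, CharTheory.classInner_sub_left, CharTheory.classInner_sub_right,
    CharTheory.classInner_sub_right]
  simp only [CharTheory.classInner_irrCharacter]
  rw [if_neg fun h => hout _ (L.twist_mem k) (by rw [← h]; exact L.twist_mem l),
    if_neg fun h => hout _ L.setup.hθ (by rw [← h]; exact L.twist_mem l),
    if_neg fun h => hout _ (L.twist_mem k) (by rw [← h]; exact L.setup.hθ),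
    if_neg fun h => hout _ L.setup.hθ (by rw [← h]; exact L.setup.hθ)]
  ring

/-- The inner products of the rows. -/
theorem sum_dif_mul_dif {l k : D →* ℂˣ} (hl : l ≠ 1) (hk : k ≠ 1) :
    ∑ χ : IrrCharacter G, L.dif χ l * L.dif χ k = e + if l ∈ orb p a e k then 1 else 0 := by
  have hcf := Frobenius.indFun_isClassFunction L.C (L.eta k)
  have h1 : classInner (indFun L.C (L.eta l)) (indFun L.C (L.eta k)) =
      ∑ χ : IrrCharacter G, (L.dif χ l : ℂ) * (L.dif χ k : ℂ) := by
    conv_lhs => rw [CharTheory.eq_sum_classInner hcf]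
    rw [CharTheory.classInner_sum_right]
    refine Finset.sum_congr rfl fun χ _ => ?_
    rw [CharTheory.classInner_smul_right, L.classInner_indFun_eta, L.classInner_indFun_eta,
      map_intCast, mul_comm]
  have h2 : classInner (indFun L.C (L.eta l)) (indFun L.C (L.eta k)) =
      (Nat.card L.C : ℂ)⁻¹ * ∑ x : G, L.shiftInner l k x := by
    rw [Frobenius.classInner_indFun _ _ _ hcf]
    rw [show (fun h : L.C => indFun L.C (L.eta k) (h : G)) = ((Nat.card L.C : ℂ)⁻¹) •
        ∑ x : G, fun h : L.C => extendByZero L.C (L.eta k) (x⁻¹ * h * x) by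
      funext h; simp [indFun, Finset.sum_apply],
      CharTheory.classInner_smul_right, CharTheory.classInner_sum_right, map_inv₀, map_natCast]
    rfl
  let f : Fin e × L.C → L.T := fun y => ⟨(L.t0 ^ (y.1 : ℕ) * y.2)⁻¹,
    inv_mem (mul_mem (pow_mem L.setup.mem_t0 _) (L.setup.CT y.2.2))⟩
  have hsurj : Function.Surjective f := by
    rintro ⟨x, hx⟩
    obtain ⟨i, c, hc, hxc⟩ := L.setup.decomp x⁻¹ (inv_mem hx)
    refine ⟨(⟨i % e, Nat.mod_lt _ L.base.e_pos⟩,
      ⟨(L.t0 ^ e) ^ (i / e) * c, mul_mem (pow_mem L.setup.tpow _) hc⟩), Subtype.ext ?_⟩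
    show (L.t0 ^ (i % e) * ((L.t0 ^ e) ^ (i / e) * c))⁻¹ = x
    rw [← mul_assoc, ← pow_mul, ← pow_add, Nat.mod_add_div, ← hxc, inv_inv]
  have hbij : Function.Bijective f := by
    refine (Nat.bijective_iff_surjective_and_card f).2 ⟨hsurj, ?_⟩
    rw [Nat.card_prod, Nat.card_eq_fintype_card, Fintype.card_fin,
      ← Subgroup.card_mul_index (L.C.subgroupOf L.T),
      Nat.card_congr (Subgroup.subgroupOfEquivOfLe L.setup.CT).toEquiv, mul_comm]
    exact congrArg _ L.setup.index.symm
  have h3 : ∑ x : G, L.shiftInner l k x =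
      (Nat.card L.C : ℂ) * ((e : ℂ) + if l ∈ orb p a e k then 1 else 0) := by
    rw [← Finset.sum_subset (Finset.subset_univ (Finset.univ.filter (· ∈ L.T))) fun x _ hx => ?_,
      Finset.sum_subtype _ (p := (· ∈ L.T)) (fun x => by simp),
      ← Fintype.sum_bijective f hbij (fun y => L.shiftInner l k (f y : G)) _ fun _ => rfl,
      Fintype.sum_prod_type, Fin.sum_univ_eq_sum_range
        (fun i => ∑ c : L.C, L.shiftInner l k ((L.t0 ^ i * (c : G))⁻¹))]
    · rw [Finset.sum_congr rfl fun i _ => Finset.sum_congr rfl fun c _ =>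
        L.shiftInner_of_mem_stab hl hk (i := i) c.2 (inv_inv _)]
      simp only [Finset.sum_const, Finset.card_univ, nsmul_eq_mul, ← Nat.card_eq_fintype_card,
        ← Finset.mul_sum, Finset.sum_add_distrib, Finset.card_range, mul_one]
      congr 1
      rw [add_comm]
      congr 1
      rw [Finset.sum_boole, orb, ← L.image, Finset.image_image]
      split_ifs with hmem
      · obtain ⟨i, hi, rfl⟩ := Finset.mem_image.1 hmem
        rw [show ((Finset.range e).filter fun j => ((fun r => k ^ r.val) ∘ fun j => L.r0 ^ j) i =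
            k ^ (L.r0 ^ j).val) = {i} from ?_, Finset.card_singleton, Nat.cast_one]
        ext j
        simp only [Finset.mem_filter, Finset.mem_singleton, Function.comp_apply]
        refine ⟨fun ⟨hj, h⟩ => L.inj hj hi (L.base.hom_pow_injOn hk ?_ ?_ h.symm),
          fun h => by subst h; exact ⟨hi, rfl⟩⟩
        · rw [← L.image]; exact Finset.mem_image_of_mem _ hj
        · rw [← L.image]; exact Finset.mem_image_of_mem _ hi
      · rw [Finset.filter_false_of_mem (p := fun j => l = k ^ (L.r0 ^ j).val) fun j hj h =>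
          hmem (Finset.mem_image.2 ⟨j, hj, Eq.symm h⟩), Finset.card_empty, Nat.cast_zero]
    · have hxT : x ∉ L.T := fun h => hx (by simp [h])
      by_cases hN : x ∈ Subgroup.normalizer (Subgroup.zpowers L.z : Set G)
      · exact L.shiftInner_of_mem_normalizer hN hxT
      · exact L.shiftInner_eq_zero_of_notMem_normalizer l k hN
  have h4 := h1.symm.trans h2
  rw [h3, ← mul_assoc, inv_mul_cancel₀ (Nat.cast_ne_zero.2 Nat.card_pos.ne'), one_mul] at h4
  apply Int.cast_injective (α := ℂ)
  push_cast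
  exact h4

end Loc

end CfsgLib.Jordan.CyclicDefect
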