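import Cfsg.Agent.Lib.Jordan.CyclicDefect.Action
import Cfsg.Agent.Lib.Jordan.CyclicDefect.Mackey

/-!
# The multiplicities of the twists in a restriction

For a subgroup with a nilpotent block with cyclic defect group, whose stabiliser `T` has index `e`
over it and whose defect group is a trivial intersection outside `N`, the multiplicities of the
members in the restriction of an irreducible character take two adjacent values, the larger one at
most `e` or at least `p ^ a - e` times.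
-/

set_option autoImplicit false
set_option linter.style.haveILetI false
set_option linter.unusedSectionVars false
set_option maxHeartbeats 800000

noncomputable section

namespace CfsgLib.Jordan.CyclicDefect

open Cfsg CfsgLib.Blocks MonoidAlgebra CfsgLib.BrauerPairs CfsgLib.BlockStar Module
open CfsgLib.BrauerCharacters (annIdeal annMap mem_annIdeal annMap_surjective annMap_eq_zero
  annMap_eq_iff)

variable {G : Type*} [Group G] [Fintype G] {M : Ideal AlgInt} [M.IsPrime] {p : ℕ} [Fact p.Prime]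
  [CharP (Res M) p] [IsAlgClosed (Res M)]

/-- The setting around a subgroup with a nilpotent block with cyclic defect group. -/
structure LocalSetup (C : Subgroup G) [Fintype C] (b : Set (IrrCharacter C)) (P : Subgroup C)
    (e0 : MonoidAlgebra (Res M) C) (θ : IrrCharacter C) (u : P) (e : ℕ) (t0 : G)
    (T N : Subgroup G) : Prop where
  nilp : AbNilp p M b P e0
  hθ : θ ∈ b
  gen : ∀ v : P, v ∈ Subgroup.zpowers u
  mem_t0 : t0 ∈ T
  CT : C ≤ T
  TN : T ≤ N
  norm : ∀ x ∈ N, ∀ g, g ∈ C ↔ x * g * x⁻¹ ∈ C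
  decomp : ∀ x ∈ T, ∃ i : ℕ, ∃ c ∈ C, x = t0 ^ i * c
  tpow : t0 ^ e ∈ C
  not_dvd : ¬ p ∣ e
  index : C.relIndex T = e
  mapP : P.map (conjOn C t0 (norm t0 (TN mem_t0))).toMonoidHom = P
  fixE0 : mapG (conjOn C t0 (norm t0 (TN mem_t0))).toMonoidHom e0 = e0
  fixθ : compIrr (conjOn C t0 (norm t0 (TN mem_t0))) θ = θ
  orth : ∀ x ∈ N, x ∉ T → mapG C.subtype (redElem M (blockCoeff b)) *
    conjA x (mapG C.subtype (redElem M (blockCoeff b))) = 0
  ti : ∀ x : G, ∀ v ∈ P.map C.subtype, v ≠ 1 → x⁻¹ * v * x ∈ P.map C.subtype → x ∈ N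

variable {C : Subgroup G} [Fintype C] {b : Set (IrrCharacter C)} {P : Subgroup C}
  {e0 : MonoidAlgebra (Res M) C} {θ : IrrCharacter C} {u : P} {e : ℕ} {t0 : G} {T N : Subgroup G}


variable (Ls : LocalSetup (p := p) C b P e0 θ u e t0 T N) (S : Above M)
  {χ : IrrCharacter G} (L : LocalRep S χ)

include Ls in
theorem LocalSetup.e_pos : 0 < e := Nat.pos_of_ne_zero fun h => Ls.not_dvd (h ▸ dvd_zero p)

include Ls in
theorem LocalSetup.cast_ne_zero : (e : S.K) ≠ 0 := fun h => by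
  haveI : CharP S.K p := S.charP Ls.nilp.hM
  exact Ls.not_dvd ((CharP.cast_eq_zero_iff S.K p e).1 h)

/-- Conjugation by `t0`. -/
abbrev LocalSetup.conjT : C ≃* C := conjOn C t0 (Ls.norm t0 (Ls.TN Ls.mem_t0))

theorem LocalSetup.conjT_iterate (g : C) :
    (Ls.conjT : C → C)^[e] g = ⟨t0 ^ e, Ls.tpow⟩ * g * (⟨t0 ^ e, Ls.tpow⟩ : C)⁻¹ :=
  Subtype.ext (by rw [conjOn_iterate]; rfl)

/-- The projection commutes with `t0`. -/
theorem LocalSetup.commute_t0 : Commute (Ls.nilp.cutE S L) (sigG S L t0) := by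
  have h := sigG_mul_actC S L C t0 (Ls.norm t0 (Ls.TN Ls.mem_t0)) (Ls.nilp.eK S)
  rw [Ls.nilp.mapG_eK S Ls.hθ Ls.conjT Ls.mapP Ls.fixE0 Ls.fixθ] at h
  change sigG S L t0 * Ls.nilp.cutE S L * sigG S L t0⁻¹ = Ls.nilp.cutE S L at h
  calc Ls.nilp.cutE S L * sigG S L t0
      = sigG S L t0 * Ls.nilp.cutE S L * sigG S L t0⁻¹ * sigG S L t0 := by rw [h]
    _ = sigG S L t0 * Ls.nilp.cutE S L := by
        rw [mul_assoc, ← map_mul, inv_mul_cancel, map_one, mul_one]

theorem LocalSetup.commute_t0_inv : Commute (Ls.nilp.cutE S L) (sigG S L t0⁻¹) := by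
  have h := Ls.commute_t0 S L
  calc Ls.nilp.cutE S L * sigG S L t0⁻¹
      = sigG S L t0⁻¹ * sigG S L t0 * Ls.nilp.cutE S L * sigG S L t0⁻¹ := by
        rw [← map_mul, inv_mul_cancel, map_one, one_mul]
    _ = sigG S L t0⁻¹ * (Ls.nilp.cutE S L * sigG S L t0) * sigG S L t0⁻¹ := by
        rw [h.eq]; simp only [mul_assoc]
    _ = sigG S L t0⁻¹ * Ls.nilp.cutE S L := by
        rw [mul_assoc (sigG S L t0⁻¹), mul_assoc (Ls.nilp.cutE S L), ← map_mul, mul_inv_cancel,
          map_one, mul_one]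

/-- The operator induced by `t0`. -/
abbrev LocalSetup.tX : (Module.End S.K (LinearMap.range (Ls.nilp.cutE S L)))ˣ :=
  Ls.nilp.unitT S L (Ls.commute_t0 S L) (Ls.commute_t0_inv S L)

theorem LocalSetup.tX_pow :
    (Ls.tX S L : Module.End S.K (LinearMap.range (Ls.nilp.cutE S L))) ^ e =
      Ls.nilp.phi S L (annMap (Ls.nilp.eK S) (single (⟨t0 ^ e, Ls.tpow⟩ : C) 1)) := by
  rw [(Ls.nilp.unitT_pow S L (Ls.commute_t0 S L) (Ls.commute_t0_inv S L) e).1,
    AbNilp.phi_annMap, actC_single]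

theorem LocalSetup.phi_autAlg (y : Ls.nilp.Alg S) :
    Ls.nilp.phi S L (Ls.nilp.autAlg S Ls.hθ Ls.conjT Ls.mapP Ls.fixE0 Ls.fixθ y) *
        (Ls.tX S L : Module.End S.K (LinearMap.range (Ls.nilp.cutE S L))) =
      (Ls.tX S L : Module.End S.K (LinearMap.range (Ls.nilp.cutE S L))) * Ls.nilp.phi S L y := by
  obtain ⟨a, rfl⟩ := annMap_surjective y
  rw [AbNilp.autAlg_annMap, AbNilp.phi_annMap, AbNilp.phi_annMap]
  show cut _ _ * cut _ (sigG S L t0) = cut _ (sigG S L t0) * cut _ _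
  rw [← cut_mul (Ls.nilp.cutE_mul_self S L) (Ls.commute_t0 S L),
    ← cut_mul (Ls.nilp.cutE_mul_self S L) (Ls.nilp.commute_cutE S L a),
    ← sigG_mul_actC S L C t0 (Ls.norm t0 (Ls.TN Ls.mem_t0))]
  simp only [mul_assoc]
  rw [← map_mul, inv_mul_cancel, map_one, mul_one]

/-- The trace presentation of the projection. -/
theorem LocalSetup.exists_corner [Fintype (C ⧸ (P.map C.subtype).subgroupOf C)] :
    ∃ aV : Matrix (Fin L.N) (Fin L.N) S.V,
      (∀ v ∈ P.map C.subtype, Commute (L.ρ v) aV) ∧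
      CornerData (sigG S L) (P.map C.subtype) C T N (Ls.nilp.cutE S L) (toEnd S L aV) := by
  classical
  have hDC : (P.map C.subtype) ≤ C := Subgroup.map_subtype_le P
  have hDsub : (P.map C.subtype).subgroupOf C = P :=
    Subgroup.comap_map_eq_self_of_injective Subtype.val_injective P
  set eB := redElem M (blockCoeff b) with heB
  have heBK : mapRingHom C S.κ eB = Ls.nilp.eK S := by
    refine MonoidAlgebra.ext (Finsupp.ext fun g => ?_)
    rw [coeff_mapRingHom, heB, coeff_redElem, redC, dif_pos (memLocalRing_blockCoeff Ls.nilp.hB g),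
      S.κ_red, AbNilp.eK, coeff_mapRingHom]
    rfl
  obtain ⟨-, -, -, a0, -, ha0P, ha0⟩ :=
    Ls.nilp.hmax.isDefectIn (isBlockIdem_redElem_blockCoeff Ls.nilp.hB)
  have hsur : Function.Surjective (red M) := IsLocalRing.residue_surjective
  let A0 : MonoidAlgebra S.V C :=
    mapRingHom C S.ιV (ofFun fun g => Function.surjInv hsur (a0.coeff g))
  have hA0red : mapRingHom C S.res A0 = mapRingHom C S.κ a0 := by
    refine MonoidAlgebra.ext (Finsupp.ext fun g => ?_)
    simp only [A0, coeff_mapRingHom, coeff_ofFun]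
    conv_rhs => rw [← Function.surjInv_eq hsur (a0.coeff g), S.κ_red]
  have hA0comm : ∀ v ∈ P, Commute (single v (1 : S.V)) A0 := by
    intro v hv
    refine MonoidAlgebra.ext (Finsupp.ext fun g => ?_)
    rw [coeff_single_mul_apply, coeff_mul_single_apply, one_mul, mul_one]
    simp only [A0, coeff_mapRingHom, coeff_ofFun]
    rw [← mem_fixedBy_coeff.1 ha0P v hv (v⁻¹ * g)]
    congr 3
    group
  set aV := valAlg S (L.ρ.comp C.subtype) A0 with haV
  have hFa : toEnd S L aV = actC S L C (mapRingHom C S.κ a0) := by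
    rw [haV, toEnd_valAlg, hA0red]
  have haVcomm : ∀ v ∈ (P.map C.subtype), Commute (L.ρ v) aV := by
    rintro _ ⟨v, hv, rfl⟩
    have h := (hA0comm v hv).map (valAlg S (L.ρ.comp C.subtype))
    rwa [valAlg_single, one_smul] at h
  have htrace : DefectOne.avg ((sigG S L).comp C.subtype) ((P.map C.subtype).subgroupOf C) (toEnd S L aV) =
      Ls.nilp.cutE S L := by
    let r : C ⧸ (P.map C.subtype).subgroupOf C → (⊤ : Subgroup C) := fun q => ⟨q.out, Subgroup.mem_top _⟩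
    have hr : Function.Bijective
        fun q => (QuotientGroup.mk (r q) : (⊤ : Subgroup C) ⧸ P.subgroupOf ⊤) := by
      refine ⟨fun q q' h => ?_, fun q => ?_⟩
      · rw [← QuotientGroup.out_eq' q, ← QuotientGroup.out_eq' q', QuotientGroup.eq]
        exact hDsub.ge (Subgroup.mem_subgroupOf.1 (QuotientGroup.eq.1 h))
      · obtain ⟨g, rfl⟩ := QuotientGroup.mk_surjective q
        refine ⟨QuotientGroup.mk (g : C), ?_⟩
        rw [QuotientGroup.eq, Subgroup.mem_subgroupOf, Subgroup.coe_mul, Subgroup.coe_inv]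
        have := QuotientGroup.eq.1 (QuotientGroup.out_eq' (QuotientGroup.mk (g : C) :
          C ⧸ (P.map C.subtype).subgroupOf C))
        exact hDsub.le this
    have h1 := congrArg (fun z => actC S L C (mapRingHom C S.κ z)) (relTr_eq_sum ha0P r hr)
    rw [ha0, heBK, map_sum, map_sum] at h1
    rw [AbNilp.cutE, h1, DefectOne.avg, hFa]
    refine Finset.sum_congr rfl fun q _ => ?_
    rw [conjA_eq_mul, map_mul, map_mul, map_mul, map_mul, mapRingHom_single, mapRingHom_single,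
      map_one, actC_single, actC_single, DefectOne.conjAt]
    rfl
  refine ⟨aV, haVcomm, ?_⟩
  exact
    { DC := hDC, CT := Ls.CT, TN := Ls.TN, idem := Ls.nilp.cutE_mul_self S L
      fix := fun x hx => by
        obtain ⟨i, c, hc, rfl⟩ := Ls.decomp x hx
        rw [map_mul]
        exact ((Ls.nilp.unitT_pow S L (Ls.commute_t0 S L) (Ls.commute_t0_inv S L) i).2.mul_right
          (Ls.nilp.commute_cutE_sigG S L ⟨c, hc⟩)).symm
      orth := fun x hxN hxT => by
        have h1 := congrArg (fun z => actK S L (mapRingHom G S.κ z)) (Ls.orth x hxN hxT)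
        simp only [conjA_eq_mul, map_mul, map_zero, mapRingHom_single, map_one,
          mapRingHom_mapG, actK_single] at h1
        rw [heBK] at h1
        exact h1
      ti := Ls.ti
      comm := by rw [hFa]; exact Ls.nilp.commute_cutE S L _
      fixD := fun v hv => (haVcomm v hv).map (toEnd S L)
      trace := htrace }

variable {aE : Module.End S.K (Spc S L)} [Fintype (C ⧸ (P.map C.subtype).subgroupOf C)]
  [Fintype (G ⧸ P.map C.subtype)]
  (hCD : CornerData (sigG S L) (P.map C.subtype) C T N (Ls.nilp.cutE S L) aE)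
  {d : ℕ} (Mdl : PiModel S.K (Ls.nilp.Alg S) (Nat.card P) d)
  (hex : ∀ j ≤ Nat.card P, ∀ x, Mdl.π ^ j * x = 0 → ∃ y, x = Mdl.π ^ (Nat.card P - j) * y)

include hCD hex in
/-- The image of the scalar part of the trace. -/
theorem LocalSetup.cut_eq_of_avg {β : Module.End S.K (Spc S L)}
    (hβ : ∀ x ∈ T, Commute (sigG S L x) β)
    (hβE : Ls.nilp.cutE S L * β * Ls.nilp.cutE S L = β) (c : S.K)
    (Nl : Module.End S.K (Spc S L))
    (havg : DefectOne.avg (sigG S L) (P.map C.subtype) (β * aE) = c • 1 + Nl) :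
    ∃ Pr, IsProj (Ls.nilp.phi S L Mdl.π) Pr (Nat.card P) ∧
      cut (Ls.nilp.cutE S L) β =
        ((e : S.K)⁻¹ * c) • 1 + (e : S.K)⁻¹ • cut (Ls.nilp.cutE S L) Nl + Pr := by
  classical
  have hE := Ls.nilp.cutE_mul_self S L
  have heK := Ls.cast_ne_zero S
  obtain ⟨δ, hδ⟩ := corner_trace hCD hβ hβE
  rw [havg, Ls.index, ← Nat.cast_smul_eq_nsmul S.K] at hδ
  have hproj := Ls.nilp.isProj_trace S (Ls.nilp.phi S L) Mdl hex (cut (Ls.nilp.cutE S L) δ)
  refine ⟨(-(e : S.K)⁻¹) • _, fun j hj v hv => Submodule.smul_mem _ _ (hproj j hj v hv), ?_⟩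
  have h1 := congrArg (cut (Ls.nilp.cutE S L)) hδ
  have h2 : cut (Ls.nilp.cutE S L) ((Ls.nilp.cutE S L) * (c • 1 + Nl) * (Ls.nilp.cutE S L)) = c • 1 + cut (Ls.nilp.cutE S L) Nl := by
    refine LinearMap.ext fun v => Subtype.ext ?_
    rw [coe_cut, Module.End.mul_apply, Module.End.mul_apply, apply_of_mem hE v.2]
    simp only [LinearMap.add_apply, LinearMap.smul_apply, Module.End.one_apply,
      Submodule.coe_add, Submodule.coe_smul, map_add, map_smul, coe_cut]
    rw [← Module.End.mul_apply (Ls.nilp.cutE S L) (Ls.nilp.cutE S L), hE, ← Module.End.mul_apply (Ls.nilp.cutE S L) (Ls.nilp.cutE S L), hE, apply_of_mem hE v.2]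
  have h3 : cut (Ls.nilp.cutE S L) (∑ g : C, sigG S L (g : G) * δ * sigG S L (g : G)⁻¹) =
      ∑ g : C, Ls.nilp.phi S L (annMap (Ls.nilp.eK S) (single g 1)) * cut (Ls.nilp.cutE S L) δ *
        Ls.nilp.phi S L (annMap (Ls.nilp.eK S) (single g⁻¹ 1)) := by
    rw [map_sum]
    refine Finset.sum_congr rfl fun g _ => ?_
    rw [Ls.nilp.phi_annMap, Ls.nilp.phi_annMap, actC_single, actC_single, Subgroup.coe_inv,
      cut_mul hE (by simpa using Ls.nilp.commute_cutE_sigG S L g⁻¹)]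
    congr 1
    refine LinearMap.ext fun v => Subtype.ext ?_
    rw [Module.End.mul_apply, coe_cut_of_commute hE (Ls.nilp.commute_cutE_sigG S L g), coe_cut, coe_cut,
      ← Module.End.mul_apply (Ls.nilp.cutE S L), ← mul_assoc, (Ls.nilp.commute_cutE_sigG S L g).eq]
    rfl
  rw [h2, map_add, map_smul, h3] at h1
  have h4 := congrArg ((e : S.K)⁻¹ • ·) h1
  simp only [smul_add, smul_smul, inv_mul_cancel₀ heK, one_smul] at h4
  rw [h4, add_assoc, ← add_smul, add_neg_cancel, zero_smul, add_zero]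

include hCD hex in
/-- The commutant is local up to maps pushing kernels. -/
theorem LocalSetup.isLocal :
    IsLocalUpToProj Mdl (Ls.nilp.phi S L) (Ls.tX S L) := by
  classical
  intro β hβA hβt
  have hE := Ls.nilp.cutE_mul_self S L
  set β' := ext0 (Ls.nilp.cutE S L) β with hβ'
  have hcC : ∀ g : C, Commute (sigG S L (g : G)) β' := fun g => by
    refine commute_ext0 hE (Ls.nilp.commute_cutE_sigG S L g) ?_
    rw [← actC_single, ← Ls.nilp.phi_annMap]
    exact hβA _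
  have hct : Commute (sigG S L t0) β' := commute_ext0 hE (Ls.commute_t0 S L) hβt
  have hT' : ∀ x ∈ T, Commute (sigG S L x) β' := by
    intro x hx
    obtain ⟨i, c, hc, rfl⟩ := Ls.decomp x hx
    rw [map_mul, map_pow]
    exact (hct.pow_left i).mul_left (hcC ⟨c, hc⟩)
  have havgG := DefectOne.commute_avg (ρ := sigG S L) (K := P.map C.subtype) (f := β' * aE)
    fun v hv => (hT' v (hCD.CT (hCD.DC hv))).mul_right (hCD.fixD v hv)
  obtain ⟨c, hc⟩ := L.isLocal
    ((Matrix.toLinAlgEquiv' (R := S.K) (n := Fin L.N)).symm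
      (DefectOne.avg (sigG S L) (P.map C.subtype) (β' * aE)))
    fun g => by
      have h := (havgG g).symm.map (Matrix.toLinAlgEquiv' (R := S.K) (n := Fin L.N)).symm
      rwa [show sigG S L g = Matrix.toLinAlgEquiv' ((L.ρ g).map S.res) from rfl,
        AlgEquiv.symm_apply_apply] at h
  set Nl := DefectOne.avg (sigG S L) (P.map C.subtype) (β' * aE) - c • 1 with hNldef
  have hnil : IsNilpotent Nl := by
    have h := hc.map (Matrix.toLinAlgEquiv' (R := S.K) (n := Fin L.N))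
    rwa [map_sub, map_smul, map_one, AlgEquiv.apply_symm_apply] at h
  have hNlE : Commute (Ls.nilp.cutE S L) Nl :=
    Commute.sub_right (commute_actK S L havgG _) ((Commute.one_right (Ls.nilp.cutE S L)).smul_right c)
  obtain ⟨Pr, hPr, hβeq⟩ := Ls.cut_eq_of_avg S L hCD Mdl hex hT' (ext0_mul_mul hE β) c Nl
    (by rw [hNldef]; abel)
  rw [hβ', cut_ext0 hE] at hβeq
  refine ⟨_, (e : S.K)⁻¹ • cut (Ls.nilp.cutE S L) Nl, Pr, hβeq, ?_, hPr⟩
  obtain ⟨k, hk⟩ := hnil
  have hpow : ∀ i, cut (Ls.nilp.cutE S L) (Nl ^ i) = cut (Ls.nilp.cutE S L) Nl ^ i := by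
    intro i
    induction i with
    | zero => rw [pow_zero, pow_zero, cut_one hE]
    | succ i ih => rw [pow_succ, pow_succ, cut_mul hE hNlE, ih]
  exact ⟨k, by rw [smul_pow, ← hpow, hk, map_zero, smul_zero]⟩

omit [Fintype (C ⧸ (P.map C.subtype).subgroupOf C)] [Fintype (G ⧸ P.map C.subtype)] in
/-- The sum of the conjugates over the valuation ring, with its reduction. -/
theorem LocalSetup.exists_thetaV :
    ∃ ΘV : Matrix (Fin L.N) (Fin L.N) S.V, (∀ x ∈ T, Commute (L.ρ x) ΘV) ∧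
      toEnd S L ΘV = ∑ i ∈ Finset.range e, actC S L C
        ((mapG Ls.conjT.toMonoidHom)^[i] ((Ls.nilp.zK S Ls.hθ u - Ls.nilp.eK S) ^ e)) := by
  classical
  set uV : MonoidAlgebra S.V C := (mapRingHom C S.ιV (Ls.nilp.zc Ls.hθ u : MonoidAlgebra (locRing M) C) -
    mapRingHom C S.ιV (Ls.nilp.zc Ls.hθ 1 : MonoidAlgebra (locRing M) C)) ^ e with huV
  set WV := valAlg S (L.ρ.comp C.subtype) uV with hWV
  set ΘV := ∑ i ∈ Finset.range e, L.ρ (t0 ^ i) * WV * L.ρ (t0 ^ i)⁻¹ with hΘV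
  have huVclass : ∀ g : C, Commute (single g (1 : S.V)) uV := fun g => by
    refine Commute.pow_right ?_ e
    exact (((Ls.nilp.zc Ls.hθ u).2.map S.ιV).commute _).sub_right (((Ls.nilp.zc Ls.hθ 1).2.map S.ιV).commute _)
  have hWC : ∀ g : C, Commute (L.ρ (g : G)) WV := fun g => by
    have h := (huVclass g).map (valAlg S (L.ρ.comp C.subtype))
    rwa [valAlg_single, one_smul] at h
  have hconjterm : ∀ (i : ℕ) (g : G), g ∈ C →
      Commute (L.ρ g) (L.ρ (t0 ^ i) * WV * L.ρ (t0 ^ i)⁻¹) := by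
    intro i g hg
    have hmem : (t0 ^ i)⁻¹ * g * t0 ^ i ∈ C :=
      (Ls.norm _ (pow_mem (Ls.TN Ls.mem_t0) i) _).2 (by
        rwa [show t0 ^ i * ((t0 ^ i)⁻¹ * g * t0 ^ i) * (t0 ^ i)⁻¹ = g by group])
    have h : L.ρ ((t0 ^ i)⁻¹ * g * t0 ^ i) * WV = WV * L.ρ ((t0 ^ i)⁻¹ * g * t0 ^ i) :=
      (hWC ⟨_, hmem⟩).eq
    calc L.ρ g * (L.ρ (t0 ^ i) * WV * L.ρ (t0 ^ i)⁻¹)
        = L.ρ (t0 ^ i) * (L.ρ ((t0 ^ i)⁻¹ * g * t0 ^ i) * WV) * L.ρ (t0 ^ i)⁻¹ := by
          simp only [← mul_assoc, ← map_mul]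
          congr 3
          group
      _ = L.ρ (t0 ^ i) * (WV * L.ρ ((t0 ^ i)⁻¹ * g * t0 ^ i)) * L.ρ (t0 ^ i)⁻¹ := by rw [h]
      _ = L.ρ (t0 ^ i) * WV * L.ρ (t0 ^ i)⁻¹ * L.ρ g := by
          simp only [mul_assoc, ← map_mul]
          congr 3
          group
  have hΘC : ∀ g ∈ C, Commute (L.ρ g) ΘV := fun g hg =>
    Commute.sum_right _ _ _ fun i _ => hconjterm i g hg
  have hΘt : Commute (L.ρ t0) ΘV := by
    set f : ℕ → Matrix (Fin L.N) (Fin L.N) S.V :=
      fun i => L.ρ (t0 ^ i) * WV * L.ρ (t0 ^ i)⁻¹ with hf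
    have hshift : L.ρ t0 * ΘV * L.ρ t0⁻¹ = ΘV := by
      have h1 : ∀ i, L.ρ t0 * f i * L.ρ t0⁻¹ = f (i + 1) := fun i => by
        simp only [hf, pow_succ', mul_inv_rev, map_mul, mul_assoc]
      have h2 : f e = f 0 := by
        have h3 : L.ρ (t0 ^ e) * WV = WV * L.ρ (t0 ^ e) := (hWC ⟨_, Ls.tpow⟩).eq
        simp only [hf, pow_zero, inv_one, map_one, one_mul, mul_one]
        rw [h3, mul_assoc, ← map_mul, mul_inv_cancel, map_one, mul_one]
      rw [hΘV, Finset.mul_sum, Finset.sum_mul, Finset.sum_congr rfl fun i _ => h1 i]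
      have h4 := Finset.sum_range_succ' f e
      rw [Finset.sum_range_succ, h2] at h4
      exact (add_right_cancel h4).symm
    calc L.ρ t0 * ΘV = L.ρ t0 * ΘV * (L.ρ t0⁻¹ * L.ρ t0) := by
          rw [← map_mul, inv_mul_cancel, map_one, mul_one]
      _ = L.ρ t0 * ΘV * L.ρ t0⁻¹ * L.ρ t0 := by simp only [mul_assoc]
      _ = _ := by rw [hshift]
  have huVred : mapRingHom C S.res uV = (Ls.nilp.zK S Ls.hθ u - Ls.nilp.eK S) ^ e := by
    rw [huV, map_pow, map_sub, ← Ls.nilp.zK_one S Ls.hθ]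
    congr 2 <;>
    · refine MonoidAlgebra.ext (Finsupp.ext fun g => ?_)
      simp only [coeff_mapRingHom, AbNilp.zK]
      rfl
  have hiterC : ∀ (i : ℕ) (a : MonoidAlgebra S.K C),
      sigG S L (t0 ^ i) * actC S L C a * sigG S L (t0 ^ i)⁻¹ =
        actC S L C ((mapG Ls.conjT.toMonoidHom)^[i] a) := by
    intro i
    induction i with
    | zero => intro a; simp
    | succ i ih =>
      intro a
      rw [Function.iterate_succ_apply', ← sigG_mul_actC S L C t0 (Ls.norm t0 (Ls.TN Ls.mem_t0)),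
        ← ih, pow_succ', mul_inv_rev, map_mul, map_mul]
      simp only [mul_assoc]
  refine ⟨ΘV, fun x hx => ?_, ?_⟩
  · obtain ⟨i, c, hc, rfl⟩ := Ls.decomp x hx
    rw [map_mul, map_pow]
    exact (hΘt.pow_left i).mul_left (hΘC c hc)
  · rw [hΘV, map_sum]
    refine Finset.sum_congr rfl fun i _ => ?_
    rw [← hiterC, map_mul, map_mul, hWV, toEnd_valAlg, huVred]
    rfl

include hCD hex in
/-- The congruent element is a scalar up to a map pushing kernels. -/
theorem LocalSetup.exists_scalar {aV : Matrix (Fin L.N) (Fin L.N) S.V}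
    (haV : ∀ v ∈ P.map C.subtype, Commute (L.ρ v) aV) (ha : toEnd S L aV = aE) {y : Ls.nilp.Alg S}
    (hy : ∑ i ∈ Finset.range e,
      (Ls.nilp.autAlg S Ls.hθ Ls.conjT Ls.mapP Ls.fixE0 Ls.fixθ)^[i]
        (Ls.nilp.pi S Ls.hθ u ^ e) =
      (e : S.K) • (Ls.nilp.pi S Ls.hθ u ^ e * (1 + Ls.nilp.pi S Ls.hθ u * y))) :
    ∃ (s : S.K) (Pr : _), IsProj (Ls.nilp.phi S L Mdl.π) Pr (Nat.card P) ∧
      Ls.nilp.phi S L (Ls.nilp.pi S Ls.hθ u ^ e * (1 + Ls.nilp.pi S Ls.hθ u * y)) =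
        s • 1 + Pr := by
  classical
  set σc := Ls.conjT
  obtain ⟨ΘV, hΘ, hΘr⟩ := Ls.exists_thetaV S L
  set w := (Ls.nilp.zK S Ls.hθ u - Ls.nilp.eK S) ^ e with hw
  set β := toEnd S L ΘV with hβdef
  have hwA : annMap (Ls.nilp.eK S) w = Ls.nilp.pi S Ls.hθ u ^ e := by
    rw [hw, map_pow, AbNilp.pi, map_sub]
    congr 2
    rw [← map_one (annMap (Ls.nilp.eK S)), annMap_eq_iff, Ls.nilp.eK_mul_self, one_mul]
  have heKw : Ls.nilp.eK S * w = w := by
    obtain ⟨k, hk⟩ : ∃ k, e = k + 1 := ⟨e - 1, by have := Ls.e_pos; omega⟩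
    have hwe : w = (Ls.nilp.zK S Ls.hθ u - Ls.nilp.eK S) ^ (k + 1) := by
      rw [hw]; exact congrArg _ hk
    rw [hwe, pow_succ', ← mul_assoc, mul_sub, Ls.nilp.eK_zK, Ls.nilp.eK_mul_self]
  have hfixiter : ∀ i, (mapG σc.toMonoidHom)^[i] (Ls.nilp.eK S) = Ls.nilp.eK S := fun i =>
    Function.iterate_fixed (Ls.nilp.mapG_eK S Ls.hθ σc Ls.mapP Ls.fixE0 Ls.fixθ) i
  have hiterEw : ∀ i, Ls.nilp.eK S * (mapG σc.toMonoidHom)^[i] w = (mapG σc.toMonoidHom)^[i] w := by
    intro i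
    conv_lhs => rw [← hfixiter i, ← iterate_map_mul, heKw]
  have hβE : (Ls.nilp.cutE S L) * β * (Ls.nilp.cutE S L) = β := by
    rw [hΘr, Finset.mul_sum, Finset.sum_mul]
    refine Finset.sum_congr rfl fun i _ => ?_
    rw [AbNilp.cutE, ← map_mul, hiterEw, ← map_mul,
      ((Ls.nilp.isClassElem_eK S).commute _).eq, hiterEw]
  have hβT : ∀ x ∈ T, Commute (sigG S L x) β := fun x hx => (hΘ x hx).map (toEnd S L)
  obtain ⟨cV, hcV⟩ := L.scalar (DefectOne.avg L.ρ (P.map C.subtype) (ΘV * aV)) fun g =>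
    (DefectOne.commute_avg
      (fun v hv => (hΘ v (hCD.CT (hCD.DC hv))).mul_right (haV v hv)) g).symm
  have havgβ : DefectOne.avg (sigG S L) (P.map C.subtype) (β * aE) = S.res cV • 1 + 0 := by
    rw [add_zero, hβdef, ← ha, ← map_mul]
    have h1 : DefectOne.avg (sigG S L) (P.map C.subtype) (toEnd S L (ΘV * aV)) =
        toEnd S L (DefectOne.avg L.ρ (P.map C.subtype) (ΘV * aV)) := by
      simp only [DefectOne.avg, DefectOne.conjAt, map_sum, map_mul]
      rfl
    rw [h1, hcV]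
    show Matrix.toLinAlgEquiv' ((cV • (1 : Matrix (Fin L.N) (Fin L.N) S.V)).map S.res) = _
    rw [show (cV • (1 : Matrix (Fin L.N) (Fin L.N) S.V)).map S.res =
      S.res cV • (1 : Matrix (Fin L.N) (Fin L.N) S.K) by
        ext i j; rcases eq_or_ne i j with h | h <;> simp [h],
      map_smul, map_one]
  obtain ⟨Pr, hPr, hΘeq⟩ := Ls.cut_eq_of_avg S L hCD Mdl hex hβT hβE _ 0 havgβ
  have hΘφ : cut (Ls.nilp.cutE S L) β = (e : S.K) • Ls.nilp.phi S L (Ls.nilp.pi S Ls.hθ u ^ e * (1 + Ls.nilp.pi S Ls.hθ u * y)) := by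
    rw [← map_smul, ← hy, map_sum, hΘr, map_sum]
    refine Finset.sum_congr rfl fun i _ => ?_
    rw [← hwA, Ls.nilp.autAlg_iterate_annMap, Ls.nilp.phi_annMap]
  rw [map_zero, smul_zero, add_zero, hΘφ] at hΘeq
  refine ⟨(e : S.K)⁻¹ * ((e : S.K)⁻¹ * S.res cV), (e : S.K)⁻¹ • Pr,
    fun j hj v hv => Submodule.smul_mem _ _ (hPr j hj v hv), ?_⟩
  have := congrArg ((e : S.K)⁻¹ • ·) hΘeq
  simpa [smul_smul, inv_mul_cancel₀ (Ls.cast_ne_zero S)] using this

omit [Fintype (C ⧸ (P.map C.subtype).subgroupOf C)] [Fintype (G ⧸ P.map C.subtype)]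

section Counting

variable [Fintype P] [Fintype (P →* ℂˣ)] [Fintype (IrrCharacter C)]
  {n : ℕ} {ρθ : C →* Matrix (Fin n) (Fin n) S.V}
  (htr : ∀ g, (((ρθ g).trace : S.V) : ℂ) = (θ : C → ℂ) g)

include htr in
theorem LocalSetup.rank_cAlg (s : Finset (P →* ℂˣ)) :
    (finrank ℂ (LinearMap.range
      (cAlg S L C (blockIdem (Ls.nilp.th Ls.hθ '' (s : Set (P →* ℂˣ))))).mulVecLin) : ℤ) =
      n * ∑ l ∈ s, subMult C χ (Ls.nilp.th Ls.hθ l) := by
  classical
  have h := finrank_cAlg_blockIdem S L C (Ls.nilp.th Ls.hθ '' (s : Set (P →* ℂˣ)))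
  rw [← Finset.sum_filter,
    show (Finset.univ.filter fun ξ => ξ ∈ Ls.nilp.th Ls.hθ '' (s : Set (P →* ℂˣ))) =
      s.image (Ls.nilp.th Ls.hθ) by ext; simp,
    Finset.sum_image fun x _ y _ h => Ls.nilp.th_injective Ls.hθ h] at h
  simp only [Ls.nilp.th_deg, degree_eq S ρθ htr] at h
  rw [← Finset.sum_mul, mul_comm] at h
  exact_mod_cast h

theorem LocalSetup.rank_phi {a : MonoidAlgebra S.K C} (ha : a * Ls.nilp.eK S = a) :
    finrank S.K (LinearMap.range (Ls.nilp.phi S L (annMap (Ls.nilp.eK S) a))) =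
      finrank S.K (LinearMap.range (redAlg S (L.ρ.comp C.subtype) a).mulVecLin) := by
  rw [AbNilp.phi_annMap, finrank_range_cut (Ls.nilp.cutE_mul_self S L)
    (Ls.nilp.commute_cutE S L a) (by rw [AbNilp.cutE, ← map_mul, ha]), actC_eq_toLin]
  rfl

include htr in
theorem LocalSetup.finrank_cutE :
    (finrank S.K (LinearMap.range (Ls.nilp.cutE S L)) : ℤ) =
      n * ∑ l, subMult C χ (Ls.nilp.th Ls.hθ l) := by
  classical
  have hbU : Ls.nilp.th Ls.hθ '' ((Finset.univ : Finset (P →* ℂˣ)) : Set (P →* ℂˣ)) = b := by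
    rw [Finset.coe_univ, Set.image_univ, Ls.nilp.image_th]
  rw [← Ls.rank_cAlg S L htr, hbU]
  set W := valAlg S (L.ρ.comp C.subtype) (mapRingHom C S.ιV
    (idemLoc M b (memLocalRing_blockCoeff Ls.nilp.hB) : MonoidAlgebra (locRing M) C)) with hW
  have hWW : W * W = W := by
    rw [hW, ← map_mul, ← map_mul]
    exact congrArg _ (congrArg _
      (congrArg Subtype.val (idemLoc_mul_self (memLocalRing_blockCoeff Ls.nilp.hB))))
  obtain ⟨r', hr'⟩ := BrauerCharacters.exists_rank_of_idempotent hWW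
  have h1 := (hr' S.K S.res).1
  have h2 := (hr' ℂ S.V.subtype).1
  rw [valAlg_map_subtype] at h2
  rw [map_valAlg] at h1
  have h3 : mapRingHom C S.V.subtype (mapRingHom C S.ιV
      (idemLoc M b (memLocalRing_blockCoeff Ls.nilp.hB) : MonoidAlgebra (locRing M) C)) =
      blockIdem b := by
    refine MonoidAlgebra.ext (Finsupp.ext fun g => ?_)
    rw [coeff_mapRingHom, coeff_mapRingHom]
    rfl
  have h4 : mapRingHom C S.res (mapRingHom C S.ιV
      (idemLoc M b (memLocalRing_blockCoeff Ls.nilp.hB) : MonoidAlgebra (locRing M) C)) = Ls.nilp.eK S := by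
    refine MonoidAlgebra.ext (Finsupp.ext fun g => ?_)
    simp only [AbNilp.eK, coeff_mapRingHom]
    rfl
  rw [h3] at h2
  rw [h4] at h1
  rw [h2, ← h1]
  congr 1
  rw [AbNilp.cutE, actC_eq_toLin]
  rfl

omit [Fintype P] [Fintype (P →* ℂˣ)] [Fintype (IrrCharacter C)] in
include Ls in
theorem LocalSetup.res_hom_eq_one (l : P →* ℂˣ) (v : P) :
    ∃ h : (l v : ℂ) ∈ S.V, S.res ⟨_, h⟩ = 1 := by
  have hp' := (Fact.out : p.Prime)
  haveI : CharP S.K p := S.charP Ls.nilp.hM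
  obtain ⟨k, hk⟩ := IsPGroup.iff_card.1 Ls.nilp.hmax.1.1.1
  have hp : (l v : ℂ) ^ p ^ k = 1 := by
    rw [← hk, ← Units.val_pow_eq_pow_val, ← map_pow, pow_card_eq_one', map_one, Units.val_one]
  have hint : (l v : ℂ) ∈ S.V := S.le _ (memLocalRing_of_isIntegral
    (IsIntegral.of_pow (pow_pos hp'.pos k) (hp ▸ isIntegral_one)))
  refine ⟨hint, ?_⟩
  have h1 : S.res ⟨_, hint⟩ ^ p ^ k = 1 := by
    rw [← map_pow, show (⟨_, hint⟩ : S.V) ^ p ^ k = 1 from Subtype.ext hp, map_one]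
  have h2 : (S.res ⟨_, hint⟩ - 1) ^ p ^ k = 0 := by rw [sub_pow_char_pow, h1, one_pow, sub_self]
  exact sub_eq_zero.1 ((pow_eq_zero_iff (pow_pos hp'.pos k).ne').1 h2)

theorem LocalSetup.zc_subtype (v : P) :
    mapRingHom C S.V.subtype (mapRingHom C S.ιV
      (Ls.nilp.zc Ls.hθ v : MonoidAlgebra (locRing M) C)) =
      ∑ m : P →* ℂˣ, (m v : ℂ) • blockIdem {Ls.nilp.th Ls.hθ m} := by
  classical
  refine Eq.trans ?_ ((Ls.nilp.map_zc Ls.hθ v).trans
    (Finset.sum_congr (by ext; simp) fun _ _ => rfl))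
  refine MonoidAlgebra.ext (Finsupp.ext fun g => ?_)
  rw [coeff_mapRingHom, coeff_mapRingHom, coeff_mapRingHom]
  rfl

omit [Fintype P] [Fintype (P →* ℂˣ)] [Fintype (IrrCharacter C)] in
theorem LocalSetup.zc_res (v : P) :
    mapRingHom C S.res (mapRingHom C S.ιV
      (Ls.nilp.zc Ls.hθ v : MonoidAlgebra (locRing M) C)) = Ls.nilp.zK S Ls.hθ v := by
  refine MonoidAlgebra.ext (Finsupp.ext fun g => ?_)
  simp only [coeff_mapRingHom, AbNilp.zK]
  rfl

omit [Fintype P] [Fintype (P →* ℂˣ)] [Fintype (IrrCharacter C)] in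
theorem LocalSetup.scalar_smul_subtype (x : S.V) (z : MonoidAlgebra S.V C) :
    mapRingHom C S.V.subtype (x • z) = (x : ℂ) • mapRingHom C S.V.subtype z := by
  refine MonoidAlgebra.ext (Finsupp.ext fun g => ?_)
  simp

omit [Fintype P] [Fintype (P →* ℂˣ)] [Fintype (IrrCharacter C)] in
theorem LocalSetup.scalar_smul_res (x : S.V) (hx : S.res x = 1) (z : MonoidAlgebra S.V C) :
    mapRingHom C S.res (x • z) = mapRingHom C S.res z := by
  refine MonoidAlgebra.ext (Finsupp.ext fun g => ?_)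
  simp [hx]

include htr in
/-- The rank of the top power is at most the degree times each multiplicity. -/
theorem LocalSetup.top_le (l : P →* ℂˣ) :
    (finrank S.K (LinearMap.range
      (Ls.nilp.phi S L (Ls.nilp.pi S Ls.hθ u ^ (Nat.card P - 1)))) : ℤ) ≤
      n * subMult C χ (Ls.nilp.th Ls.hθ l) := by
  classical
  choose lv hlv using Ls.res_hom_eq_one S
  set Z : MonoidAlgebra S.V C := ∑ v : P, (⟨_, lv l v⁻¹⟩ : S.V) •
    mapRingHom C S.ιV (Ls.nilp.zc Ls.hθ v : MonoidAlgebra (locRing M) C) with hZ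
  have hZC : mapRingHom C S.V.subtype Z = (Nat.card P : ℂ) • blockIdem {Ls.nilp.th Ls.hθ l} := by
    rw [hZ, map_sum]
    calc ∑ v : P, mapRingHom C S.V.subtype ((⟨_, lv l v⁻¹⟩ : S.V) •
          mapRingHom C S.ιV (Ls.nilp.zc Ls.hθ v : MonoidAlgebra (locRing M) C))
        = ∑ v : P, ∑ m : P →* ℂˣ, ((l v⁻¹ : ℂ) * m v) • blockIdem {Ls.nilp.th Ls.hθ m} := by
          refine Finset.sum_congr rfl fun v _ => ?_
          rw [LocalSetup.scalar_smul_subtype, Ls.zc_subtype S, Finset.smul_sum]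
          exact Finset.sum_congr rfl fun m _ => smul_smul _ _ _
      _ = _ := by
          rw [Finset.sum_comm, Finset.sum_eq_single l]
          · rw [← Finset.sum_smul]
            congr 1
            simp [← Units.val_mul, ← map_mul, Nat.card_eq_fintype_card]
          · intro m _ hm
            rw [← Finset.sum_smul]
            have h0 : ∑ v : P, (l v⁻¹ : ℂ) * (m v : ℂ) = 0 := by
              have h5 : ∀ v : P, (l v⁻¹ : ℂ) * (m v : ℂ) = ((m / l) v : ℂ) := fun v => by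
                rw [MonoidHom.div_apply, map_inv, div_eq_inv_mul, Units.val_mul]
              simp only [h5]
              obtain ⟨v0, hv0⟩ : ∃ v, (m / l) v ≠ 1 := by
                by_contra hcon
                push Not at hcon
                exact hm (div_eq_one.1 (MonoidHom.ext hcon))
              have hs : ∑ v : P, ((m / l) v : ℂ) =
                  ((m / l) v0 : ℂ) * ∑ v : P, ((m / l) v : ℂ) := by
                rw [Finset.mul_sum]
                refine (Fintype.sum_equiv (Equiv.mulLeft v0) _ _ fun v => ?_).symm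
                rw [← Units.val_mul, ← map_mul]
                rfl
              by_contra hne
              exact hv0 (Units.ext ((mul_left_eq_self₀.1 hs.symm).resolve_right hne))
            rw [h0, zero_smul]
          · exact fun h => absurd (Finset.mem_univ _) h
  have hZred : mapRingHom C S.res Z = ∑ v : P, Ls.nilp.zK S Ls.hθ v := by
    rw [hZ, map_sum]
    refine Finset.sum_congr rfl fun v _ => ?_
    rw [LocalSetup.scalar_smul_res S _ (hlv l v⁻¹), Ls.zc_res S]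
  have h1 := finrank_redAlg_le S L C (z := Z) (Ls.nilp.th Ls.hθ '' (({l} : Finset (P →* ℂˣ)) : Set _)) (by
    rw [hZC, Finset.coe_singleton, Set.image_singleton, smul_mul_assoc, blockIdem_mul_self])
  have h2 := Ls.rank_cAlg S L htr {l}
  rw [Finset.sum_singleton] at h2
  have hsum_eK : (∑ v : P, Ls.nilp.zK S Ls.hθ v) * Ls.nilp.eK S = ∑ v : P, Ls.nilp.zK S Ls.hθ v := by
    rw [Finset.sum_mul]
    exact Finset.sum_congr rfl fun v _ => by rw [(Ls.nilp.commute_zK S Ls.hθ v _).eq, Ls.nilp.eK_zK]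
  rw [hZred, ← Ls.rank_phi S L hsum_eK, ← Ls.nilp.pi_pow_pred S Ls.hθ Ls.gen] at h1
  rw [← h2]
  exact_mod_cast h1

include htr in
/-- The rank of the generator is at most the degree times the other multiplicities. -/
theorem LocalSetup.pi_le (l : P →* ℂˣ) :
    (finrank S.K (LinearMap.range (Ls.nilp.phi S L (Ls.nilp.pi S Ls.hθ u))) : ℤ) +
      n * subMult C χ (Ls.nilp.th Ls.hθ l) ≤
      n * ∑ m, subMult C χ (Ls.nilp.th Ls.hθ m) := by
  classical
  choose lv hlv using Ls.res_hom_eq_one S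
  set Z : MonoidAlgebra S.V C := mapRingHom C S.ιV (Ls.nilp.zc Ls.hθ u : MonoidAlgebra (locRing M) C) -
    (⟨_, lv l u⟩ : S.V) • mapRingHom C S.ιV (Ls.nilp.zc Ls.hθ 1 : MonoidAlgebra (locRing M) C) with hZ
  have hZC : mapRingHom C S.V.subtype Z =
      ∑ m ∈ Finset.univ.erase l, ((m u : ℂ) - l u) • blockIdem {Ls.nilp.th Ls.hθ m} := by
    rw [Finset.sum_erase _ (by simp), hZ, map_sub, LocalSetup.scalar_smul_subtype,
      Ls.zc_subtype S, Ls.zc_subtype S, Finset.smul_sum, ← Finset.sum_sub_distrib]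
    refine Finset.sum_congr rfl fun m _ => ?_
    rw [map_one, Units.val_one, one_smul, sub_smul]
  have hZred : mapRingHom C S.res Z = Ls.nilp.zK S Ls.hθ u - Ls.nilp.eK S := by
    rw [hZ, map_sub, LocalSetup.scalar_smul_res S _ (hlv l u), Ls.zc_res S, Ls.zc_res S,
      Ls.nilp.zK_one S Ls.hθ]
  have h1 := finrank_redAlg_le S L C (z := Z)
    (Ls.nilp.th Ls.hθ '' ((Finset.univ.erase l : Finset (P →* ℂˣ)) : Set _)) (by
      rw [hZC, Finset.sum_mul]
      refine Finset.sum_congr rfl fun m hm => ?_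
      rw [smul_mul_assoc, blockIdem_mul_of_subset]
      exact Set.singleton_subset_iff.2 ⟨m, hm, rfl⟩)
  have h2 := Ls.rank_cAlg S L htr (Finset.univ.erase l)
  have hsplit := Finset.add_sum_erase Finset.univ (fun m => subMult C χ (Ls.nilp.th Ls.hθ m))
    (Finset.mem_univ l)
  have hue : (Ls.nilp.zK S Ls.hθ u - Ls.nilp.eK S) * Ls.nilp.eK S = Ls.nilp.zK S Ls.hθ u - Ls.nilp.eK S := by
    rw [sub_mul, (Ls.nilp.commute_zK S Ls.hθ u _).eq, Ls.nilp.eK_zK, Ls.nilp.eK_mul_self]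
  have hπu : annMap (Ls.nilp.eK S) (Ls.nilp.zK S Ls.hθ u - Ls.nilp.eK S) = Ls.nilp.pi S Ls.hθ u := by
    rw [AbNilp.pi, map_sub]
    congr 1
    rw [← map_one (annMap (Ls.nilp.eK S)), annMap_eq_iff, Ls.nilp.eK_mul_self, one_mul]
  rw [hZred, ← Ls.rank_phi S L hue, hπu] at h1
  rw [← hsplit, mul_add, add_comm ((n : ℤ) * _), ← h2]
  exact add_le_add_left (by exact_mod_cast h1) _

end Counting

/-- The multiplicities take two adjacent values, the larger one near one of the two ends. -/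
theorem LocalSetup.exists_mult (χ : IrrCharacter G) :
    ∃ z r : ℕ, r < Nat.card P ∧ (r ≤ e ∨ Nat.card P ≤ r + e) ∧
      ∑ᶠ l : P →* ℂˣ, subMult C χ (Ls.nilp.th Ls.hθ l) = (Nat.card P : ℤ) * z + r ∧
      ∀ l : P →* ℂˣ, (z : ℤ) ≤ subMult C χ (Ls.nilp.th Ls.hθ l) ∧
        subMult C χ (Ls.nilp.th Ls.hθ l) ≤ z + 1 ∧
        (r = 0 → subMult C χ (Ls.nilp.th Ls.hθ l) = z) := by
  classical
  obtain ⟨S⟩ := exists_above (M := M)
  obtain ⟨L⟩ := exists_localRep S χ
  obtain ⟨Lθ⟩ := exists_localRep S θ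
  haveI : Fintype P := Fintype.ofFinite _
  haveI := Fintype.ofFinite (IrrCharacter C)
  haveI : Fintype (P →* ℂˣ) := Fintype.ofFinite _
  haveI : Fintype (C ⧸ (P.map C.subtype).subgroupOf C) := Fintype.ofFinite _
  haveI : Fintype (G ⧸ P.map C.subtype) := Fintype.ofFinite _
  rw [finsum_eq_sum_of_fintype]
  obtain ⟨aV, haV, hCD⟩ := Ls.exists_corner S L
  obtain ⟨Mdl, hMπ, hker, hex⟩ := Ls.nilp.exists_model S Ls.hθ Lθ.ρ Lθ.trace_eq Lθ.scalar Ls.gen
  obtain ⟨τ, hTw⟩ := Ls.nilp.exists_twist S Ls.hθ Ls.conjT Ls.mapP Ls.fixE0 Ls.fixθ (Ls.nilp.phi S L)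
    (Ls.tX S L) Ls.gen (Ls.tX_pow S L) Lθ.trace_eq (Ls.phi_autAlg S L) Mdl hMπ hker
  have hloc := Ls.isLocal S L hCD Mdl hex
  obtain ⟨y, hy⟩ := Ls.nilp.exists_theta S Ls.hθ Ls.conjT Ls.mapP Ls.fixE0 Ls.fixθ Ls.gen Ls.e_pos
    (Ls.cast_ne_zero S) Ls.conjT_iterate Lθ.trace_eq Lθ.scalar
  obtain ⟨s, Pr, hPr, hs⟩ := Ls.exists_scalar S L hCD Mdl hex haV rfl hy
  rw [← hMπ] at hs
  obtain ⟨z, r, hrN, hr, hdim, htop, hlow⟩ := exists_pattern (t := Ls.tX S L) (τ := τ) (e := e)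
    Mdl (Ls.nilp.phi S L) hTw (Ls.cast_ne_zero S) hloc rfl Ls.e_pos hPr hs Nat.card_pos
  have hnpos : (0 : ℤ) < (Lθ.N : ℤ) := by
    exact_mod_cast Ls.nilp.degree_pos S Lθ.ρ Lθ.trace_eq
  have hd1 := Ls.finrank_cutE S L Lθ.trace_eq
  rw [hdim] at hd1
  push_cast at hd1
  have hd2 : ∑ l, subMult C χ (Ls.nilp.th Ls.hθ l) = (Nat.card P : ℤ) * z + r :=
    (mul_left_cancel₀ hnpos.ne' hd1).symm
  refine ⟨z, r, hrN, hr, hd2, fun l => ?_⟩
  have h1 := Ls.top_le S L Lθ.trace_eq l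
  rw [← hMπ, map_pow, htop] at h1
  push_cast at h1
  have hz : (z : ℤ) ≤ subMult C χ (Ls.nilp.th Ls.hθ l) := le_of_mul_le_mul_left h1 hnpos
  have h2 := Ls.pi_le S L Lθ.trace_eq l
  rw [hd2, ← hMπ] at h2
  have h3 : (finrank S.K (LinearMap.range (Ls.nilp.phi S L Mdl.π)) : ℤ) +
      Lθ.N * (if r = 0 then (z : ℤ) else (z : ℤ) + 1) =
      Lθ.N * ((Nat.card P : ℤ) * z + r) := by
    have := congrArg (Nat.cast : ℕ → ℤ) (hlow.trans hdim)
    push_cast at this
    exact this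
  have h4 : subMult C χ (Ls.nilp.th Ls.hθ l) ≤ (if r = 0 then (z : ℤ) else (z : ℤ) + 1) :=
    le_of_mul_le_mul_left (by linarith) hnpos
  refine ⟨hz, h4.trans (by split_ifs <;> omega), fun h0 => le_antisymm ?_ hz⟩
  rwa [if_pos h0] at h4

end CfsgLib.Jordan.CyclicDefect
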