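import Cfsg.Agent.Lib.Jordan.CyclicDefect.Irreducible
import Cfsg.Agent.Lib.BrauerPairs.Sect

/-!
# Ranks under reduction

The rank of the reduction of a matrix over the valuation ring is at most its rank over `ℂ`; for an
element cut out by a set of characters of a subgroup the rank on the restriction of a character is
at most the sum of the multiplicities times the degrees.
-/

set_option autoImplicit false
set_option linter.style.haveILetI false
set_option linter.unusedSectionVars false

noncomputable section

namespace CfsgLib.Jordan.CyclicDefect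

open Cfsg CfsgLib.Blocks MonoidAlgebra Module
open scoped Matrix

/-- The rank can only drop under a specialisation. -/
theorem rank_map_le {R K L : Type*} [CommRing R] [Field K] [Field L] {d : Type*} [Fintype d]
    [DecidableEq d] (f : R →+* K) (hf : Function.Surjective f) (g : R →+* L)
    (hg : Function.Injective g) (W : Matrix d d R) :
    finrank K (LinearMap.range (W.map f).mulVecLin) ≤
      finrank L (LinearMap.range (W.map g).mulVecLin) := by
  classical
  set φ := (W.map f).mulVecLin with hφ
  set r := finrank K (LinearMap.range φ) with hr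
  let bas : Basis (Fin r) K (LinearMap.range φ) := Module.finBasis K _
  choose v hv using fun i => (bas i).2
  let B0 : (Fin r → K) →ₗ[K] (d → K) := (Pi.basisFun K (Fin r)).constr K v
  have hcomp : φ.comp B0 = (LinearMap.range φ).subtype.comp bas.equivFun.symm.toLinearMap := by
    refine (Pi.basisFun K (Fin r)).ext fun i => ?_
    rw [LinearMap.comp_apply, Basis.constr_basis, hv, LinearMap.comp_apply, Pi.basisFun_apply]
    simp [Basis.equivFun_symm_apply, Pi.single_apply, ite_smul]
  obtain ⟨A0, hA0⟩ := LinearMap.exists_leftInverse_of_injective (φ.comp B0)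
    (LinearMap.ker_eq_bot.2 (by
      rw [hcomp]
      exact (LinearMap.range φ).injective_subtype.comp bas.equivFun.symm.injective))
  obtain ⟨Am, hAm⟩ : ∃ Am : Matrix (Fin r) d R, Am.map f = LinearMap.toMatrix' A0 :=
    ⟨fun i j => Function.surjInv hf (LinearMap.toMatrix' A0 i j),
      Matrix.ext fun i j => Function.surjInv_eq hf _⟩
  obtain ⟨Bm, hBm⟩ : ∃ Bm : Matrix d (Fin r) R, Bm.map f = LinearMap.toMatrix' B0 :=
    ⟨fun i j => Function.surjInv hf (LinearMap.toMatrix' B0 i j),
      Matrix.ext fun i j => Function.surjInv_eq hf _⟩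
  have h1 : (Am * W * Bm).map f = 1 := by
    rw [Matrix.map_mul, Matrix.map_mul, hAm, hBm, ← LinearMap.toMatrix'_id, ← hA0,
      LinearMap.toMatrix'_comp, LinearMap.toMatrix'_comp, ← Matrix.mul_assoc]
    congr 2
    exact (LinearMap.toMatrix'_toLin' _).symm
  have h2 : IsUnit ((Am * W * Bm).map g) := by
    rw [Matrix.isUnit_iff_isUnit_det, isUnit_iff_ne_zero,
      show (Am * W * Bm).map g = g.mapMatrix (Am * W * Bm) from rfl, ← RingHom.map_det]
    intro h0
    have h3 := congrArg Matrix.det h1
    rw [show (Am * W * Bm).map f = f.mapMatrix (Am * W * Bm) from rfl, ← RingHom.map_det,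
      Matrix.det_one, (map_eq_zero_iff g hg).1 h0, map_zero] at h3
    exact zero_ne_one h3
  have h3 := Matrix.rank_of_isUnit _ h2
  rw [Fintype.card_fin, Matrix.map_mul, Matrix.map_mul] at h3
  show r ≤ _
  rw [← h3]
  exact (Matrix.rank_mul_le_left _ _).trans (Matrix.rank_mul_le_right _ _)

variable {G : Type*} [Group G] [Fintype G] {M : Ideal AlgInt} [M.IsPrime] (S : Above M)
  {χ : IrrCharacter G} (L : LocalRep S χ) (C : Subgroup G) [Fintype C]

/-- The restriction over `ℂ`, on the group algebra. -/
def cAlg : MonoidAlgebra ℂ C →ₐ[ℂ] Matrix (Fin L.N) (Fin L.N) ℂ :=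
  MonoidAlgebra.lift ℂ (Matrix (Fin L.N) (Fin L.N) ℂ) C
    (S.V.subtype.mapMatrix.toMonoidHom.comp (L.ρ.comp C.subtype))

theorem trace_cAlg (z : MonoidAlgebra ℂ C) :
    (cAlg S L C z).trace = ∑ g : C, z.coeff g * (χ : G → ℂ) g := by
  classical
  induction z using MonoidAlgebra.induction_linear with
  | zero => simp
  | add x y hx hy =>
    rw [map_add, Matrix.trace_add, hx, hy, ← Finset.sum_add_distrib]
    exact Finset.sum_congr rfl fun g _ => by simp; ring
  | single g c =>
    rw [cAlg, MonoidAlgebra.lift_single, Matrix.trace_smul]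
    have h : (((L.ρ g).map S.V.subtype).trace : ℂ) = (χ : G → ℂ) g := by
      rw [← L.trace_eq]; simp [Matrix.trace]
    simp [Finsupp.single_apply, ite_mul]
    exact Or.inl h

theorem valAlg_map_subtype (z : MonoidAlgebra S.V C) :
    (valAlg S (L.ρ.comp C.subtype) z).map S.V.subtype =
      cAlg S L C (mapRingHom C S.V.subtype z) := by
  induction z using MonoidAlgebra.induction_linear with
  | zero => simp
  | add x y hx hy =>
    rw [map_add, map_add, map_add, ← hx, ← hy]
    exact Matrix.map_add _ (map_add S.V.subtype) _ _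
  | single g c =>
    rw [valAlg_single, mapRingHom_single, cAlg, MonoidAlgebra.lift_single]
    ext i j
    simp

open Classical in
/-- The trace of a block idempotent of a subgroup on a restriction. -/
theorem sum_blockCoeff_res (U : Set (IrrCharacter C)) [Fintype (IrrCharacter C)] :
    ∑ g : C, blockCoeff U g * (χ : G → ℂ) g =
      ∑ ξ : IrrCharacter C, if ξ ∈ U then
        (BrauerPairs.subMult C χ ξ : ℂ) * (ξ : C → ℂ) 1 else 0 := by
  have h1 : ∀ g : C, (χ : G → ℂ) g =
      ∑ ξ : IrrCharacter C, (BrauerPairs.subMult C χ ξ : ℂ) * (ξ : C → ℂ) g := fun g => by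
    rw [← BrauerPairs.subFun_univ C χ g, BrauerPairs.subFun]
    exact Finset.sum_congr (by ext; simp) fun _ _ => rfl
  simp only [h1, Finset.mul_sum]
  rw [Finset.sum_comm]
  refine Finset.sum_congr rfl fun ξ _ => ?_
  have h2 := BrauerCharacters.sum_blockCoeff_mul_apply U ξ 1
  simp only [mul_one] at h2
  rw [Finset.sum_congr rfl fun g _ => mul_left_comm _ _ _, ← Finset.mul_sum, h2, mul_ite,
    mul_zero]

open Classical in
/-- The rank of a block idempotent of a subgroup on a restriction. -/
theorem finrank_cAlg_blockIdem (U : Set (IrrCharacter C)) [Fintype (IrrCharacter C)] :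
    (finrank ℂ (LinearMap.range (cAlg S L C (blockIdem U)).mulVecLin) : ℂ) =
      ∑ ξ : IrrCharacter C, if ξ ∈ U then
        (BrauerPairs.subMult C χ ξ : ℂ) * (ξ : C → ℂ) 1 else 0 := by
  set E := cAlg S L C (blockIdem U)
  have hE : E * E = E := by rw [← map_mul, blockIdem_mul_self]
  obtain ⟨r, hr⟩ := BrauerCharacters.exists_rank_of_idempotent hE
  obtain ⟨hr1, hr2⟩ := hr ℂ (RingHom.id ℂ)
  rw [show E.map (RingHom.id ℂ) = E from Matrix.ext fun _ _ => rfl] at hr1 hr2
  rw [hr1, ← hr2, trace_cAlg, ← sum_blockCoeff_res C U]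
  rfl

/-- An element cut out by a block idempotent has at most its rank after reduction. -/
theorem finrank_redAlg_le {z : MonoidAlgebra S.V C} (U : Set (IrrCharacter C))
    (hz : mapRingHom C S.V.subtype z * blockIdem U = mapRingHom C S.V.subtype z) :
    finrank S.K (LinearMap.range
        (redAlg S (L.ρ.comp C.subtype) (mapRingHom C S.res z)).mulVecLin) ≤
      finrank ℂ (LinearMap.range (cAlg S L C (blockIdem U)).mulVecLin) := by
  rw [← map_valAlg]
  refine (rank_map_le S.res IsLocalRing.residue_surjective S.V.subtype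
    Subtype.val_injective _).trans ?_
  rw [valAlg_map_subtype, ← hz, map_mul]
  exact Matrix.rank_mul_le_right _ _

end CfsgLib.Jordan.CyclicDefect
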