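import Cfsg.Agent.Lib.Jordan.CyclicDefect.Orbits

/-!
# The rows of a block with cyclic defect group

The value of a character at a singular element is the value of the base member of the local block
scaled by a function on the defect group, the Fourier transform of the multiplicities of the twists
in the restriction, which have one of three shapes.
-/

set_option autoImplicit false
set_option linter.style.haveILetI false
set_option linter.unusedSectionVars false
set_option maxHeartbeats 800000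

noncomputable section

namespace CfsgLib.Jordan.CyclicDefect

open Cfsg CfsgLib.Blocks MonoidAlgebra CfsgLib.BrauerPairs CfsgLib.BlockStar
open CfsgLib.BlockSections (belowBlock belowBlock_spec)
open scoped Classical

attribute [local instance 5] Fintype.ofFinite

/-! ### A nilpotent block at an element of the defect group -/

theorem AbNilp.exists_abNilp_local {C : Type*} [Group C] [Fintype C] {M : Ideal AlgInt} [M.IsPrime]
    {p : ℕ} [Fact p.Prime] [CharP (Res M) p] [IsAlgClosed (Res M)]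
    {b : Set (IrrCharacter C)} {P : Subgroup C} {e0 : MonoidAlgebra (Res M) C}
    (H : AbNilp p M b P e0) {v : C} (hv : v ∈ P) :
    ∃ e' : MonoidAlgebra (Res M) (Subgroup.centralizer ({v} : Set C)),
      mapG (Subgroup.centralizer ({v} : Set C)).subtype e' = e0 ∧
      AbNilp p M (belowBlock (M := M) p P e0 v)
        (P.subgroupOf (Subgroup.centralizer ({v} : Set C))) e' := by
  haveI : M.IsMaximal := H.hM.2.1
  obtain ⟨e', he', hm⟩ := exists_local H.hM H.hB H.hmax H.comm hv
  obtain ⟨hbl, -, -⟩ := belowBlock_spec H.hM H.hB H.hmax hv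
  refine ⟨e', he', H.hM, hbl, hm, ?_, abelian_local H.comm _⟩
  refine (hm.isNilp_iff_of_abelian (isBlockIdem_redElem_blockCoeff hbl)
    (abelian_local H.comm _)).2 fun x hx => ?_
  have hxT := (mem_pairStab_local H.comm hv he' x).1 hx
  have hxc := (H.hmax.isNilp_iff_of_abelian (isBlockIdem_redElem_blockCoeff H.hB) H.comm).1
    H.hnil _ hxT
  exact Subgroup.mem_centralizer_iff.2 fun w hw =>
    Subtype.ext (Subgroup.mem_centralizer_iff.1 hxc _ (Subgroup.mem_subgroupOf.1 hw))

variable {G : Type*} [Group G] [Fintype G] {M : Ideal AlgInt} [M.IsPrime] {p : ℕ} [Fact p.Prime]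
  [CharP (Res M) p] [IsAlgClosed (Res M)]
  {B : Set (IrrCharacter G)} {D : Subgroup G} {e0 : MonoidAlgebra (Res M) G} {a e : ℕ}
  [NeZero (p ^ a)]

/-- The choices at the subgroup of order `p`. -/
structure Loc (p : ℕ) [Fact p.Prime] (M : Ideal AlgInt) [M.IsPrime] [CharP (Res M) p]
    [IsAlgClosed (Res M)] (B : Set (IrrCharacter G)) (D : Subgroup G)
    (e0 : MonoidAlgebra (Res M) G) (a e : ℕ) [NeZero (p ^ a)] where
  /-- an element of order `p` -/
  z : G
  /-- a generator of the inertial quotient -/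
  t0 : G
  /-- its exponent -/
  r0 : ZMod (p ^ a)
  /-- the pair inside the centraliser -/
  e' : MonoidAlgebra (Res M) (Subgroup.centralizer ({z} : Set G))
  /-- the base member -/
  θ : IrrCharacter (Subgroup.centralizer ({z} : Set G))
  /-- a generator of the defect group -/
  u : D.subgroupOf (Subgroup.centralizer ({z} : Set G))
  /-- the stabiliser of the local block -/
  T : Subgroup G
  base : CycBlock p M B D e0 a e
  hz : z ∈ D
  hz1 : z ≠ 1
  hzv : ∀ v ∈ D, v ≠ 1 → z ∈ Subgroup.zpowers v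
  ht0 : t0 ∈ pairStab (⊤ : Subgroup G) D e0
  he' : mapG (Subgroup.centralizer ({z} : Set G)).subtype e' = e0
  pow : ∀ i : ℕ, ∀ x ∈ D, t0 ^ i * x * (t0 ^ i)⁻¹ = x ^ (r0 ^ i).val
  image : (Finset.range e).image (fun i => r0 ^ i) = expSet p a e
  inj : Set.InjOn (fun i => r0 ^ i) (Finset.range e : Set ℕ)
  decomp : ∀ x ∈ pairStab (⊤ : Subgroup G) D e0,
    ∃ i : ℕ, ∃ c ∈ Subgroup.centralizer (D : Set G), x = t0 ^ i * c
  setup : LocalSetup (p := p) (Subgroup.centralizer ({z} : Set G))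
    (belowBlock (M := M) p D e0 z) (D.subgroupOf (Subgroup.centralizer ({z} : Set G)))
    e' θ u e t0 T (Subgroup.normalizer (Subgroup.zpowers z : Set G))

theorem CycBlock.exists_loc (K : CycBlock p M B D e0 a e) : Nonempty (Loc p M B D e0 a e) := by
  obtain ⟨z, hz, hzp, hzu, hzv⟩ := K.exists_order_p
  obtain ⟨-, -, t0, ht0, hte, ht1, hdec, hmin⟩ := K.inertia
  obtain ⟨r0, hpow, himg, hinj⟩ := K.exists_exponent ht0 hte hmin
  obtain ⟨e', he', θ, u, T, hs⟩ := K.exists_localSetup hz hzp hzu hzv ht0 hte ht1 hdec hmin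
  exact ⟨⟨z, t0, r0, e', θ, u, T, K, hz,
    fun h => (Fact.out : p.Prime).one_lt.ne' (by rw [← hzp, h, orderOf_one]), hzv, ht0, he', hpow,
    himg, hinj, hdec, hs⟩⟩

namespace Loc

variable (L : Loc p M B D e0 a e)

/-- The centraliser of the element of order `p`. -/
abbrev C : Subgroup G := Subgroup.centralizer ({L.z} : Set G)

/-- The defect group inside it. -/
abbrev P : Subgroup L.C := D.subgroupOf L.C

theorem le_C : D ≤ L.C := le_centralizer_of_mem L.base.comm L.hz

theorem nilp : AbNilp p M (belowBlock (M := M) p D e0 L.z) L.P L.e' := L.setup.nilp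

/-- A character of the defect group, read inside the centraliser. -/
def lP (l : D →* ℂˣ) : L.P →* ℂˣ := l.comp (Subgroup.subgroupOfEquivOfLe L.le_C).toMonoidHom

theorem lP_apply (l : D →* ℂˣ) (v : L.P) :
    L.lP l v = l ⟨((v : L.C) : G), Subgroup.mem_subgroupOf.1 v.2⟩ := rfl

theorem lP_bijective : Function.Bijective L.lP := by
  refine ⟨fun l m h => MonoidHom.ext fun v => ?_, fun k =>
    ⟨k.comp (Subgroup.subgroupOfEquivOfLe L.le_C).symm.toMonoidHom, MonoidHom.ext fun v => ?_⟩⟩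
  · exact DFunLike.congr_fun h (⟨⟨v, L.le_C v.2⟩, v.2⟩ : L.P)
  · simp [lP]

theorem lP_one : L.lP 1 = 1 := MonoidHom.ext fun _ => rfl

/-- The twist by a character of the defect group. -/
def twist (l : D →* ℂˣ) : IrrCharacter L.C := L.nilp.th L.setup.hθ (L.lP l)

theorem twist_injective : Function.Injective L.twist :=
  (L.nilp.th_injective L.setup.hθ).comp L.lP_bijective.1

theorem twist_one : L.twist 1 = L.θ := by rw [twist, L.lP_one, L.nilp.th_one]

theorem twist_mem (l : D →* ℂˣ) : L.twist l ∈ belowBlock (M := M) p D e0 L.z := L.nilp.th_mem _ _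

theorem exists_twist_eq {ξ : IrrCharacter L.C} (h : ξ ∈ belowBlock (M := M) p D e0 L.z) :
    ∃ l, L.twist l = ξ := by
  obtain ⟨k, rfl⟩ := L.nilp.exists_th_eq L.setup.hθ h
  obtain ⟨l, rfl⟩ := L.lP_bijective.2 k
  exact ⟨l, rfl⟩

/-- Conjugation by the generator of the inertial quotient. -/
abbrev σ : L.C ≃* L.C := L.setup.conjT

theorem compIrr_twist (l : D →* ℂˣ) : compIrr L.σ (L.twist l) = L.twist (l ^ L.r0.val) := by
  rw [twist, L.nilp.th_comp L.setup.hθ L.σ L.setup.mapP L.setup.fixE0 L.setup.fixθ, twist]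
  congr 1
  refine MonoidHom.ext fun v => ?_
  rw [MonoidHom.comp_apply, lP_apply, lP_apply, MonoidHom.pow_apply, ← map_pow]
  refine congrArg l (Subtype.ext ?_)
  have := L.pow 1 _ (Subgroup.mem_subgroupOf.1 v.2)
  rw [pow_one, pow_one] at this
  exact this

/-- The multiplicity of a twist in the restriction. -/
def mult (χ : IrrCharacter G) (l : D →* ℂˣ) : ℤ := subMult L.C χ (L.twist l)

theorem mult_pow_r0 (χ : IrrCharacter G) (l : D →* ℂˣ) :
    L.mult χ (l ^ L.r0.val) = L.mult χ l := by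
  rw [mult, mult, ← L.compIrr_twist, subMult, subMult]
  congr 2
  have h := Clifford.classInner_comp_mulEquiv L.σ (fun c : L.C => (χ : G → ℂ) c)
    (L.twist l : L.C → ℂ)
  refine Eq.trans ?_ h
  congr 1
  funext c
  exact (CharTheory.IsIrrCharacter.isClassFunction χ.2 (c : G) L.t0).symm

theorem mult_pow (χ : IrrCharacter G) {r : ZMod (p ^ a)} (hr : r ∈ expSet p a e) :
    ∀ l : D →* ℂˣ, L.mult χ (l ^ r.val) = L.mult χ l := by
  rw [← L.image, Finset.mem_image] at hr
  obtain ⟨i, -, rfl⟩ := hr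
  induction i with
  | zero => intro l; rw [pow_zero, L.base.hom_pow_one]
  | succ i ih => intro l; rw [pow_succ, ← L.base.hom_pow_val_mul, L.mult_pow_r0, ih]

/-- The difference with the multiplicity of the base member. -/
def dif (χ : IrrCharacter G) (l : D →* ℂˣ) : ℤ := L.mult χ l - L.mult χ 1

theorem dif_one (χ : IrrCharacter G) : L.dif χ 1 = 0 := sub_self _

theorem dif_pow (χ : IrrCharacter G) {r : ZMod (p ^ a)} (hr : r ∈ expSet p a e) (l : D →* ℂˣ) :
    L.dif χ (l ^ r.val) = L.dif χ l := by rw [dif, dif, L.mult_pow χ hr]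

theorem shape (χ : IrrCharacter G) : Shape p a e (L.dif χ) := by
  haveI := L.base.finite_homs
  haveI : Fintype (D →* ℂˣ) := Fintype.ofFinite _
  haveI : Finite (L.P →* ℂˣ) := Finite.of_surjective _ L.lP_bijective.2
  haveI : Fintype (L.P →* ℂˣ) := Fintype.ofFinite _
  obtain ⟨z, r, hrN, hr, hsum, hb⟩ := L.setup.exists_mult χ
  have hcard : Nat.card L.P = p ^ a :=
    (Nat.card_congr (Subgroup.subgroupOfEquivOfLe L.le_C).toEquiv).trans L.base.card_D
  rw [hcard] at hrN hr hsum
  refine L.base.shape_of_pattern (z := (z : ℤ)) hrN hr ?_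
    (fun l => ⟨(hb (L.lP l)).1, (hb (L.lP l)).2.1⟩) (fun l s hs => L.mult_pow χ hs l)
  rw [← hsum, finsum_eq_sum_of_fintype]
  exact Fintype.sum_bijective L.lP L.lP_bijective _ _ fun l => rfl

/-- The function on the defect group attached to a character. -/
def fn (χ : IrrCharacter G) (x : G) : ℂ :=
  if h : x ∈ D then ∑ᶠ l : D →* ℂˣ, (L.dif χ l : ℂ) * (l ⟨x, h⟩ : ℂ) else 0

theorem sum_mult_mul [Fintype (D →* ℂˣ)] (χ : IrrCharacter G) {v : D} (hv : v ≠ 1) :
    ∑ l : D →* ℂˣ, (L.mult χ l : ℂ) * (l v : ℂ) = L.fn χ v := by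
  rw [fn, dif_pos v.2, finsum_eq_sum_of_fintype]
  have h := L.base.sum_homs_apply v
  rw [if_neg hv] at h
  simp only [dif, Int.cast_sub, sub_mul, Finset.sum_sub_distrib, ← Finset.mul_sum]
  erw [h]
  rw [mul_zero, sub_zero]

/-- The scalar factor of the value at a section. -/
def Ω (g : G) (c : MonoidAlgebra (Res M) G) : ℂ :=
  if h : ∃ x : G, PairLE p (⊤ : Subgroup G) (Subgroup.zpowers (x * ppart p g * x⁻¹)) (conjA x c) D e0
  then (if h' : h.choose * g * h.choose⁻¹ ∈ L.C
    then val L.θ ⟨_, h'⟩ (Function.invFun (mapG L.C.subtype) (conjA h.choose c)) else 0)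
  else 0

theorem memLocalRing_Ω (g : G) (c : MonoidAlgebra (Res M) G) : MemLocalRing M (L.Ω g c) := by
  rw [Ω]
  split_ifs
  · exact memLocalRing_val _ _ _
  all_goals exact zero_mem (locRing M)

/-- A block at a section below the pair, seen inside the centraliser. -/
theorem exists_local_block {g x : G} {c : MonoidAlgebra (Res M) G} (hg : p ∣ orderOf g)
    (hc : c ∈ blocksAt M (ppart p g))
    (hx : PairLE p (⊤ : Subgroup G) (Subgroup.zpowers (x * ppart p g * x⁻¹)) (conjA x c) D e0) :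
    ∃ (hv : x * ppart p g * x⁻¹ ∈ D) (g' : L.C) (c' : MonoidAlgebra (Res M) L.C),
      (g' : G) = x * g * x⁻¹ ∧ x * ppart p g * x⁻¹ ≠ 1 ∧
      ((ppart p g' : L.C) : G) = x * ppart p g * x⁻¹ ∧ mapG L.C.subtype c' = conjA x c ∧
      c' ∈ blocksAt M (ppart p g') ∧ c' * c' = c' ∧ Commute (single g' (1 : Res M)) c' ∧
      PairLE p (⊤ : Subgroup L.C) (Subgroup.zpowers (ppart p g')) c' L.P L.e' ∧
      ∀ χ : IrrCharacter G, val χ g c =
        ∑ ξ : IrrCharacter L.C, (subMult L.C χ ξ : ℂ) * val ξ g' c' := by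
  have hv := hx.le (Subgroup.mem_zpowers _)
  have hu : ppart p g ≠ 1 := fun h => by
    obtain ⟨y, hy, -, -, hreg⟩ := ppart_spec (p := p) g
    rw [h, one_mul] at hy
    exact hreg (hy ▸ hg)
  have hv1 : x * ppart p g * x⁻¹ ≠ 1 := fun h => hu (conj_eq_one_iff.1 h)
  obtain ⟨y, hy, hcom, hord, hreg⟩ := ppart_spec (p := p) (x * g * x⁻¹)
  have hpp : ppart p (x * g * x⁻¹) = x * ppart p g * x⁻¹ := ppart_conj x g
  rw [hpp] at hy hcom hord
  obtain ⟨j, hj⟩ := L.hzv _ hv hv1
  have hz : Commute (x * ppart p g * x⁻¹) (x * g * x⁻¹) := by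
    rw [← hy]; exact (Commute.refl _).mul_right hcom
  have hg' : x * g * x⁻¹ ∈ L.C := Subgroup.mem_centralizer_singleton_iff.2 (by
    rw [← hj]; exact ((hz.zpow_left j).eq).symm)
  have hvC : x * ppart p g * x⁻¹ ∈ L.C := L.le_C hv
  have hyC : y ∈ L.C := by
    have h : y = (x * ppart p g * x⁻¹)⁻¹ * (x * g * x⁻¹) := by rw [← hy, inv_mul_cancel_left]
    rw [h]; exact mul_mem (inv_mem hvC) hg'
  have hpg : ppart p (⟨_, hg'⟩ : L.C) = ⟨_, hvC⟩ := by
    obtain ⟨k, hk⟩ := hord
    exact ppart_eq ⟨⟨y, hyC⟩, Subtype.ext hy, Subtype.ext hcom.eq,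
      ⟨k, by rw [← Subgroup.orderOf_coe]; exact hk⟩, by rw [← Subgroup.orderOf_coe]; exact hreg⟩
  have hcv : IsBlockIdem (Subgroup.centralizer ({x * ppart p g * x⁻¹} : Set G)) (conjA x c) := by
    have := (hx.isPair_left L.base.hmax.1.1).2.2
    rwa [cenIn_zpowers] at this
  have hle : Subgroup.centralizer ({x * ppart p g * x⁻¹} : Set G) ≤ L.C := fun w hw =>
    Subgroup.mem_centralizer_singleton_iff.2 (by
      rw [← hj]
      exact (Commute.zpow_right (Subgroup.mem_centralizer_singleton_iff.1 hw : w * _ = _ * w) j).eq)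
  have hmap : (Subgroup.centralizer ({(⟨_, hvC⟩ : L.C)} : Set L.C)).map L.C.subtype =
      Subgroup.centralizer ({x * ppart p g * x⁻¹} : Set G) := by
    ext w
    constructor
    · rintro ⟨w, hw, rfl⟩
      exact Subgroup.mem_centralizer_singleton_iff.2
        (congrArg Subtype.val (Subgroup.mem_centralizer_singleton_iff.1 hw))
    · exact fun hw => ⟨⟨w, hle hw⟩, Subgroup.mem_centralizer_singleton_iff.2
        (Subtype.ext (Subgroup.mem_centralizer_singleton_iff.1 hw)), rfl⟩
  obtain ⟨c', hc', hcc⟩ := exists_of_isBlockIdem_map L.C.subtype_injective (hmap.symm ▸ hcv)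
  have hmem : c' ∈ blocksAt M (ppart p (⟨_, hg'⟩ : L.C)) := by
    rw [mem_blockIdems, cenIn_zpowers, hpg]; exact hc'
  have hcomm := (commute_block (mem_blockIdems.1 hmem) 0).1
  have hpair : PairLE p (⊤ : Subgroup L.C) (Subgroup.zpowers (ppart p (⟨_, hg'⟩ : L.C))) c' L.P
      L.e' := by
    rw [hpg]
    refine pairLE_of_brau L.nilp.hmax.1.1
      (Subgroup.zpowers_le.2 (Subgroup.mem_subgroupOf.2 hv)) L.nilp.comm
      (by rwa [BrauerCharacters.centralizer_zpowers_eq]) (mapG_injective L.C.subtype_injective ?_)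
    rw [map_mul, ← mapG_brau L.C.subtype_injective, Subgroup.map_subgroupOf_eq_of_le L.le_C,
      L.he', hcc]
    exact (normalLE_of_abelian L.base.hmax.1.1 L.base.comm hx).2.2.2.2.2
  refine ⟨hv, ⟨_, hg'⟩, c', rfl, hv1, congrArg Subtype.val hpg, hcc, hmem,
    (mem_blockIdems.1 hmem).mul_self, hcomm, hpair, fun χ => ?_⟩
  have hcg := mem_blockIdems.1 hc
  rw [← val_subtype L.C χ (mem_blockIdems.1 hmem).mul_self hcomm, hcc,
    val_conj χ x hcg.mul_self (commute_block hcg 0).1]

theorem val_twist {g' : L.C} {c' : MonoidAlgebra (Res M) L.C} (hc : c' ∈ blocksAt M (ppart p g'))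
    (hpair : PairLE p (⊤ : Subgroup L.C) (Subgroup.zpowers (ppart p g')) c' L.P L.e')
    (hv : ((ppart p g' : L.C) : G) ∈ D) (l : D →* ℂˣ) :
    val (L.twist l) g' c' = (l ⟨_, hv⟩ : ℂ) * val L.θ g' c' := by
  rw [twist, L.nilp.th_val L.setup.hθ _ g' c' hc]
  congr 1
  rw [Lam_eq (L.nilp.fusInv _) (x := 1) (by rwa [conjA_one, one_mul, inv_one, mul_one]),
    one_mul, inv_one, mul_one, lamAt_of_mem _ (Subgroup.mem_subgroupOf.2 hv)]
  rfl

theorem val_eq_zero_of_notMem {g' : L.C} {c' : MonoidAlgebra (Res M) L.C}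
    (hc : c' ∈ blocksAt M (ppart p g'))
    (hpair : PairLE p (⊤ : Subgroup L.C) (Subgroup.zpowers (ppart p g')) c' L.P L.e')
    {ξ : IrrCharacter L.C} (hξ : ξ ∉ belowBlock (M := M) p D e0 L.z) : val ξ g' c' = 0 := by
  set bξ := blockOf M (ξ : L.C → ℂ) with hbξ
  have hB : IsPBlock M bξ := isPBlock_blockOf ξ
  have hb := isBlockIdem_redElem_blockCoeff (M := M) hB
  have hb0 := isBlockIdem_redElem_blockCoeff (M := M) L.nilp.hB
  refine val_eq_zero_of_not_pairOf L.nilp.hM hB (mem_blockOf_self ξ) (mem_blockIdems.1 hc) fun h => ?_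
  have h1 := ((hpair.pairOf_iff hb).1 h).2
  have h2 := L.nilp.hmax.1.2
  by_cases hne : redElem M (blockCoeff bξ) = redElem M (blockCoeff (belowBlock (M := M) p D e0 L.z))
  · refine hξ ?_
    have := redElem_blockCoeff_injective hB L.nilp.hB hne
    exact this ▸ mem_blockOf_self ξ
  · refine L.nilp.hmax.1.1.2.2.ne_zero ?_
    rw [← h2, ← h1, ← mul_assoc,
      ← trunc_centralizer_mul L.nilp.hmax.1.1.1 (hb0.fixed_of_le le_top) (hb.fixed_of_le le_top),
      hb0.mul_eq_zero_of_ne hb (Ne.symm hne), map_zero, zero_mul]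

/-- The value at a section below the pair. -/
theorem val_pair [Fintype (D →* ℂˣ)] {g x : G} {c : MonoidAlgebra (Res M) G} (hg : p ∣ orderOf g)
    (hc : c ∈ blocksAt M (ppart p g))
    (hx : PairLE p (⊤ : Subgroup G) (Subgroup.zpowers (x * ppart p g * x⁻¹)) (conjA x c) D e0) :
    ∃ (g' : L.C) (c' : MonoidAlgebra (Res M) L.C), (g' : G) = x * g * x⁻¹ ∧
      mapG L.C.subtype c' = conjA x c ∧
      ∀ χ : IrrCharacter G, val χ g c = L.fn χ (x * ppart p g * x⁻¹) * val L.θ g' c' := by
  obtain ⟨hv, g', c', hgg, hv1, hpp, hcc, hmem, -, -, hpair, hval⟩ :=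
    L.exists_local_block hg hc hx
  refine ⟨g', c', hgg, hcc, fun χ => ?_⟩
  have hv' : ((ppart p g' : L.C) : G) ∈ D := hpp ▸ hv
  rw [hval, ← hpp, ← L.sum_mult_mul χ (v := ⟨_, hv'⟩) fun h => hv1 (by
    rw [← hpp]; exact congrArg Subtype.val h)]
  rw [Finset.sum_mul, ← Finset.sum_subset (Finset.subset_univ (Finset.univ.image L.twist))
    fun ξ _ hξ => ?_, Finset.sum_image L.twist_injective.injOn]
  · exact Finset.sum_congr rfl fun l _ => by
      rw [L.val_twist hmem hpair hv' l, ← mul_assoc]; rfl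
  · rw [L.val_eq_zero_of_notMem hmem hpair fun h => hξ ?_, mul_zero]
    obtain ⟨l, rfl⟩ := L.exists_twist_eq h
    exact Finset.mem_image_of_mem _ (Finset.mem_univ l)

/-- The values of the members of the block on the singular elements. -/
theorem val_singular {χ : IrrCharacter G} (hχ : χ ∈ B) {g : G} (hg : p ∣ orderOf g)
    {c : MonoidAlgebra (Res M) G} (hc : c ∈ blocksAt M (ppart p g)) :
    val χ g c = LamF p D e0 (L.fn χ) (ppart p g) c * L.Ω g c := by
  haveI := L.base.finite_homs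
  haveI : Fintype (D →* ℂˣ) := Fintype.ofFinite _
  by_cases h : ∃ x : G,
      PairLE p (⊤ : Subgroup G) (Subgroup.zpowers (x * ppart p g * x⁻¹)) (conjA x c) D e0
  · obtain ⟨g', c', hgg, hcc, hval⟩ := L.val_pair hg hc h.choose_spec
    rw [hval χ, LamF, dif_pos h, Ω, dif_pos h, dif_pos (hgg ▸ g'.2)]
    congr 1
    rw [show (⟨h.choose * g * h.choose⁻¹, hgg ▸ g'.2⟩ : L.C) = g' from Subtype.ext hgg.symm,
      ← hcc, Function.leftInverse_invFun (mapG_injective L.C.subtype_injective) c']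
  · rw [LamF, dif_neg h, zero_mul]
    refine val_eq_zero_of_not_pairOf L.base.hM L.base.hB hχ (mem_blockIdems.1 hc) fun hp => h ?_
    exact (exists_conj_iff (isBlockIdem_redElem_blockCoeff L.base.hB) L.base.hmax).2 hp

theorem exists_fn_ne_zero {χ : IrrCharacter G} (hχ : χ ∈ B) : ∃ l, L.dif χ l ≠ 0 := by
  haveI : M.IsMaximal := L.base.hM.2.1
  haveI := L.base.finite_homs
  haveI : Fintype (D →* ℂˣ) := Fintype.ofFinite _
  obtain ⟨c, g, hle, hgu, hne⟩ := exists_val_ne_zero_of_central L.base.hM L.base.hB L.base.hmax hχ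
    L.hz (Subgroup.mem_centralizer_iff.2 fun v hv => L.base.comm v hv _ L.hz)
  have hx : PairLE p (⊤ : Subgroup G) (Subgroup.zpowers (1 * ppart p g * 1⁻¹)) (conjA 1 c) D e0 := by
    rwa [conjA_one, one_mul, inv_one, mul_one, hgu]
  have hc : c ∈ blocksAt M (ppart p g) := by
    rw [hgu]; exact mem_blockIdems.2 (hle.isPair_left L.base.hmax.1.1).2.2
  have hg : p ∣ orderOf g := by
    by_contra hreg
    exact L.hz1 (hgu ▸ ppart_eq ⟨g, one_mul g, Commute.one_left g, ⟨0, by simp⟩, hreg⟩)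
  obtain ⟨g', c', -, -, hval⟩ := L.val_pair hg hc hx
  by_contra h0
  push Not at h0
  refine hne ?_
  rw [hval χ, fn, dif_pos (hx.le (Subgroup.mem_zpowers _))]
  simp [h0]

theorem dif_eq_zero_of_notMem {χ : IrrCharacter G} (hχ : χ ∉ B) (k : D →* ℂˣ) :
    L.dif χ k = 0 := by
  haveI := L.base.finite_homs
  haveI : Fintype (D →* ℂˣ) := Fintype.ofFinite _
  have hfn : ∀ v : D, v ≠ 1 → L.fn χ v = 0 := by
    intro v hv
    obtain ⟨c', g', hle, hgu, hne⟩ := exists_val_ne_zero_of_height_zero L.nilp.hM L.nilp.hB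
      L.nilp.hmax L.setup.hθ (L.nilp.height_zero L.setup.hθ)
      (u := (⟨v, L.le_C v.2⟩ : L.C)) (Subgroup.mem_subgroupOf.2 v.2)
    have hc' : c' ∈ blocksAt M (ppart p g') := by
      rw [hgu]; exact mem_blockIdems.2 (hle.isPair_left L.nilp.hmax.1.1).2.2
    have hblk := mem_blockIdems.1 hc'
    obtain ⟨-, hle', -⟩ := belowBlock_spec L.base.hM L.base.hB L.base.hmax v.2
    set c := subIdem M _ (belowBlock (M := M) p D e0 (v : G))
    have hgv : ppart p (g' : G) = v := by
      obtain ⟨y, hy, hcom, ⟨i, hi⟩, hreg⟩ := ppart_spec (p := p) g'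
      rw [hgu] at hy hcom hi
      exact ppart_eq ⟨y, congrArg Subtype.val hy, congrArg Subtype.val hcom.eq,
        ⟨i, by rw [← hi, Subgroup.orderOf_mk]⟩, by rwa [Subgroup.orderOf_coe]⟩
    have hc : c ∈ blocksAt M (ppart p (g' : G)) := by
      rw [hgv]; exact mem_blockIdems.2 (hle'.isPair_left L.base.hmax.1.1).2.2
    have hx : PairLE p (⊤ : Subgroup G) (Subgroup.zpowers (1 * ppart p (g' : G) * 1⁻¹))
        (conjA 1 c) D e0 := by
      rwa [conjA_one, one_mul, inv_one, mul_one, hgv]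
    have hgs : p ∣ orderOf (g' : G) := by
      by_contra hreg
      refine hv (Subtype.ext ?_)
      rw [← hgv]
      exact ppart_eq ⟨(g' : G), one_mul _, Commute.one_left _, ⟨0, by simp⟩, hreg⟩
    obtain ⟨hvD, g'', c'', hgg, -, hpp, hcc, hmem, -, -, hpair, -⟩ :=
      L.exists_local_block hgs hc hx
    obtain ⟨g₁, c₁, hg₁, hc₁, hval⟩ := L.val_pair hgs hc hx
    have e1 : g₁ = g' := Subtype.ext (by rw [hg₁, one_mul, inv_one, mul_one])
    have e2 : g'' = g' := Subtype.ext (by rw [hgg, one_mul, inv_one, mul_one])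
    have e3 : c₁ = c'' := mapG_injective L.C.subtype_injective (hc₁.trans hcc.symm)
    subst e1 e2
    have e4 : c'' = c' := (existsUnique_pairLE L.nilp.hmax.1.1
      (Subgroup.zpowers_le.2 (hgu ▸ Subgroup.mem_subgroupOf.2 v.2))).unique hpair (by rwa [hgu])
    rw [e3, e4] at hval
    have h0 : val χ (g'' : G) c = 0 := by
      refine val_eq_zero_of_not_pairOf L.base.hM (isPBlock_blockOf χ) (mem_blockOf_self χ)
        (mem_blockIdems.1 hc) fun hp => hχ ?_
      have hb := isBlockIdem_redElem_blockCoeff (M := M) (isPBlock_blockOf (M := M) χ)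
      have hb0 := isBlockIdem_redElem_blockCoeff (M := M) L.base.hB
      rw [conjA_one, one_mul, inv_one, mul_one] at hx
      have h1 := ((hx.pairOf_iff hb).1 hp).2
      by_cases hne' : redElem M (blockCoeff (blockOf M (χ : G → ℂ))) = redElem M (blockCoeff B)
      · exact redElem_blockCoeff_injective (isPBlock_blockOf χ) L.base.hB hne' ▸ mem_blockOf_self χ
      · refine absurd ?_ L.base.hmax.1.1.2.2.ne_zero
        rw [← L.base.hmax.1.2, ← h1, ← mul_assoc, ← trunc_centralizer_mul L.base.hmax.1.1.1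
          (hb0.fixed_of_le le_top) (hb.fixed_of_le le_top),
          hb0.mul_eq_zero_of_ne hb (Ne.symm hne'), map_zero, zero_mul]
    rw [hval χ, mul_eq_zero, one_mul, inv_one, mul_one, hgv] at h0
    exact h0.resolve_right hne
  have h1 : ∑ v : D, L.fn χ v * ((k⁻¹ v : ℂˣ) : ℂ) = L.fn χ ((1 : D) : G) := by
    rw [Finset.sum_eq_single (1 : D) (fun v _ hv => by rw [hfn v hv, zero_mul]) (by simp),
      map_one, Units.val_one, mul_one]
  have h2 : ∀ m : D →* ℂˣ, ∑ v : D, L.fn χ v * ((m⁻¹ v : ℂˣ) : ℂ) =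
      (L.dif χ m : ℂ) * (p ^ a : ℕ) := by
    intro m
    simp only [fn, dif_pos (Subtype.prop _), finsum_eq_sum_of_fintype, Finset.sum_mul, mul_assoc,
      ← Units.val_mul]
    rw [Finset.sum_comm]
    simp only [← Finset.mul_sum]
    rw [Finset.sum_eq_single m]
    · rw [← L.base.card_D, Nat.card_eq_fintype_card]
      congr 1
      simp
    · intro l _ hl
      have h := sum_hom_apply (l * m⁻¹)
      rw [if_neg (mul_inv_eq_one.not.2 hl)] at h
      simp only [MonoidHom.mul_apply, Subtype.coe_eta] at h ⊢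
      rw [h, mul_zero]
    · simp
  have h3 := (h2 k).symm.trans h1
  have h4 := (h2 1).symm.trans (show _ = L.fn χ ((1 : D) : G) by
    rw [Finset.sum_eq_single (1 : D) (fun v _ hv => by rw [hfn v hv, zero_mul]) (by simp),
      map_one, Units.val_one, mul_one])
  rw [L.dif_one, Int.cast_zero, zero_mul] at h4
  rw [← h4, mul_eq_zero] at h3
  exact_mod_cast h3.resolve_right (Nat.cast_ne_zero.2 (pow_ne_zero a (Fact.out : p.Prime).ne_zero))

end Loc

end CfsgLib.Jordan.CyclicDefect
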