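import Cfsg.Agent.Lib.Jordan.CyclicDefect.Orth

/-!
# The structure of a block with cyclic defect group

The members fall into `e` characters constant on the sections and an exceptional family indexed by
the orbits of the exponents on the nontrivial characters of the defect group.
-/

set_option autoImplicit false
set_option linter.style.haveILetI false
set_option linter.unusedSectionVars false
set_option maxHeartbeats 800000

noncomputable section

namespace CfsgLib.Jordan.CyclicDefect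

open Cfsg CfsgLib.Blocks MonoidAlgebra CfsgLib.BrauerPairs CfsgLib.BlockStar
open CfsgLib.BlockSections (belowBlock belowBlock_spec)
open scoped Classical ComplexConjugate

attribute [local instance 5] Fintype.ofFinite

variable {G : Type*} [Group G] [Fintype G] {M : Ideal AlgInt} [M.IsPrime] {p : ℕ} [Fact p.Prime]
  [CharP (Res M) p] [IsAlgClosed (Res M)]
  {B : Set (IrrCharacter G)} {D : Subgroup G} {e0 : MonoidAlgebra (Res M) G} {a e : ℕ}
  [NeZero (p ^ a)]

theorem LamF_congr {F F' : G → ℂ} {u : G} {c : MonoidAlgebra (Res M) G} (hu : u ≠ 1)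
    (h : ∀ v ∈ D, v ≠ 1 → F v = F' v) : LamF p D e0 F u c = LamF p D e0 F' u c := by
  by_cases hx : ∃ x : G, PairLE p (⊤ : Subgroup G) (Subgroup.zpowers (x * u * x⁻¹)) (conjA x c) D e0
  · simp only [LamF, dif_pos hx]
    exact h _ (hx.choose_spec.le (Subgroup.mem_zpowers _)) fun h1 => hu (conj_eq_one_iff.1 h1)
  · simp only [LamF, dif_neg hx]

theorem ppart_ne_one {g : G} (hg : p ∣ orderOf g) : ppart p g ≠ 1 := fun h => by
  obtain ⟨y, hy, -, -, hreg⟩ := ppart_spec (p := p) g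
  rw [h, one_mul] at hy
  exact hreg (hy ▸ hg)

namespace Loc

variable (L : Loc p M B D e0 a e)
include L

/-- A function on the characters of the defect group with the value `s` at the nontrivial ones. -/
theorem fn_const {χ : IrrCharacter G} {s : ℤ} (h : ∀ l : D →* ℂˣ, l ≠ 1 → L.dif χ l = s)
    {v : G} (hv : v ∈ D) (hv1 : v ≠ 1) : L.fn χ v = -(s : ℂ) := by
  haveI := L.base.finite_homs
  rw [fn, dif_pos hv, finsum_eq_sum_of_fintype]
  have h1 := L.base.sum_homs_apply ⟨v, hv⟩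
  rw [if_neg fun h => hv1 (congrArg Subtype.val h)] at h1
  calc ∑ l : D →* ℂˣ, (L.dif χ l : ℂ) * (l ⟨v, hv⟩ : ℂ)
      = ∑ l : D →* ℂˣ, ((s : ℂ) * (l ⟨v, hv⟩ : ℂ) -
          if l = 1 then (s : ℂ) else 0) := by
        refine Finset.sum_congr rfl fun l _ => ?_
        split_ifs with hl
        · subst hl; rw [L.dif_one]; simp
        · rw [h l hl, sub_zero]
    _ = -(s : ℂ) := by
        rw [Finset.sum_sub_distrib, ← Finset.mul_sum, Finset.sum_ite_eq', if_pos (Finset.mem_univ _)]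
        erw [h1]
        ring

theorem fn_orb {χ : IrrCharacter G} {s : ℤ} {l0 : D →* ℂˣ} (hl0 : l0 ≠ 1)
    (h : ∀ l : D →* ℂˣ, l ≠ 1 → L.dif χ l = if l ∈ orb p a e l0 then s else 0)
    {v : G} (hv : v ∈ D) : L.fn χ v = (s : ℂ) * orbSum p a e l0 v := by
  haveI := L.base.finite_homs
  rw [fn, dif_pos hv, finsum_eq_sum_of_fintype, orbSum, dif_pos hv,
    ← Finset.sum_subset (Finset.subset_univ (orb p a e l0)) fun l _ hl => ?_, orb,
    Finset.sum_image (L.base.hom_pow_injOn hl0), Finset.mul_sum]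
  · refine Finset.sum_congr rfl fun r hr => ?_
    rw [h _ (L.base.pow_ne_one hl0 hr), if_pos (by exact Finset.mem_image_of_mem _ hr),
      MonoidHom.pow_apply, Units.val_pow_eq_pow_val]
  · by_cases hl1 : l = 1
    · subst hl1; rw [L.dif_one]; simp
    · rw [h l hl1, if_neg hl]; simp

/-- Two kinds of members. -/
theorem exists_split : ∃ X Y : Set (IrrCharacter G), B = X ∪ Y ∧ Disjoint X Y ∧ Nat.card X = e ∧
    (∀ χ ∈ X, ∃ s : ℤ, (s = 1 ∨ s = -1) ∧ ∀ l : D →* ℂˣ, l ≠ 1 → L.dif χ l = s) ∧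
    ∀ ψ ∈ Y, ∃ l0 : D →* ℂˣ, l0 ≠ 1 ∧ ∃ s : ℤ, (s = 1 ∨ s = -1) ∧
      ∀ l : D →* ℂˣ, l ≠ 1 → L.dif ψ l = if l ∈ orb p a e l0 then s else 0 := by
  haveI := L.base.finite_homs
  haveI : Finite B := Set.toFinite B
  obtain ⟨l1, hl1⟩ := L.base.exists_ne_one
  set A : Set (IrrCharacter G) :=
    {χ | χ ∈ B ∧ ∃ s : ℤ, (s = 1 ∨ s = -1) ∧ ∀ l : D →* ℂˣ, l ≠ 1 → L.dif χ l = s} with hA
  have horb : ∀ ψ ∈ B, ψ ∉ A → ∃ l0 : D →* ℂˣ, l0 ≠ 1 ∧ ∃ s : ℤ, (s = 1 ∨ s = -1) ∧
      ∀ l : D →* ℂˣ, l ≠ 1 → L.dif ψ l = if l ∈ orb p a e l0 then s else 0 := by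
    intro ψ hψ hψA
    rcases L.shape ψ with h0 | ⟨s, hs, hc | ⟨l0, hl0, h⟩⟩
    · obtain ⟨l, hl⟩ := L.exists_fn_ne_zero hψ
      exact absurd (h0 l fun h => hl (h ▸ L.dif_one ψ)) hl
    · exact absurd ⟨hψ, s, hs, hc⟩ hψA
    · exact ⟨l0, hl0, s, hs, h⟩
  have hsum : ∀ l k : D →* ℂˣ,
      ∑ χ : IrrCharacter G, L.dif χ l * L.dif χ k = ∑ χ ∈ B.toFinset, L.dif χ l * L.dif χ k :=
    fun l k => (Finset.sum_subset (Finset.subset_univ _) fun χ _ hχ => by
      rw [L.dif_eq_zero_of_notMem (fun h => hχ (Set.mem_toFinset.2 h)), zero_mul]).symm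
  by_cases hone : ∀ l : D →* ℂˣ, l ≠ 1 → l ∈ orb p a e l1
  · have hAB : ∀ χ ∈ B, χ ∈ A := by
      intro χ hχ
      by_contra hA'
      obtain ⟨l0, hl0, s, hs, h⟩ := horb χ hχ hA'
      exact hA' ⟨hχ, s, hs, fun l hl => by
        rw [h l hl, if_pos]
        rw [← L.base.orb_eq_of_mem (L.base.mem_orb_self l0), L.base.orb_eq_of_mem (hone l0 hl0)]
        exact hone l hl⟩
    have hcard : (B.toFinset.card : ℤ) = e + 1 := by
      have h := L.sum_dif_mul_dif hl1 hl1
      rw [if_pos (L.base.mem_orb_self l1), hsum, Finset.sum_congr rfl fun χ hχ => ?_,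
        Finset.sum_const, nsmul_one] at h
      · exact h
      · obtain ⟨-, s, hs, h⟩ := hAB χ (Set.mem_toFinset.1 hχ)
        rw [h l1 hl1]
        rcases hs with rfl | rfl <;> rfl
    obtain ⟨χ0, hχ0⟩ := Blocks.isPBlock_nonempty L.base.hB
    refine ⟨B \ {χ0}, {χ0}, ?_, Set.disjoint_sdiff_left, ?_, fun χ hχ => (hAB χ hχ.1).2,
      fun ψ hψ => ?_⟩
    · exact (Set.diff_union_of_subset (Set.singleton_subset_iff.2 hχ0)).symm
    · rw [Nat.card_coe_set_eq, Set.ncard_sdiff (Set.singleton_subset_iff.2 hχ0),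
        Set.ncard_singleton, Set.ncard_eq_toFinset_card']
      omega
    · rw [Set.mem_singleton_iff.1 hψ]
      obtain ⟨-, s, hs, h⟩ := hAB χ0 hχ0
      exact ⟨l1, hl1, s, hs, fun l hl => by rw [h l hl, if_pos (hone l hl)]⟩
  · push Not at hone
    obtain ⟨l2, hl2, hl2o⟩ := hone
    refine ⟨A, B \ A, (Set.union_diff_cancel fun χ hχ => hχ.1).symm, Set.disjoint_sdiff_right, ?_,
      fun χ hχ => hχ.2, fun ψ hψ => horb ψ hψ.1 hψ.2⟩
    have h := L.sum_dif_mul_dif hl2 hl1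
    rw [if_neg hl2o, hsum, Finset.sum_congr rfl (g := fun χ => if χ ∈ A then (1 : ℤ) else 0)
      fun χ hχ => ?_, Finset.sum_boole, add_zero] at h
    · have h' : (B.toFinset.filter fun χ => χ ∈ A).card = e := by exact_mod_cast h
      rw [Nat.card_coe_set_eq, Set.ncard_eq_toFinset_card']
      refine Eq.trans ?_ h'
      congr 1
      ext χ
      simp only [Set.mem_toFinset, Finset.mem_filter]
      exact ⟨fun h => ⟨h.1, h⟩, fun h => h.2⟩
    · by_cases hχA : χ ∈ A
      · obtain ⟨-, s, hs, h⟩ := hχA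
        rw [if_pos ⟨Set.mem_toFinset.1 hχ, s, hs, h⟩, h l2 hl2, h l1 hl1]
        rcases hs with rfl | rfl <;> rfl
      · obtain ⟨l0, -, s, -, h⟩ := horb χ (Set.mem_toFinset.1 hχ) hχA
        rw [if_neg hχA, h l2 hl2, h l1 hl1]
        by_cases h2 : l2 ∈ orb p a e l0
        · rw [if_neg (c := l1 ∈ orb p a e l0) fun h1 => hl2o (by
            rw [L.base.orb_eq_of_mem h1]; exact h2), mul_zero]
        · rw [if_neg h2, zero_mul]

/-- The block at a pair, as seen at the element. -/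
theorem mem_blocksAt {g x : G} {c : MonoidAlgebra (Res M) G}
    (hx : PairLE p (⊤ : Subgroup G) (Subgroup.zpowers (x * ppart p g * x⁻¹)) (conjA x c) D e0) :
    c ∈ blocksAt M (ppart p g) := by
  have h := ((hx.isPair_left L.base.hmax.1.1).conj (c := x⁻¹) (Subgroup.mem_top _)).2.2
  rw [cj_zpowers, ← conjA_mul, inv_mul_cancel, conjA_one,
    show x⁻¹ * (x * ppart p g * x⁻¹) * x⁻¹⁻¹ = ppart p g by group] at h
  exact mem_blockIdems.2 h

theorem memLocalRing_scaled_Ω {g : G} (hg : p ∣ orderOf g) (c : MonoidAlgebra (Res M) G) :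
    MemLocalRing M ((p : ℂ) ^ a * L.Ω g c /
      (Nat.card (Subgroup.centralizer ({g} : Set G)) : ℂ)) := by
  by_cases h : ∃ x : G,
      PairLE p (⊤ : Subgroup G) (Subgroup.zpowers (x * ppart p g * x⁻¹)) (conjA x c) D e0
  swap
  · rw [Ω, dif_neg h, mul_zero, zero_div]; exact zero_mem (locRing M)
  obtain ⟨hv, g', c', hgg, -, hpp, hcc, hmem, -, -, hpair, -⟩ :=
    L.exists_local_block hg (L.mem_blocksAt h.choose_spec) h.choose_spec
  have hΩ : L.Ω g c = val L.θ g' c' := by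
    rw [Ω, dif_pos h, dif_pos (hgg ▸ g'.2)]
    rw [show (⟨h.choose * g * h.choose⁻¹, hgg ▸ g'.2⟩ : L.C) = g' from Subtype.ext hgg.symm,
      ← hcc, Function.leftInverse_invFun (mapG_injective L.C.subtype_injective) c']
  set v := ppart p g'
  have hvP : v ∈ L.P := hpair.le (Subgroup.mem_zpowers _)
  obtain ⟨e2, -, HK⟩ := L.nilp.exists_abNilp_local hvP
  set K := Subgroup.centralizer ({v} : Set L.C) with hK
  have hgK : Subgroup.centralizer ({g'} : Set L.C) ≤ K := by
    obtain ⟨j, hj⟩ := zpowers_le_of_isPPart (ppart_spec (p := p) g') (Subgroup.mem_zpowers v)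
    intro w hw
    exact Subgroup.mem_centralizer_singleton_iff.2 (by
      rw [← hj]
      exact (Commute.zpow_right (Subgroup.mem_centralizer_singleton_iff.1 hw : w * _ = _ * w) j).eq)
  have hg'K : g' ∈ K := hgK (Subgroup.mem_centralizer_singleton_iff.2 rfl)
  obtain ⟨hbl, hle, -⟩ := belowBlock_spec L.nilp.hM L.nilp.hB L.nilp.hmax hvP
  have hc' : c' = subIdem M K (belowBlock (M := M) p L.P L.e' v) :=
    (existsUnique_pairLE L.nilp.hmax.1.1 (Subgroup.zpowers_le.2 hvP)).unique hpair hle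
  have hcardK : Nat.card (Subgroup.centralizer ({g} : Set G)) =
      Nat.card (Subgroup.centralizer ({(⟨g', hg'K⟩ : K)} : Set K)) := by
    have h1 : (Subgroup.centralizer ({(⟨g', hg'K⟩ : K)} : Set K)).map K.subtype =
        Subgroup.centralizer ({g'} : Set L.C) := by
      ext w
      constructor
      · rintro ⟨w, hw, rfl⟩
        exact Subgroup.mem_centralizer_singleton_iff.2
          (congrArg Subtype.val (Subgroup.mem_centralizer_singleton_iff.1 hw))
      · exact fun hw => ⟨⟨w, hgK hw⟩, Subgroup.mem_centralizer_singleton_iff.2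
          (Subtype.ext (Subgroup.mem_centralizer_singleton_iff.1 hw)), rfl⟩
    obtain ⟨j, hj⟩ := zpowers_le_of_isPPart (ppart_spec (p := p) g') (Subgroup.mem_zpowers v)
    obtain ⟨i, hi⟩ := L.hzv ((v : L.C) : G) (Subgroup.mem_subgroupOf.1 hvP) (by
      rw [hpp]; exact fun h1 => ppart_ne_one hg (conj_eq_one_iff.1 h1))
    have h2 : (Subgroup.centralizer ({g'} : Set L.C)).map L.C.subtype =
        cj h.choose (Subgroup.centralizer ({g} : Set G)) := by
      ext w
      rw [mem_cj, Subgroup.mem_centralizer_singleton_iff]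
      constructor
      · rintro ⟨w, hw, rfl⟩
        have h3 := congrArg Subtype.val (Subgroup.mem_centralizer_singleton_iff.1 hw)
        simp only [Subgroup.coe_mul] at h3
        rw [hgg] at h3
        show h.choose⁻¹ * (w : G) * h.choose * g = g * (h.choose⁻¹ * (w : G) * h.choose)
        calc _ = h.choose⁻¹ * ((w : G) * (h.choose * g * h.choose⁻¹)) * h.choose := by group
          _ = _ := by rw [h3]; group
      · intro hw
        have h3 : Commute w (g' : G) := by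
          show w * _ = _ * w
          rw [hgg]
          calc w * (h.choose * g * h.choose⁻¹)
              = h.choose * (h.choose⁻¹ * w * h.choose * g) * h.choose⁻¹ := by group
            _ = _ := by rw [hw]; group
        have hwC : w ∈ L.C := Subgroup.mem_centralizer_singleton_iff.2 (by
          rw [← hi, ← hj]
          push_cast
          exact ((h3.zpow_right j).zpow_right i).eq)
        exact ⟨⟨w, hwC⟩, Subgroup.mem_centralizer_singleton_iff.2 (Subtype.ext h3.eq), rfl⟩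
    rw [← Subgroup.card_map_of_injective (f := K.subtype) K.subtype_injective
        (K := Subgroup.centralizer ({(⟨g', hg'K⟩ : K)} : Set K)), h1,
      ← Subgroup.card_map_of_injective (f := L.C.subtype) L.C.subtype_injective
        (K := Subgroup.centralizer ({g'} : Set L.C)), h2]
    exact (Subgroup.card_map_of_injective (MulAut.conj h.choose).injective).symm
  rw [hΩ, hc', show val L.θ g' (subIdem M K _) =
    subFun K (belowBlock (M := M) p L.P L.e' v) L.θ ⟨g', hg'K⟩ from val_subIdem L.θ K hbl ⟨g', hg'K⟩,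
    subFun, Finset.mul_sum, Finset.sum_div]
  refine memLocalRing_sum fun ξ hξ => ?_
  rw [hcardK]
  set g2 : K := ⟨g', hg'K⟩
  have hsc := HK.memLocalRing_scale (BrauerCharacters.mem_blockFinset.1 hξ)
  have hP : Nat.card (L.P.subgroupOf K) = p ^ a :=
    ((Nat.card_congr (Subgroup.subgroupOfEquivOfLe
      (le_centralizer_of_mem L.nilp.comm hvP)).toEquiv).trans
      (Nat.card_congr (Subgroup.subgroupOfEquivOfLe L.le_C).toEquiv)).trans L.base.card_D
  rw [hP] at hsc
  have h1 : (ξ : K → ℂ) 1 ≠ 0 := CharTheory.apply_one_ne_zero_of_isIrr ξ.2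
  have hkey : (p : ℂ) ^ a * ((subMult K L.θ ξ : ℂ) * (ξ : K → ℂ) g2) /
      (Nat.card (Subgroup.centralizer ({g2} : Set K)) : ℂ) =
      (subMult K L.θ ξ : ℂ) * (centralChar (ξ : K → ℂ) g2 *
        ((Nat.card K : ℂ)⁻¹ * (ξ : K → ℂ) 1 * ((p ^ a : ℕ) : ℂ))) := by
    have h2 : (Nat.card (Subgroup.centralizer ({g2} : Set K)) : ℂ) *
        ((Subgroup.centralizer ({g2} : Set K)).index : ℂ) = (Nat.card K : ℂ) := by
      exact_mod_cast Subgroup.card_mul_index _
    have h3 : (Nat.card (Subgroup.centralizer ({g2} : Set K)) : ℂ) ≠ 0 :=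
      Nat.cast_ne_zero.2 Nat.card_pos.ne'
    have h4 : ((Subgroup.centralizer ({g2} : Set K)).index : ℂ) ≠ 0 :=
      Nat.cast_ne_zero.2 Subgroup.index_ne_zero_of_finite
    rw [centralChar, ← h2]
    push_cast
    field_simp
  rw [hkey]
  exact memLocalRing_mul (memLocalRing_of_isIntegral
      (map_isIntegral_int (Int.castRingHom ℂ) (Algebra.IsIntegral.isIntegral _)))
    (memLocalRing_mul (memLocalRing_of_isIntegral (Blocks.isIntegral_centralChar ξ g2)) hsc)

/-- The data. -/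
theorem exists_cycData : Nonempty (CycData p M B D e0 a e) := by
  haveI := L.base.finite_homs
  obtain ⟨X, Y, hu, hd, hX, hXs, hYs⟩ := L.exists_split
  obtain ⟨l1, hl1⟩ := L.base.exists_ne_one
  set lam : IrrCharacter G → (D →* ℂˣ) := fun ψ =>
    if h : ψ ∈ Y then (hYs ψ h).choose else 1 with hlam
  have hlam' : ∀ ψ ∈ Y, lam ψ ≠ 1 ∧ ∃ s : ℤ, (s = 1 ∨ s = -1) ∧
      ∀ l : D →* ℂˣ, l ≠ 1 → L.dif ψ l = if l ∈ orb p a e (lam ψ) then s else 0 := fun ψ h => by
    simp only [hlam, dif_pos h]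
    exact (hYs ψ h).choose_spec
  choose! sY hsY hdY using fun ψ h => (hlam' ψ h).2
  choose! sX hsX hdX using hXs
  have hsplit : ∀ f : IrrCharacter G → ℂ, (∀ χ, χ ∉ B → f χ = 0) →
      ∑ χ : IrrCharacter G, f χ = ∑ χ ∈ X.toFinset, f χ + ∑ χ ∈ Y.toFinset, f χ := by
    intro f hf
    rw [← Finset.sum_union (Set.disjoint_toFinset.2 hd)]
    refine (Finset.sum_subset (Finset.subset_univ _) fun χ _ hχ => hf χ fun h => hχ ?_).symm
    rw [hu] at h
    simpa using h
  -- one exceptional member in every orbit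
  have huniq : ∀ l : D →* ℂˣ, l ≠ 1 →
      ∃ ψ, (Y.toFinset.filter fun ψ => l ∈ orb p a e (lam ψ)) = {ψ} := by
    intro l hl
    refine Finset.card_eq_one.1 ?_
    have h := congrArg (fun n : ℤ => (n : ℂ)) (L.sum_dif_mul_dif hl hl)
    simp only [Int.cast_sum, Int.cast_mul, if_pos (L.base.mem_orb_self l), Int.cast_add,
      Int.cast_natCast, Int.cast_one] at h
    have e1 : ∀ χ ∈ X.toFinset, (L.dif χ l : ℂ) * (L.dif χ l : ℂ) = 1 := fun χ hχ => by
      rw [hdX χ (Set.mem_toFinset.1 hχ) l hl]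
      rcases hsX χ (Set.mem_toFinset.1 hχ) with h | h <;> simp [h]
    have e2 : ∀ ψ ∈ Y.toFinset, (L.dif ψ l : ℂ) * (L.dif ψ l : ℂ) =
        if l ∈ orb p a e (lam ψ) then 1 else 0 := fun ψ hψ => by
      rw [hdY ψ (Set.mem_toFinset.1 hψ) l hl]
      rcases hsY ψ (Set.mem_toFinset.1 hψ) with h | h <;> split_ifs <;> simp [h]
    rw [hsplit _ fun χ hχ => by rw [L.dif_eq_zero_of_notMem hχ]; simp,
      Finset.sum_congr rfl e1, Finset.sum_congr rfl e2, Finset.sum_const,
      ← Set.ncard_eq_toFinset_card', ← Nat.card_coe_set_eq, hX, nsmul_one, Finset.sum_boole,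
      add_left_cancel_iff] at h
    exact_mod_cast h
  obtain ⟨ψ1, hψ1⟩ := huniq l1 hl1
  have hψ1Y : ψ1 ∈ Y := Set.mem_toFinset.1 (Finset.mem_filter.1
    (hψ1.symm ▸ Finset.mem_singleton_self ψ1 : ψ1 ∈ Y.toFinset.filter _)).1
  have hinj : ∀ ψ ∈ Y, ∀ ψ' ∈ Y, lam ψ ∈ orb p a e (lam ψ') → ψ = ψ' := by
    intro ψ hψ ψ' hψ' h
    obtain ⟨w, hw⟩ := huniq (lam ψ) (hlam' ψ hψ).1
    have h1 : ψ ∈ ({w} : Finset _) := hw ▸ Finset.mem_filter.2
      ⟨Set.mem_toFinset.2 hψ, L.base.mem_orb_self _⟩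
    have h2 : ψ' ∈ ({w} : Finset _) := hw ▸ Finset.mem_filter.2 ⟨Set.mem_toFinset.2 hψ', h⟩
    rw [Finset.mem_singleton.1 h1, Finset.mem_singleton.1 h2]
  -- the regular elements
  have hreg : ∀ ψ ∈ Y, ∀ g : G, ¬ p ∣ orderOf g →
      (sY ψ : ℂ) * (ψ : G → ℂ) g + ∑ χ ∈ X.toFinset, (sX χ : ℂ) * (χ : G → ℂ) g = 0 := by
    intro ψ hψ g hg
    have hne := (hlam' ψ hψ).1
    have h := L.sum_dif_mul_apply (lam ψ) hg
    rw [hsplit _ fun χ hχ => by rw [L.dif_eq_zero_of_notMem hχ]; simp,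
      Finset.sum_congr rfl fun χ hχ => by rw [hdX χ (Set.mem_toFinset.1 hχ) _ hne],
      Finset.sum_eq_single_of_mem ψ (Set.mem_toFinset.2 hψ) fun φ hφ hne' => ?_,
      hdY ψ hψ _ hne, if_pos (L.base.mem_orb_self _)] at h
    · rw [add_comm]; exact h
    · rw [hdY φ (Set.mem_toFinset.1 hφ) _ hne, if_neg fun hm =>
        hne' (hinj ψ hψ φ (Set.mem_toFinset.1 hφ) hm).symm, Int.cast_zero, zero_mul]
  have hsgn : ∀ ψ ∈ Y, sY ψ = sY ψ1 := by
    intro ψ hψ
    have h1 := hreg ψ hψ 1 (by simp [(Fact.out : p.Prime).ne_one])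
    have h2 := hreg ψ1 hψ1Y 1 (by simp [(Fact.out : p.Prime).ne_one])
    rw [← h2, add_left_inj, (BrauerCharacters.charDegree_spec ψ).1,
      (BrauerCharacters.charDegree_spec ψ1).1] at h1
    have h3 : sY ψ * (charDegree (ψ : G → ℂ) : ℤ) = sY ψ1 * (charDegree (ψ1 : G → ℂ) : ℤ) := by
      exact_mod_cast h1
    have p1 := (BrauerCharacters.charDegree_spec ψ).2.1
    have p2 := (BrauerCharacters.charDegree_spec ψ1).2.1
    rcases hsY ψ hψ with h | h <;> rcases hsY ψ1 hψ1Y with h' | h' <;> rw [h, h'] at h3 ⊢ <;> omega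
  refine ⟨{
    X := X, Y := Y, δ := fun χ => -sX χ, δ₀ := -sY ψ1, lam := lam, Ω := L.Ω
    e_dvd := L.base.inertia.1, cyclic := L.base.cyclic, card_D := L.base.card_D
    a_pos := L.base.a_pos, union := hu, disj := hd, card_X := hX
    sign := fun χ hχ => by have := hsX χ hχ; omega
    sign₀ := by have := hsY ψ1 hψ1Y; omega
    lam_ne := fun ψ hψ => (hlam' ψ hψ).1
    lam_exists := fun l hl => ?_
    lam_inj := fun ψ hψ ψ' hψ' ⟨r, hr, h⟩ => hinj ψ hψ ψ' hψ' (Finset.mem_image.2 ⟨r, hr, h.symm⟩)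
    reg_eq := fun ψ hψ ψ' hψ' g hg => ?_
    rel := fun ψ hψ g hg => ?_
    value := fun χ hχ g hg => ?_
    mem_Ω := fun g _ c => L.memLocalRing_Ω g c
    dvd_Ω := fun g hg c => L.memLocalRing_scaled_Ω hg c
    stab_pow := fun t ht => ?_
    pow_stab := fun r hr => ?_ }⟩
  · obtain ⟨ψ, hψ⟩ := huniq l hl
    have hm := Finset.mem_filter.1
      (hψ.symm ▸ Finset.mem_singleton_self ψ : ψ ∈ Y.toFinset.filter _)
    obtain ⟨r, hr, hrl⟩ := Finset.mem_image.1 hm.2
    obtain ⟨t, ht, hrt⟩ := L.base.exists_inv hr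
    refine ⟨ψ, Set.mem_toFinset.1 hm.1, t, ht, ?_⟩
    rw [← hrl, L.base.hom_pow_val_mul, hrt, L.base.hom_pow_one]
  · have h1 := hreg ψ hψ g hg
    rw [← hreg ψ' hψ' g hg, add_left_inj, hsgn ψ hψ, hsgn ψ' hψ'] at h1
    refine mul_left_cancel₀ ?_ h1
    rcases hsY ψ1 hψ1Y with h | h <;> simp [h]
  · have h1 := hreg ψ hψ g hg
    rw [hsgn ψ hψ] at h1
    rw [finsum_mem_eq_toFinset_sum]
    push_cast
    simp only [neg_mul, Finset.sum_neg_distrib]
    linear_combination -h1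
  · rw [apply_eq_sum_val (M := M) (p := p) χ g]
    refine Finset.sum_congr rfl fun c hc => ?_
    rw [L.val_singular hχ hg hc, LamF_congr (ppart_ne_one hg) fun v hv hv1 => ?_]
    rw [hu] at hχ
    split_ifs with hχX
    · rw [L.fn_const (hdX χ hχX) hv hv1]; simp
    · have hχY := hχ.resolve_left hχX
      rw [L.fn_orb (hlam' χ hχY).1 (hdY χ hχY) hv, hsgn χ hχY]
      push_cast; ring
  · obtain ⟨i, c, hc, rfl⟩ := L.decomp t ht
    refine ⟨L.r0 ^ i, L.pow_r0_mem i, fun x hx => ?_⟩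
    rw [← L.pow i x hx, mul_inv_rev]
    calc L.t0 ^ i * c * x * (c⁻¹ * (L.t0 ^ i)⁻¹)
        = L.t0 ^ i * (c * x) * c⁻¹ * (L.t0 ^ i)⁻¹ := by group
      _ = L.t0 ^ i * x * (L.t0 ^ i)⁻¹ := by
        rw [← Subgroup.mem_centralizer_iff.1 hc x hx]; group
  · rw [← L.image, Finset.mem_image] at hr
    obtain ⟨i, -, rfl⟩ := hr
    exact ⟨_, pow_mem L.ht0 i, L.pow i⟩

end Loc

/-- A block with cyclic defect group has this shape. -/
theorem exists_cycData {G : Type*} [Group G] [Fintype G] {M : Ideal AlgInt} [M.IsPrime] {p : ℕ}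
    [Fact p.Prime] {B : Set (IrrCharacter G)} {D : Subgroup G} {e0 : MonoidAlgebra (Res M) G}
    {a e : ℕ} [NeZero (p ^ a)] (hM : IsPModular p M) (hB : IsPBlock M B)
    (hmax : IsMaxPair p (⊤ : Subgroup G) (redElem M (blockCoeff B)) D e0) (hcyc : IsCyclic D)
    (ha : 1 ≤ a) (hDa : Nat.card D = p ^ a)
    (he : (Subgroup.centralizer (D : Set G)).relIndex (pairStab (⊤ : Subgroup G) D e0) = e) :
    Nonempty (CycData p M B D e0 a e) := by
  haveI := Blocks.charP_res hM
  haveI : M.IsMaximal := hM.2.1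
  haveI : IsAlgClosed (Res M) := Blocks.isAlgClosed_res
  obtain ⟨L⟩ := (CycBlock.mk (p := p) (M := M) hM hB hmax hcyc ha hDa he).exists_loc
  exact L.exists_cycData

end CfsgLib.Jordan.CyclicDefect
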