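import Cfsg.Agent.Lib.Jordan.CyclicDefect.Auto
import Cfsg.Agent.Lib.Jordan.CyclicDefect.Ranks

/-!
# The twist of the block algebra and the maps pushing kernels

For an action of the block algebra on a space with an operator inducing the automorphism, the
hypotheses on the layers: the twist, the sums of conjugates pushing the kernels into the opposite
images, and the element congruent to a power of the generator.
-/

set_option autoImplicit false
set_option linter.style.haveILetI false
set_option linter.unusedSectionVars false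

noncomputable section

namespace CfsgLib.Jordan.CyclicDefect

open Cfsg CfsgLib.Blocks MonoidAlgebra CfsgLib.BrauerPairs CfsgLib.BlockStar Module
open CfsgLib.BrauerCharacters (annIdeal annMap mem_annIdeal annMap_surjective annMap_eq_zero
  annMap_eq_iff)

theorem exists_add_pi_pow {K A : Type*} [Field K] [Ring A] [Algebra K A] (π : A)
    (hπ : ∀ x, Commute π x) (c : K) (y : A) (i : ℕ) :
    ∃ y', (algebraMap K A c + π * y) ^ i = algebraMap K A (c ^ i) + π * y' := by
  induction i with
  | zero => exact ⟨0, by simp⟩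
  | succ i ih =>
    obtain ⟨y', hy'⟩ := ih
    refine ⟨algebraMap K A (c ^ i) * y + y' * (algebraMap K A c + π * y), ?_⟩
    rw [pow_succ, hy', pow_succ, map_mul, add_mul, mul_add (algebraMap K A (c ^ i)),
      mul_add π, ← mul_assoc π (algebraMap K A (c ^ i)) y,
      (hπ (algebraMap K A (c ^ i))).eq, mul_assoc (algebraMap K A (c ^ i)) π y, add_assoc,
      mul_assoc π y']

variable {C : Type*} [Group C] [Fintype C] {M : Ideal AlgInt} [M.IsPrime] {p : ℕ} [Fact p.Prime]
  [CharP (Res M) p] [IsAlgClosed (Res M)]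
  {b : Set (IrrCharacter C)} {P : Subgroup C} {e0 : MonoidAlgebra (Res M) C}
  (S : Above M) (H : AbNilp p M b P e0) {θ : IrrCharacter C} (hθ : θ ∈ b)

theorem AbNilp.pi_one : H.pi S hθ 1 = 0 := by rw [AbNilp.pi, H.annMap_zK_one, sub_self]

/-- The nilpotent of a power is the multiple of the generator's, modulo higher terms. -/
theorem AbNilp.pi_pow_eq (u : P) (k : ℕ) :
    ∃ y, H.pi S hθ (u ^ k) =
      H.pi S hθ u * (algebraMap S.K (H.Alg S) (k : S.K) + H.pi S hθ u * y) := by
  induction k with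
  | zero => exact ⟨0, by rw [pow_zero, H.pi_one]; simp⟩
  | succ k ih =>
    obtain ⟨y, hy⟩ := ih
    refine ⟨y + algebraMap S.K (H.Alg S) (k : S.K) + H.pi S hθ u * y, ?_⟩
    have h : H.pi S hθ (u ^ (k + 1)) =
        H.pi S hθ (u ^ k) + H.pi S hθ u + H.pi S hθ u * H.pi S hθ (u ^ k) := by
      have h1 : annMap (H.eK S) (H.zK S hθ (u ^ (k + 1))) =
          annMap (H.eK S) (H.zK S hθ u) * annMap (H.eK S) (H.zK S hθ (u ^ k)) := by
        rw [← map_mul, H.zK_mul, ← pow_succ']
      simp only [AbNilp.pi, h1, sub_mul, mul_sub, mul_one, one_mul]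
      abel
    rw [h, hy, Nat.cast_succ, map_add, map_one]
    simp only [mul_add, mul_one]
    abel

theorem AbNilp.exists_pi_eq {u : P} (hu : ∀ v : P, v ∈ Subgroup.zpowers u) (v : P) :
    ∃ k : ℕ, ∃ y, v = u ^ k ∧ H.pi S hθ v =
      H.pi S hθ u * (algebraMap S.K (H.Alg S) (k : S.K) + H.pi S hθ u * y) := by
  obtain ⟨k, hk⟩ := mem_powers_iff_mem_zpowers.2 (hu v)
  obtain ⟨y, hy⟩ := H.pi_pow_eq S hθ u k
  have hk' : u ^ k = v := hk
  exact ⟨k, y, hk'.symm, hk' ▸ hy⟩

variable (σ : C ≃* C) (hσP : P.map σ.toMonoidHom = P) (hσe : mapG σ.toMonoidHom e0 = e0)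
  (hfix : compIrr σ θ = θ)

theorem AbNilp.autAlg_pi (v : P) :
    H.autAlg S hθ σ hσP hσe hfix (H.pi S hθ v) = H.pi S hθ (restrictP σ hσP v) := by
  rw [AbNilp.pi, map_sub, map_one, H.autAlg_annMap, H.mapG_zK S hθ σ hσP hσe hfix, AbNilp.pi]

theorem AbNilp.autAlg_iterate_annMap (i : ℕ) (a : MonoidAlgebra S.K C) :
    (H.autAlg S hθ σ hσP hσe hfix)^[i] (annMap (H.eK S) a) =
      annMap (H.eK S) ((mapG (k := S.K) σ.toMonoidHom)^[i] a) := by
  induction i with
  | zero => rfl
  | succ i ih =>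
    rw [Function.iterate_succ_apply', Function.iterate_succ_apply', ih, H.autAlg_annMap]

theorem AbNilp.autAlg_iterate_inner {i : ℕ} {c0 : C}
    (hc0 : ∀ g, (σ : C → C)^[i] g = c0 * g * c0⁻¹) (y : H.Alg S) :
    (H.autAlg S hθ σ hσP hσe hfix)^[i] y =
      annMap (H.eK S) (single c0 1) * y * annMap (H.eK S) (single c0⁻¹ 1) := by
  obtain ⟨a, rfl⟩ := annMap_surjective y
  rw [H.autAlg_iterate_annMap, ← map_mul, ← map_mul]
  congr 1
  induction a using MonoidAlgebra.induction_linear with
  | zero => simp [iterate_map_zero]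
  | add x y hx hy => rw [iterate_map_add, hx, hy, mul_add, add_mul]
  | single g r =>
    rw [single_mul_single, single_mul_single, one_mul, mul_one, ← hc0]
    clear hc0
    induction i with
    | zero => rfl
    | succ i ih =>
      rw [Function.iterate_succ_apply', Function.iterate_succ_apply', ih]
      simp [mapG]

/-- An element congruent to the `e`-th power of the generator fixed by the automorphism. -/
theorem AbNilp.exists_theta [Fintype P] {u : P} (hu : ∀ v : P, v ∈ Subgroup.zpowers u) {e : ℕ}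
    (he : 0 < e) (he0 : (e : S.K) ≠ 0) {c0 : C} (hc0 : ∀ g, (σ : C → C)^[e] g = c0 * g * c0⁻¹)
    {d : ℕ}
    {ρ : C →* Matrix (Fin d) (Fin d) S.V}
    (htr : ∀ g, (((ρ g).trace : S.V) : ℂ) = (θ : C → ℂ) g)
    (hsc : ∀ f : Matrix (Fin d) (Fin d) S.V, (∀ g, Commute f (ρ g)) → ∃ c : S.V, f = c • 1) :
    ∃ y, ∑ i ∈ Finset.range e, (H.autAlg S hθ σ hσP hσe hfix)^[i] (H.pi S hθ u ^ e) =
      (e : S.K) • (H.pi S hθ u ^ e * (1 + H.pi S hθ u * y)) := by
  classical
  set α := H.autAlg S hθ σ hσP hσe hfix with hα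
  set π := H.pi S hθ u with hπ
  set A := algebraMap S.K (H.Alg S) with hA
  have hcomm : ∀ x, Commute π x := H.commute_pi S hθ u
  obtain ⟨k, y1, hk, hy1⟩ := H.exists_pi_eq S hθ hu (restrictP σ hσP u)
  have hα1 : α π = π * (A (k : S.K) + π * y1) := by rw [hα, hπ, H.autAlg_pi]; exact hy1
  have hiter : ∀ i, ∃ y, α^[i] π = π * (A ((k : S.K) ^ i) + π * y) := by
    intro i
    induction i with
    | zero => exact ⟨0, by simp⟩
    | succ i ih =>
      obtain ⟨y, hy⟩ := ih
      refine ⟨y1 * A ((k : S.K) ^ i) + (A (k : S.K) + π * y1) *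
        (A (k : S.K) + π * y1) * α y, ?_⟩
      rw [Function.iterate_succ_apply', hy, map_mul, map_add, map_mul, hA, AlgHom.commutes, ← hA,
        hα1, pow_succ', map_mul]
      set Q := A (k : S.K) + π * y1 with hQ
      have e1 : π * Q * (π * Q * α y) = π * (π * (Q * Q * α y)) := by
        simp only [mul_assoc]
        rw [← mul_assoc Q π, ← (hcomm Q).eq]
        simp only [mul_assoc]
      rw [mul_add (π * Q), e1]
      simp only [hQ, mul_add, add_mul, mul_assoc]
      abel
  by_cases hN : Nat.card P = 1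
  · refine ⟨0, ?_⟩
    have h0 : π = 0 := by
      have := H.pi_pow_card S hθ u
      rwa [hN, pow_one] at this
    simp [h0, zero_pow he.ne', iterate_map_zero]
  -- the exponent is a root of unity
  have hke : (k : S.K) ^ e = 1 := by
    obtain ⟨Mdl, hMπ, -, hex⟩ := H.exists_model S hθ ρ htr hsc hu
    obtain ⟨y, hy⟩ := hiter e
    rw [H.autAlg_iterate_inner S hθ σ hσP hσe hfix hc0] at hy
    have h1 : annMap (H.eK S) (single c0 1) * π * annMap (H.eK S) (single c0⁻¹ 1) = π := by
      rw [← (hcomm _).eq, mul_assoc, ← map_mul, single_mul_single, mul_inv_cancel, one_mul,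
        ← MonoidAlgebra.one_def, map_one, mul_one]
    rw [h1] at hy
    have h2 : π * (A ((k : S.K) ^ e - 1) + π * y) = 0 := by
      rw [map_sub, map_one, sub_add_eq_add_sub, mul_sub, ← hy, mul_one, sub_self]
    obtain ⟨w, hw⟩ := hex 1 Nat.card_pos _ (by rw [pow_one, hMπ, ← hπ]; exact h2)
    have h3 := congrArg (H.algRep S hθ ρ htr) hw
    rw [map_add, map_mul, map_mul, map_pow, hMπ, hA, AlgHom.commutes, hπ,
      H.algRep_pi S hθ ρ htr hsc, zero_mul, add_zero,
      zero_pow (by have := Nat.card_pos (α := P); omega), zero_mul] at h3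
    have hd := H.degree_pos S ρ htr
    have h4 := congrFun (congrFun h3 ⟨0, hd⟩) ⟨0, hd⟩
    simp [Matrix.algebraMap_matrix_apply] at h4
    exact sub_eq_zero.1 h4
  have hterm : ∀ i, ∃ y, α^[i] (π ^ e) = π ^ e + π ^ e * (π * y) := by
    intro i
    obtain ⟨y, hy⟩ := hiter i
    obtain ⟨y', hy'⟩ := exists_add_pi_pow π hcomm ((k : S.K) ^ i) y e
    refine ⟨y', ?_⟩
    rw [iterate_map_pow, hy, (hcomm _).mul_pow, hy', ← pow_mul, mul_comm i e, pow_mul, hke, one_pow,
      map_one, mul_add, mul_one]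
  choose yv hyv using hterm
  refine ⟨(e : S.K)⁻¹ • ∑ i ∈ Finset.range e, yv i, ?_⟩
  rw [Finset.sum_congr rfl fun i _ => hyv i, Finset.sum_add_distrib, Finset.sum_const,
    Finset.card_range, mul_add, mul_one, smul_add, ← Nat.cast_smul_eq_nsmul S.K, ← Finset.mul_sum,
    ← Finset.mul_sum]
  congr 1
  rw [mul_smul_comm, mul_smul_comm, smul_smul, mul_inv_cancel₀ he0, one_smul]

section Action

variable {X : Type*} [AddCommGroup X] [Module S.K X] [FiniteDimensional S.K X]
  (φ : H.Alg S →ₐ[S.K] Module.End S.K X) (t : (Module.End S.K X)ˣ)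

/-- The twist of the action. -/
theorem AbNilp.exists_twist [Fintype P] {u : P} (hu : ∀ v : P, v ∈ Subgroup.zpowers u) {e : ℕ}
    {c0 : C} (htpow : (t : Module.End S.K X) ^ e = φ (annMap (H.eK S) (single c0 1))) {d : ℕ}
    {ρ : C →* Matrix (Fin d) (Fin d) S.V}
    (htr : ∀ g, (((ρ g).trace : S.V) : ℂ) = (θ : C → ℂ) g)
    (hconj : ∀ y, φ (H.autAlg S hθ σ hσP hσe hfix y) * (t : Module.End S.K X) = t * φ y)
    (Mdl : PiModel S.K (H.Alg S) (Nat.card P) d) (hMπ : Mdl.π = H.pi S hθ u)
    (hker : ∀ x, H.algRep S hθ ρ htr x = 0 → ∃ y, x = Mdl.π * y) :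
    ∃ τ, Twist Mdl φ t τ e := by
  classical
  set α := H.autAlg S hθ σ hσP hσe hfix with hα
  set R := H.algRep S hθ ρ htr with hR
  set T : Module.End S.K X := (↑t⁻¹ : Module.End S.K X) with hT
  have hTt : T * t = 1 := Units.inv_mul t
  have htT : (t : Module.End S.K X) * T = 1 := Units.mul_inv t
  have hsurj := H.autAlg_surjective S hθ σ hσP hσe hfix
  obtain ⟨U, hU, hUy⟩ := H.exists_intertwiner S hθ σ hσP hσe hfix ρ htr
  have hkill : ∀ y v, R y = 0 → φ Mdl.π v = 0 → φ y v = 0 := fun y v hy hv => by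
    obtain ⟨z, rfl⟩ := hker y hy
    rw [(Mdl.comm z).eq, map_mul, Module.End.mul_apply, hv, map_zero]
  have hTφ : ∀ y, φ y * T = T * φ (α y) := fun y => by
    calc φ y * T = T * (t * φ y) * T := by rw [← mul_assoc, hTt, one_mul]
      _ = T * (φ (α y) * t) * T := by rw [hconj]
      _ = T * φ (α y) := by rw [mul_assoc, mul_assoc, htT, mul_one]
  -- the image of the generator
  obtain ⟨y0, hy0⟩ : ∃ y0, φ Mdl.π * T = T * (φ Mdl.π * φ y0) := by
    obtain ⟨k, z, -, hz⟩ := H.exists_pi_eq S hθ hu (restrictP σ hσP u)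
    exact ⟨algebraMap S.K (H.Alg S) (k : S.K) + H.pi S hθ u * z, by
      rw [hTφ, ← map_mul, hMπ, hα, H.autAlg_pi, hz]⟩
  obtain ⟨y1, hy1⟩ : ∃ y1, T * φ Mdl.π = φ Mdl.π * (φ y1 * T) := by
    have hs : Function.Surjective (restrictP σ hσP) := Finite.surjective_of_injective
      fun v w h => Subtype.ext (σ.injective (congrArg Subtype.val h))
    obtain ⟨w, hw⟩ := hs u
    obtain ⟨k, z, -, hz⟩ := H.exists_pi_eq S hθ hu w
    refine ⟨algebraMap S.K (H.Alg S) (k : S.K) + H.pi S hθ u * z, ?_⟩
    rw [hMπ, ← mul_assoc, ← map_mul, ← hz, hTφ, hα, H.autAlg_pi, hw]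
  have hrange : ∀ j, ∃ y, T * φ Mdl.π ^ j = φ Mdl.π ^ j * (φ y * T) := by
    intro j
    induction j with
    | zero => exact ⟨1, by simp⟩
    | succ j ih =>
      obtain ⟨y, hy⟩ := ih
      refine ⟨y * y1, ?_⟩
      rw [pow_succ, ← mul_assoc, hy, map_mul]
      calc φ Mdl.π ^ j * (φ y * T) * φ Mdl.π
          = φ Mdl.π ^ j * (φ y * φ Mdl.π) * (φ y1 * T) := by
            simp only [mul_assoc, hy1]
        _ = φ Mdl.π ^ j * (φ Mdl.π * φ y) * (φ y1 * T) := by
            rw [← map_mul φ y Mdl.π, ← (Mdl.comm y).eq, map_mul]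
        _ = _ := by simp only [mul_assoc]
  set τ : Module.End S.K X := T * φ U with hτ
  have hPT : ∀ v, φ Mdl.π v = 0 → φ Mdl.π (T v) = 0 := fun v hv => by
    rw [← Module.End.mul_apply, hy0, ← map_mul, (Mdl.comm y0).eq, map_mul, Module.End.mul_apply,
      Module.End.mul_apply, hv, map_zero, map_zero]
  have hPφ : ∀ y v, φ Mdl.π v = 0 → φ Mdl.π (φ y v) = 0 := fun y v hv => by
    rw [← Module.End.mul_apply, ← map_mul, (Mdl.comm y).eq, map_mul, Module.End.mul_apply, hv,
      map_zero]
  have hPτ : ∀ i v, φ Mdl.π v = 0 → φ Mdl.π ((τ ^ i) v) = 0 := by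
    intro i
    induction i with
    | zero => exact fun v hv => hv
    | succ i ih =>
      intro v hv
      rw [pow_succ', Module.End.mul_apply, hτ, Module.End.mul_apply]
      exact hPT _ (hPφ U _ (ih v hv))
  have hcomm : ∀ y v, φ Mdl.π v = 0 → τ (φ y v) = φ y (τ v) := fun y v hv => by
    have h1 : φ (α y * U - U * y) v = 0 := hkill _ v (by
      rw [map_sub, map_mul, map_mul, hUy, sub_self]) hv
    rw [map_sub, LinearMap.sub_apply, sub_eq_zero] at h1
    have h2 := congrArg T h1
    rw [map_mul φ U y, map_mul φ (α y) U, Module.End.mul_apply, Module.End.mul_apply] at h2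
    rw [hτ, Module.End.mul_apply, Module.End.mul_apply, ← h2,
      ← Module.End.mul_apply, ← Module.End.mul_apply, ← hTφ, mul_assoc]
    rfl
  -- the powers
  have hTpow : ∀ i y, φ y * T ^ i = T ^ i * φ (α^[i] y) := by
    intro i
    induction i with
    | zero => simp
    | succ i ih =>
      intro y
      rw [pow_succ, ← mul_assoc, ih, mul_assoc, hTφ, Function.iterate_succ_apply', ← mul_assoc]
  have hunit : ∀ i y, IsUnit (R y) → IsUnit (R (α^[i] y)) := by
    intro i
    induction i with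
    | zero => exact fun y hy => hy
    | succ i ih =>
      intro y hy
      rw [Function.iterate_succ_apply']
      have h := hUy (α^[i] y)
      have h' : IsUnit (R U * R (α^[i] y)) := hU.mul (ih y hy)
      rw [← h, Matrix.isUnit_iff_isUnit_det, Matrix.det_mul, IsUnit.mul_iff] at h'
      exact (Matrix.isUnit_iff_isUnit_det _).2 h'.1
  have hτpow : ∀ i, ∃ w, IsUnit (R w) ∧ τ ^ i = T ^ i * φ w := by
    intro i
    induction i with
    | zero => exact ⟨1, by simp, by simp⟩
    | succ i ih =>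
      obtain ⟨w, hw, hw'⟩ := ih
      refine ⟨α^[i] U * w, by rw [map_mul]; exact (hunit i U hU).mul hw, ?_⟩
      rw [pow_succ', hw', hτ, map_mul, pow_succ', mul_assoc T, ← mul_assoc (φ U), hTpow]
      simp only [mul_assoc]
  obtain ⟨w, hw, hw'⟩ := hτpow e
  have hTe : T ^ e = φ (annMap (H.eK S) (single c0⁻¹ 1)) := by
    have h1 : φ (annMap (H.eK S) (single c0⁻¹ 1)) * (t : Module.End S.K X) ^ e = 1 := by
      rw [htpow, ← map_mul, ← map_mul, single_mul_single, inv_mul_cancel, one_mul,
        ← MonoidAlgebra.one_def, map_one, map_one]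
    have h2 : (t : Module.End S.K X) ^ e * T ^ e = 1 := by
      rw [← Commute.mul_pow (by rw [Commute, SemiconjBy, hTt, htT]), htT, one_pow]
    exact ((left_inv_eq_right_inv h1 h2)).symm
  set w' := annMap (H.eK S) (single c0⁻¹ 1) * w with hw'def
  have hw'u : IsUnit (R w') := by
    rw [hw'def, map_mul]
    refine IsUnit.mul ?_ hw
    exact IsUnit.map (R.comp (annMap (H.eK S))) (show IsUnit (single c0⁻¹ (1 : S.K)) from
      ⟨⟨single c0⁻¹ 1, single c0 1, by simp [single_mul_single, MonoidAlgebra.one_def],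
        by simp [single_mul_single, MonoidAlgebra.one_def]⟩, rfl⟩)
  have hτe : ∀ v, (τ ^ e) v = φ w' v := fun v => by rw [hw', hTe, ← map_mul]
  obtain ⟨cst, hcst, hcst0⟩ : ∃ cst : S.K, (∀ v, φ Mdl.π v = 0 → φ w' v = cst • v) ∧ cst ≠ 0 := by
    by_cases hbot : ∀ v, φ Mdl.π v = 0 → v = 0
    · exact ⟨1, fun v hv => by simp [hbot v hv], one_ne_zero⟩
    push Not at hbot
    obtain ⟨v0, hv0, hv00⟩ := hbot
    have hiter : ∀ i y v, φ Mdl.π v = 0 → (τ ^ i) (φ y v) = φ y ((τ ^ i) v) := by
      intro i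
      induction i with
      | zero => exact fun y v _ => rfl
      | succ i ih =>
        intro y v hv
        rw [pow_succ', Module.End.mul_apply, ih y v hv, hcomm y _ (hPτ i v hv)]
        rfl
    have hRsurj : Function.Surjective R := fun m => by
      obtain ⟨a, ha⟩ := H.redAlg_surjective S ρ hθ htr m
      exact ⟨annMap (H.eK S) a, ha⟩
    have hz : ∀ y, R (w' * y - y * w') = 0 := by
      intro y
      set z := w' * y - y * w' with hz
      have hzv : ∀ v, φ Mdl.π v = 0 → φ z v = 0 := fun v hv => by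
        rw [hz, map_sub, LinearMap.sub_apply, map_mul φ w' y, map_mul φ y w', Module.End.mul_apply,
          Module.End.mul_apply, ← hτe, ← hτe, hiter e y v hv, sub_self]
      by_contra hne
      obtain ⟨i, j, hij⟩ : ∃ i j, R z i j ≠ 0 := by
        by_contra h0
        push Not at h0
        exact hne (Matrix.ext h0)
      choose xl hxl using fun k => hRsurj (Matrix.single k i (R z i j)⁻¹)
      choose xr hxr using fun k => hRsurj (Matrix.single j k (1 : S.K))
      have h1 : R (∑ k, xl k * z * xr k) = 1 := by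
        rw [map_sum]
        ext a c
        simp only [map_mul, hxl, hxr, Matrix.sum_apply, Matrix.single_mul_mul_single,
          inv_mul_cancel₀ hij, mul_one, Matrix.single_apply, Matrix.one_apply]
        by_cases hac : a = c
        · subst hac; simp
        · rw [if_neg hac, Finset.sum_eq_zero fun k _ => if_neg fun h => hac (h.1.symm.trans h.2)]
      apply hv00
      have h2 := hkill (∑ k, xl k * z * xr k - 1) v0 (by rw [map_sub, h1, map_one, sub_self]) hv0
      rw [map_sub, map_one, LinearMap.sub_apply, sub_eq_zero, Module.End.one_apply] at h2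
      rw [← h2, map_sum, LinearMap.sum_apply]
      refine Finset.sum_eq_zero fun k _ => ?_
      rw [map_mul, map_mul, Module.End.mul_apply, Module.End.mul_apply, hzv _ (hPφ _ _ hv0),
        map_zero]
    obtain ⟨cst, hc⟩ : ∃ cst : S.K, Matrix.scalar _ cst = R w' :=
      Matrix.mem_range_scalar_of_commute_single fun i j _ => by
        obtain ⟨y, hy⟩ := hRsurj (Matrix.single i j 1)
        have h := hz y
        rw [map_sub, map_mul R w' y, map_mul R y w', hy, sub_eq_zero] at h
        exact h.symm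
    refine ⟨cst, fun v hv => ?_, fun h0 => ?_⟩
    · have h1 := hkill (w' - algebraMap S.K (H.Alg S) cst) v (by
        rw [map_sub, AlgHom.commutes, ← hc, sub_eq_zero]
        rfl) hv
      rwa [map_sub, AlgHom.commutes, LinearMap.sub_apply, sub_eq_zero,
        Module.algebraMap_end_apply] at h1
    · rw [← hc, h0, map_zero] at hw'u
      haveI : Nonempty (Fin d) := ⟨⟨0, H.degree_pos S ρ htr⟩⟩
      exact not_isUnit_zero hw'u
  refine ⟨τ, ⟨fun y => ?_, ⟨_, htpow⟩, fun j v hv => ?_, hcomm, ⟨U, fun v _ => ?_⟩,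
    cst, hcst0, fun v hv => by rw [hτe, hcst v hv]⟩⟩
  · obtain ⟨y', hy'⟩ := hsurj y
    exact ⟨y', by rw [← hy', hconj]⟩
  · obtain ⟨x, rfl⟩ := hv
    obtain ⟨y, hy⟩ := hrange j
    refine ⟨(φ y * T) (φ U x), ?_⟩
    have h1 : τ * φ Mdl.π ^ j = φ Mdl.π ^ j * (φ y * T * φ U) := by
      rw [hτ, mul_assoc, ← map_pow, ← map_mul φ U, ← ((Mdl.comm U).pow_left j).eq, map_mul,
        map_pow, ← mul_assoc, hy]
      simp only [mul_assoc]
    exact (DFunLike.congr_fun h1 x).symm
  · rw [← Module.End.mul_apply, hτ, ← mul_assoc, htT, one_mul]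

/-- A sum of conjugates pushes the kernels of the powers into the opposite images. -/
theorem AbNilp.isProj_trace {d : ℕ} (Mdl : PiModel S.K (H.Alg S) (Nat.card P) d)
    (hex : ∀ j ≤ Nat.card P, ∀ x, Mdl.π ^ j * x = 0 → ∃ y, x = Mdl.π ^ (Nat.card P - j) * y)
    (δ : Module.End S.K X) :
    IsProj (φ Mdl.π) (∑ g : C, φ (annMap (H.eK S) (single g 1)) * δ *
      φ (annMap (H.eK S) (single g⁻¹ 1))) (Nat.card P) := by
  classical
  intro j hj v hv
  set bas := Module.finBasis S.K X
  set ψ : C → H.Alg S := fun g => annMap (H.eK S) (single g 1) with hψ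
  let F : Fin (finrank S.K X) → X →ₗ[S.K] H.Alg S := fun i =>
    ∑ g : C, ((bas.coord i).comp (δ.comp (φ (ψ g⁻¹)))).smulRight (ψ g)
  have hF : ∀ i x, F i x = ∑ g : C, bas.coord i (δ (φ (ψ g⁻¹) x)) • ψ g := fun i x => by
    simp [F, LinearMap.sum_apply]
  have hψmul : ∀ g h, ψ g * ψ h = ψ (g * h) := fun g h => by
    simp only [hψ]
    rw [← map_mul, single_mul_single, one_mul]
  have heq : ∀ i y x, F i (φ y x) = y * F i x := by
    intro i y x
    obtain ⟨a, rfl⟩ := annMap_surjective y
    induction a using MonoidAlgebra.induction_linear with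
    | zero => simp
    | add a c ha hc => rw [map_add, map_add, LinearMap.add_apply, map_add, ha, hc, add_mul]
    | single h r =>
      rw [show single h r = r • single h (1 : S.K) by rw [smul_single, smul_eq_mul, mul_one],
        map_smul, map_smul, LinearMap.smul_apply, map_smul, smul_mul_assoc]
      congr 1
      show F i (φ (ψ h) x) = ψ h * F i x
      rw [hF, hF, Finset.mul_sum]
      refine Fintype.sum_equiv (Equiv.mulLeft h⁻¹) _ _ fun g => ?_
      show _ = ψ h * (bas.coord i (δ (φ (ψ (h⁻¹ * g)⁻¹) x)) • ψ (h⁻¹ * g))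
      rw [mul_smul_comm, hψmul, mul_inv_cancel_left, ← Module.End.mul_apply (φ (ψ g⁻¹)), ← map_mul, hψmul,
        mul_inv_rev, inv_inv]
  choose w hw using fun i => hex j hj (F i v) (by
    rw [← heq, map_pow, hv, map_zero])
  refine ⟨∑ i, φ (w i) (bas i), ?_⟩
  calc (φ Mdl.π ^ (Nat.card P - j)) (∑ i, φ (w i) (bas i))
      = ∑ i, φ (F i v) (bas i) := by
        rw [map_sum]
        refine Finset.sum_congr rfl fun i _ => ?_
        rw [hw i, map_mul, map_pow, Module.End.mul_apply]
    _ = ∑ g : C, φ (ψ g) (∑ i, bas.coord i (δ (φ (ψ g⁻¹) v)) • bas i) := by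
        simp only [hF, map_sum, map_smul, LinearMap.sum_apply, LinearMap.smul_apply]
        exact Finset.sum_comm
    _ = _ := by
        simp only [LinearMap.sum_apply]
        refine Finset.sum_congr rfl fun g _ => ?_
        rw [show ∑ i, bas.coord i (δ (φ (ψ g⁻¹) v)) • bas i = δ (φ (ψ g⁻¹) v) from
          bas.sum_repr _]
        rfl

end Action

end CfsgLib.Jordan.CyclicDefect
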